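import Cfsg.Agent.Lib.H84.Star15
import Cfsg.Agent.Lib.H80.FS4

set_option autoImplicit false
set_option linter.unusedSectionVars false
set_option linter.unusedVariables false

/-!
# Uniqueness of the local block when fusion of `u` is controlled by `D`
-/

namespace H83.SdB

open Cfsg H20.Loc H20.GA H80.GA H80.GB H80.GD H80.GE H80.GF H80.GH H80.GJ H80.FS H80.FS3 H84.RG H18.CharBasic H18.CharOrtho H18.CharInd H84.TrR
open H20.Blk H20.Orth H20.Ind H20.Height H20.Defect H80.BR1 H80.BR2 H19.Second H19.Second3 H81.Section H81.Contrib H84.Star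

universe u
attribute [local instance 2000] Fintype.ofFinite

variable {M : Ideal AlgInt} [M.IsMaximal] {G : Type u} [Group G] [Finite G]
variable [CharP (ResF M) 2] [Algebra (ZMod 2) (ResF M)] [Algebra.IsAlgebraic (ZMod 2) (ResF M)]
  [IsAlgClosed (ResF M)]

/-- (B) -/
theorem unique_local (hM : IsPModular 2 M) {B : Set (IrrCharacter G)} (hB : IsPBlock M B) {D : Subgroup G}
    (hD : IsDefectGroup 2 M B D) {u : G} (hu : u ∈ D)
    (hc : ∀ g : G, g * u * g⁻¹ ∈ D → ∃ d ∈ D, g * u * g⁻¹ = d * u * d⁻¹) {f f' : Set (IrrCharacter (C u))}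
    (hf : IsInducedBlock M (C u) f B) (hf' : IsInducedBlock M (C u) f' B) : f = f' := by
  classical
  haveI : Fact (Nat.Prime 2) := ⟨Nat.prime_two⟩
  obtain ⟨e, hmax⟩ := exists_isMax_of_isDefectGroup hM hB hD
  have huo : ∃ k : ℕ, orderOf u = 2 ^ k := order_of_mem hmax.of.pair.pgr ⟨u, hu⟩
  -- the main claim
  have key : ∀ h : Set (IrrCharacter (C u)), IsInducedBlock M (C u) h B →
      SLE 2 ⊤ (Subgroup.zpowers u) (bl M (C u) h) D e := by
    intro h hh
    have hpair : PairOf 2 ⊤ (ebar M B) (Subgroup.zpowers u) (bl M (C u) h) := (ind_iff hM huo hh.1 hB).1 hh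
    obtain ⟨x, -, hx⟩ := sle_max hmax hpair
    have h1 : x * u * x⁻¹ ∈ D := hx.le' hmax.of.pair (conj_mem_cs.2 (Subgroup.mem_zpowers u))
    obtain ⟨d, hd, hxd⟩ := hc x h1
    have h2 := sle_cj hx d⁻¹
    have hcs : cs d⁻¹ D = D := cs_of_mem (inv_mem hd)
    have hcj : cj d⁻¹ e = e := by
      have h3 := mem_Fx_of_mem_Sp_centralizer (Sp_mono inf_le_left hmax.of.pair.blk.mem.2)
      exact h3 d⁻¹ (inv_mem hd)
    rw [hcs, hcj, cs_of_mem (Subgroup.mem_top d⁻¹), ← cs_mul, ← cj_mul] at h2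
    set z := d⁻¹ * x with hz
    have hzu : z * u = u * z := by
      have h4 : z * u * z⁻¹ = u := by
        calc z * u * z⁻¹ = d⁻¹ * (x * u * x⁻¹) * d := by rw [hz]; group
          _ = u := by rw [hxd]; group
      rw [← mul_inv_eq_iff_eq_mul]; exact h4
    have hzC : z ∈ Subgroup.centralizer ((Subgroup.zpowers u : Subgroup G) : Set G) := by
      rw [Subgroup.mem_centralizer_iff]
      rintro _ ⟨k, rfl⟩
      have h5 : Commute z u := hzu
      exact (h5.zpow_right k).eq.symm
    have hcsz : cs z (Subgroup.zpowers u) = Subgroup.zpowers u :=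
      mem_normalizer.1 (centralizer_le_normalizer' _ hzC)
    have hcjz : cj z (bl M (C u) h) = bl M (C u) h := by
      exact hpair.pair.blk.mem.1 z ⟨hzC, Subgroup.mem_top z⟩
    rwa [hcsz, hcjz] at h2
  exact bl_inj hf.1 hf'.1 (SLE.unique hmax.of.pair (key f hf) (key f' hf'))

end H83.SdB
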