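import Cfsg.Agent.Lib.H5.TBa
import Cfsg.Agent.Lib.H78.BlkCount
import Cfsg.Agent.Lib.H83.SdB
import Cfsg.Agent.Lib.H81.SpnE
import Cfsg.Agent.Lib.H19.Second2
import Cfsg.Agent.Lib.H20.PPart

/-!
# Quaternion defect groups: comparison with the centralizer of the involution
-/

set_option autoImplicit false
set_option linter.unusedSectionVars false
set_option linter.unusedVariables false

namespace H83.QDiff

open Cfsg H20.Loc H20.GA H80.GA H80.GB H80.GD H80.GE H80.GF H80.GJ H80.FS H80.FS3 H84.RG H18.CharBasic H18.CharOrtho H18.CharInd H84.TrR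
open H78.BlkCount H20.Blk H20.Orth H20.Ind H20.Height H20.Defect H80.BR1 H80.BR2 H19.Second H19.Second3 H81.Section H81.Contrib H84.Star
open scoped ComplexConjugate

universe u
attribute [local instance 2000] Fintype.ofFinite

/-- `z` of order two is a power of the 2-part -/
theorem mem_part {G : Type u} [Group G] [Finite G] {z h x : G} (hz : orderOf z = 2) (h1 : z ∈ Subgroup.zpowers h)
    (hx : IsPPart 2 h x) : z ∈ Subgroup.zpowers x := by
  obtain ⟨y, h3, h4, h5, h6⟩ := hx
  rw [← h3] at h1
  obtain ⟨n, hn⟩ := h1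
  have hn' : (x * y) ^ n = z := hn
  rw [h4.mul_zpow] at hn'
  set r := orderOf y with hr
  have h7 : z ^ r = z := by
    have hodd : r % 2 = 1 := by omega
    have : z ^ 2 = 1 := by rw [← hz, pow_orderOf_eq_one]
    have h8 : r = 2 * (r / 2) + 1 := by omega
    rw [h8, pow_succ, pow_mul, this, one_pow, one_mul]
  refine ⟨n * r, ?_⟩
  change x ^ (n * (r : ℤ)) = z
  rw [← h7, ← hn', (((h4.zpow_zpow n n)).mul_pow r), ← zpow_natCast, ← zpow_mul, ← zpow_natCast (y ^ n) r, ← zpow_mul,
    mul_comm n (r : ℤ), zpow_mul y, zpow_natCast y r, hr, pow_orderOf_eq_one, one_zpow, mul_one]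

section dim
variable {G : Type u} [Group G] [Finite G]

/-- functions of the block vanishing on the regular elements -/
noncomputable def KK (B : Set (IrrCharacter G)) : Submodule ℂ (G → ℂ) :=
  (LinearMap.ker ((regL G 2).domRestrict (spn B))).map (spn B).subtype

theorem mem_KK {B : Set (IrrCharacter G)} {F : G → ℂ} : F ∈ KK B ↔ F ∈ spn B ∧ reg 2 F = 0 := by
  unfold KK
  rw [Submodule.mem_map]
  constructor
  · rintro ⟨⟨f, hf⟩, h1, rfl⟩
    exact ⟨hf, h1⟩
  · rintro ⟨h1, h2⟩
    exact ⟨⟨F, h1⟩, h2, rfl⟩

theorem finrank_KK (B : Set (IrrCharacter G)) : blockRank 2 B + Module.finrank ℂ (KK B) = Nat.card B := by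
  have h1 := LinearMap.finrank_range_add_finrank_ker ((regL G 2).domRestrict (spn B))
  rw [LinearMap.range_domRestrict, ← rspn_eq_map, finrank_spn] at h1
  rw [← h1]
  unfold KK
  rw [Submodule.finrank_map_subtype_eq]
  rfl

end dim

variable {M : Ideal AlgInt} [M.IsMaximal] {G : Type u} [Group G] [Finite G]
variable [CharP (ResF M) 2] [Algebra (ZMod 2) (ResF M)] [Algebra.IsAlgebraic (ZMod 2) (ResF M)]
  [IsAlgClosed (ResF M)]

/-- the restriction to the elements above `z` -/
noncomputable def TT (z : G) : (G → ℂ) →ₗ[ℂ] (C z → ℂ) := by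
  classical
  exact
  { toFun := fun F c => if z ∈ Subgroup.zpowers (c : G) then F c else 0
    map_add' := fun F F' => by
      funext c
      by_cases h : z ∈ Subgroup.zpowers (c : G)
      · simp [h]
      · simp [h]
    map_smul' := fun a F => by
      funext c
      by_cases h : z ∈ Subgroup.zpowers (c : G)
      · simp [h]
      · simp [h] }

theorem TT_of {z : G} {F : G → ℂ} {c : C z} (h : z ∈ Subgroup.zpowers (c : G)) : TT z F c = F c := if_pos h

theorem TT_not {z : G} {F : G → ℂ} {c : C z} (h : z ∉ Subgroup.zpowers (c : G)) : TT z F c = 0 := if_neg h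

theorem TT_class {z : G} {F : G → ℂ} (hF : IsClassFunction G F) : IsClassFunction (C z) (TT z F) := by
  intro c d
  have h1 : z ∈ Subgroup.zpowers ((d * c * d⁻¹ : C z) : G) ↔ z ∈ Subgroup.zpowers (c : G) := by
    have hd : (d : G) * z * (d : G)⁻¹ = z := by
      rw [Subgroup.mem_centralizer_singleton_iff.1 d.2, mul_assoc, mul_inv_cancel, mul_one]
    constructor
    · rintro ⟨k, hk⟩
      refine ⟨k, ?_⟩
      have hk' : ((d : G) * c * (d : G)⁻¹) ^ k = z := hk
      change (c : G) ^ k = z
      rw [conj_zpow] at hk'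
      calc (c : G) ^ k = (d : G)⁻¹ * ((d : G) * (c : G) ^ k * (d : G)⁻¹) * d := by group
        _ = (d : G)⁻¹ * ((d : G) * z * (d : G)⁻¹) * d := by rw [hk', hd]
        _ = z := by group
    · rintro ⟨k, hk⟩
      refine ⟨k, ?_⟩
      have hk' : (c : G) ^ k = z := hk
      change ((d : G) * c * (d : G)⁻¹) ^ k = z
      rw [conj_zpow, hk', hd]
  by_cases h : z ∈ Subgroup.zpowers (c : G)
  · rw [TT_of h, TT_of (h1.2 h)]
    exact hF (c : G) (d : G)
  · rw [TT_not h, TT_not (fun hh => h (h1.1 hh))]

/-- values of the functions of a block -/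
theorem exists_conj_mem (hM : IsPModular 2 M) {B : Set (IrrCharacter G)} (hB : IsPBlock M B) {D : Subgroup G}
    (hD : IsDefectGroup 2 M B D) {F : G → ℂ} (hF : F ∈ spn B) {g x : G} (hx : IsPPart 2 g x) (hne : F g ≠ 0) :
    ∃ c : G, c * x * c⁻¹ ∈ D := by
  by_contra hcon
  push Not at hcon
  apply hne
  have h : spn B ≤ LinearMap.ker (LinearMap.proj g : (G → ℂ) →ₗ[ℂ] ℂ) := by
    unfold spn
    rw [Submodule.span_le]
    rintro _ ⟨χ, hχ, rfl⟩
    change (χ : G → ℂ) g = 0
    apply H19.Second2.vanish_off_defect hM χ g x hx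
    intro D' hD' hxD'
    rw [← isPBlock_eq hB hχ] at hD'
    obtain ⟨c, hc⟩ := H20.DefGrp.isDefectGroup_conj hM hB hD hD'
    rw [hc, H20.DefGrp.mem_map_conj] at hxD'
    apply hcon c⁻¹
    rwa [inv_inv]
  exact h hF

/-- (Q1) -/
theorem rank_diff_le (hM : IsPModular 2 M) {B : Set (IrrCharacter G)} (hB : IsPBlock M B) {D : Subgroup G}
    (hD : IsDefectGroup 2 M B D) {z : G} (hzD : z ∈ D) (hz : orderOf z = 2)
    (hall : ∀ d ∈ D, d ≠ 1 → z ∈ Subgroup.zpowers d) {b : Set (IrrCharacter (C z))}
    (hind : IsInducedBlock M (C z) b B) : Nat.card B + blockRank 2 b ≤ Nat.card b + blockRank 2 B := by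
  classical
  haveI := pm_isPrime hM
  haveI : Fact (Nat.Prime 2) := ⟨Nat.prime_two⟩
  suffices hs : Module.finrank ℂ (KK B) ≤ Module.finrank ℂ (KK b) by
    have h1 := finrank_KK B
    have h2 := finrank_KK b
    omega
  -- the image lies in the block
  have hmem : ∀ F ∈ KK B, TT z F ∈ KK b := by
    intro F hF
    obtain ⟨hF1, hF2⟩ := mem_KK.1 hF
    have hFc := class_of_mem_spn hF1
    rw [mem_KK]
    constructor
    · apply H81.SpnE.mem_spn_of_inner (TT_class hFc)
      intro ξ hξ
      set b' := blockOf M (ξ : C z → ℂ) with hb'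
      have hb'b : IsPBlock M b' := isPBlock_blockOf ξ
      have hξb' : ξ ∈ b' := mem_blockOf_self ξ
      let T : Set (C z) := {c | z ∈ Subgroup.zpowers (c : G)}
      have hg : T.indicator (ξ : C z → ℂ) ∈ spn b' := by
        apply H81.SpnE.restr_spn hM hb'b (Submodule.subset_span ⟨ξ, hξb', rfl⟩)
        · intro c x hx
          constructor
          · intro hc
            have hx' : IsPPart 2 (c : G) (x : G) := by
              obtain ⟨w, hw1, hw2, ⟨k, hk⟩, hw4⟩ := hx
              refine ⟨w, congrArg Subtype.val hw1, congrArg Subtype.val hw2, ⟨k, ?_⟩, ?_⟩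
              · rw [Subgroup.orderOf_coe]; exact hk
              · rw [Subgroup.orderOf_coe]; exact hw4
            exact mem_part hz hc hx'
          · intro hc
            have h1 : x ∈ Subgroup.zpowers c := H20.First.isPPart_mem_zpowers hx
            obtain ⟨n, hn⟩ := h1
            have h2 : (x : G) ∈ Subgroup.zpowers (c : G) := ⟨n, congrArg Subtype.val hn⟩
            exact (Subgroup.zpowers_le.2 h2) hc
        · rintro d c ⟨k, hk⟩
          refine ⟨k, ?_⟩
          have hk' : (c : G) ^ k = z := hk
          change ((d : G) * c * (d : G)⁻¹) ^ k = z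
          rw [conj_zpow, hk', Subgroup.mem_centralizer_singleton_iff.1 d.2, mul_assoc, mul_inv_cancel, mul_one]
      have hgc := class_of_mem_spn hg
      -- the inner product
      have h1 : classInner (TT z F) (ξ : C z → ℂ) = classInner (fun c : C z => F c) (T.indicator (ξ : C z → ℂ)) := by
        unfold classInner
        congr 1
        refine Finset.sum_congr rfl fun c _ => ?_
        by_cases hc : c ∈ T
        · rw [TT_of hc, Set.indicator_of_mem hc]
        · rw [TT_not hc, Set.indicator_of_notMem hc]
          simp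
      have h2 : classInner (indFun (C z) (T.indicator (ξ : C z → ℂ))) F =
          classInner (T.indicator (ξ : C z → ℂ)) (fun c : C z => F c) := frobenius (C z) _ hFc
      have hzp : IsPGroup 2 (Subgroup.zpowers z) := IsPGroup.of_card (n := 1) (by rw [Nat.card_zpowers, hz, pow_one])
      have hzC : z ∈ C z := Subgroup.mem_centralizer_singleton_iff.2 rfl
      obtain ⟨B'', hB''⟩ := H19.BrMap.exists_induced hM (H := C z) hzp (Subgroup.zpowers_le.2 hzC) (by
        intro g hg
        rw [Subgroup.mem_centralizer_iff] at hg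
        rw [Subgroup.mem_centralizer_singleton_iff]
        exact (hg z (Subgroup.mem_zpowers z)).symm) (by
        intro g hg
        rw [Subgroup.mem_centralizer_singleton_iff] at hg
        apply Subgroup.centralizer_le_normalizer
        rw [Subgroup.mem_centralizer_iff]
        rintro _ ⟨k, rfl⟩
        have h5 : Commute g z := hg
        exact (h5.zpow_right k).eq.symm) hb'b
      have h3 : indFun (C z) (T.indicator (ξ : C z → ℂ)) ∈ spn B'' := by
        apply H81.SpnE.ind_spn hM hB'' hg
        intro h hne x hx g hg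
        have hh : h ∈ T := by
          by_contra hcon
          exact hne (Set.indicator_of_notMem hcon _)
        obtain ⟨n, hn⟩ := mem_part hz hh hx
        have hn' : x ^ n = z := hn
        rw [Subgroup.mem_centralizer_singleton_iff] at hg ⊢
        rw [← hn']
        have hc : Commute g x := hg
        exact (hc.zpow_right n).eq
      have hBB : B'' ≠ B := by
        rintro rfl
        apply hξ
        have h4 : b = b' := by
          refine H83.SdB.unique_local hM hB hD hzD ?_ hind hB''
          intro g hg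
          refine ⟨1, one_mem _, ?_⟩
          have h5 : orderOf (g * z * g⁻¹) = 2 := by
            rw [← hz]
            exact orderOf_injective (MulAut.conj g).toMonoidHom (MulAut.conj g).injective z
          have h6 : z ∈ Subgroup.zpowers (g * z * g⁻¹) := by
            apply hall _ hg
            intro h7
            rw [h7, orderOf_one] at h5
            omega
          have h7 := H5.TBa.inv_unique (Subgroup.mem_zpowers (g * z * g⁻¹)) h6 h5 hz
          rw [h7]; group
        rw [h4]; exact hξb'
      have h4 : classInner (indFun (C z) (T.indicator (ξ : C z → ℂ))) F = 0 := by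
        have h5 : proj B (indFun (C z) (T.indicator (ξ : C z → ℂ))) = 0 :=
          proj_of_mem_spn' hB hB''.2.1 (Ne.symm hBB) h3
        have h6 := H81.Contrib.inner_proj_comm B (indFun (C z) (T.indicator (ξ : C z → ℂ))) F
        rw [h5, proj_of_mem_spn hF1] at h6
        rw [← h6]
        simp [classInner]
      rw [h1, ← H18.CharOrtho.inner_conj_symm, ← h2, h4, map_zero]
    · funext c
      by_cases hc : 2 ∣ orderOf c
      · rw [reg_not hc]; rfl
      · rw [reg_of hc, Pi.zero_apply]
        apply TT_not
        intro h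
        apply hc
        have h1 := orderOf_dvd_of_mem_zpowers h
        rw [hz, Subgroup.orderOf_coe] at h1
        exact h1
  -- injectivity
  have hinj : ∀ F ∈ KK B, TT z F = 0 → F = 0 := by
    intro F hF h0
    obtain ⟨hF1, hF2⟩ := mem_KK.1 hF
    have hFc := class_of_mem_spn hF1
    funext g
    rw [Pi.zero_apply]
    by_contra hne
    obtain ⟨x, hx⟩ := exists_isPPart Nat.prime_two g
    obtain ⟨c, hc⟩ := exists_conj_mem hM hB hD hF1 hx hne
    have hx1 : x ≠ 1 := by
      rintro rfl
      apply hne
      have h1 := congrFun hF2 g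
      rw [reg_of] at h1
      · exact h1
      · obtain ⟨w, hw1, hw2, hw3, hw4⟩ := hx
        rw [one_mul] at hw1
        rw [← hw1]; exact hw4
    have h1 : z ∈ Subgroup.zpowers (c * x * c⁻¹) := by
      apply hall _ hc
      intro h
      apply hx1
      rwa [mul_inv_eq_one, mul_eq_left] at h
    have h2 : x ∈ Subgroup.zpowers g := H20.First.isPPart_mem_zpowers hx
    have h3 : z ∈ Subgroup.zpowers (c * g * c⁻¹) := by
      have h4 : c * x * c⁻¹ ∈ Subgroup.zpowers (c * g * c⁻¹) := by
        obtain ⟨n, hn⟩ := h2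
        refine ⟨n, ?_⟩
        have hn' : g ^ n = x := hn
        change (c * g * c⁻¹) ^ n = c * x * c⁻¹
        rw [conj_zpow, hn']
      exact (Subgroup.zpowers_le.2 h4) h1
    have h4 : c * g * c⁻¹ ∈ C z := by
      rw [Subgroup.mem_centralizer_singleton_iff]
      obtain ⟨n, hn⟩ := h3
      have hn' : (c * g * c⁻¹) ^ n = z := hn
      rw [← hn']
      exact ((Commute.refl (c * g * c⁻¹)).zpow_right n).eq
    have h5 := congrFun h0 ⟨c * g * c⁻¹, h4⟩
    rw [TT_of h3, Pi.zero_apply] at h5
    apply hne
    rw [← hFc g c]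
    exact h5
  let Tl : KK B →ₗ[ℂ] KK b := ((TT z).domRestrict (KK B)).codRestrict (KK b) (fun F => hmem F.1 F.2)
  apply LinearMap.finrank_le_finrank_of_injective (f := Tl)
  rw [← LinearMap.ker_eq_bot, LinearMap.ker_eq_bot']
  rintro ⟨F, hF⟩ h0
  apply Subtype.ext
  exact hinj F hF (congrArg Subtype.val h0)

end H83.QDiff
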