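import Mathlib
import Cfsg.Agent.Lib.H5.ZStar

/-!
# An involution isolated modulo a central involution (general part of piece CW of S3330)
-/

set_option autoImplicit false

namespace H83.RACw0

open Subgroup Cfsg

universe u

variable {B : Type u} [Group B]

theorem mem_zj {j : B} (hj : j * j = 1) {a : B} (ha : a ∈ zpowers j) : a = 1 ∨ a = j := by
  obtain ⟨k, rfl⟩ := mem_zpowers_iff.mp ha
  rcases Int.even_or_odd k with ⟨m, rfl⟩ | ⟨m, rfl⟩
  · left
    have : j ^ (m + m) = (j * j) ^ m := by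
      rw [(Commute.refl j).mul_zpow, zpow_add]
    rw [this, hj, one_zpow]
  · right
    have : j ^ (2 * m + 1) = (j * j) ^ m * j := by
      rw [(Commute.refl j).mul_zpow, zpow_add, two_mul, zpow_add, zpow_one]
    rw [this, hj, one_zpow, one_mul]

/-- dihedral computation -/
theorem dih {x g : B} (hx : x * x = 1) (k : ℕ) :
    x * (((x * (g * x * g⁻¹)) ^ k)⁻¹ * g) * x * (((x * (g * x * g⁻¹)) ^ k)⁻¹ * g)⁻¹ =
      (x * (g * x * g⁻¹)) ^ (2 * k + 1) := by
  have hxi : x⁻¹ = x := inv_eq_of_mul_eq_one_left hx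
  set y := g * x * g⁻¹ with hy
  have hyy : y * y = 1 := by
    rw [hy]
    have : g * x * g⁻¹ * (g * x * g⁻¹) = g * (x * x) * g⁻¹ := by group
    rw [this, hx]; group
  have hyi : y⁻¹ = y := inv_eq_of_mul_eq_one_left hyy
  have hinv : x * (x * y)⁻¹ * x⁻¹ = x * y := by
    rw [mul_inv_rev, hyi, hxi]
    rw [mul_assoc, mul_assoc, hx, mul_one]
  have h1 : x * ((x * y) ^ k)⁻¹ * x⁻¹ = (x * y) ^ k := by
    rw [← inv_pow, ← conj_pow, hinv]
  calc x * (((x * y) ^ k)⁻¹ * g) * x * (((x * y) ^ k)⁻¹ * g)⁻¹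
      = (x * ((x * y) ^ k)⁻¹ * x⁻¹) * x * (g * x * g⁻¹) * (x * y) ^ k := by group
    _ = (x * y) ^ k * (x * y) * (x * y) ^ k := by rw [h1, ← hy]; group
    _ = (x * y) ^ (2 * k + 1) := by
        rw [← pow_succ, ← pow_add]; congr 1; ring

theorem fpf [Finite B] {j v : B} (hj : j * j = 1) (hj1 : j ≠ 1) (hjc : j ∈ center B)
    [hn : (zpowers j).Normal]
    (hv : v * v = 1) (cv : ∀ g : B, Odd (orderOf g) → v * g = g * v → g = 1)
    (n : B ⧸ zpowers j) (hnm : n ∈ pPrimeCore 2 (B ⧸ zpowers j)) :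
    QuotientGroup.mk' (zpowers j) v * n * (QuotientGroup.mk' (zpowers j) v)⁻¹ = n⁻¹ := by
  classical
  set π := QuotientGroup.mk' (zpowers j) with hπ
  have hπj : ∀ a b : B, π a = π b → b = a ∨ b = a * j := by
    intro a b hab
    have h1 : a⁻¹ * b ∈ zpowers j := QuotientGroup.eq.mp hab
    rcases mem_zj hj h1 with h2 | h2
    · left; rw [inv_mul_eq_one] at h2; exact h2.symm
    · right; rw [← h2]; group
  have hco := H1.Cores.coprime_card_pPrimeCore (G := B ⧸ zpowers j) 2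
  let φ : MulAut (pPrimeCore 2 (B ⧸ zpowers j)) := MulAut.conjNormal (π v)
  have hφv : ∀ m, ((φ m : pPrimeCore 2 (B ⧸ zpowers j)) : B ⧸ zpowers j) = π v * m * (π v)⁻¹ := fun m =>
    MulAut.conjNormal_apply _ _
  have hfp : MonoidHom.FixedPointFree (φ : pPrimeCore 2 (B ⧸ zpowers j) → pPrimeCore 2 (B ⧸ zpowers j)) := by
    intro m hm
    have hm' : π v * (m : B ⧸ zpowers j) * (π v)⁻¹ = m := by rw [← hφv, hm]
    obtain ⟨b, hb⟩ := QuotientGroup.mk'_surjective (zpowers j) (m : B ⧸ zpowers j)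
    have hodd : Odd (orderOf m) := by
      have h2 : orderOf m ∣ Nat.card (pPrimeCore 2 (B ⧸ zpowers j)) := orderOf_dvd_natCard _
      have h3 : (orderOf m).Coprime 2 := hco.coprime_dvd_left h2
      exact Nat.coprime_two_right.mp h3
    set k := orderOf m with hk
    have hbk : π (b ^ k) = π 1 := by
      rw [map_pow, hb, map_one, ← SubgroupClass.coe_pow, hk, pow_orderOf_eq_one]; rfl
    have hjk : j ^ k = j := by
      obtain ⟨r, hr⟩ := hodd
      rw [hr, pow_succ, pow_mul, pow_two, hj, one_pow, one_mul]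
    have hjcom : ∀ a : B, j * a = a * j := fun a => (mem_center_iff.mp hjc a).symm
    -- lift of odd order
    obtain ⟨c, hc, hck⟩ : ∃ c : B, π c = (m : B ⧸ zpowers j) ∧ c ^ k = 1 := by
      rcases hπj 1 (b ^ k) hbk.symm with h1 | h1
      · exact ⟨b, hb, h1⟩
      · refine ⟨b * j, ?_, ?_⟩
        · rw [← hb]
          refine QuotientGroup.eq.mpr ?_
          have : (b * j)⁻¹ * b = j⁻¹ := by group
          rw [this]; exact inv_mem (mem_zpowers j)
        · rw [(show Commute b j from (hjcom b).symm).mul_pow, h1, hjk, one_mul, hj]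
    have hcodd : Odd (orderOf c) := Odd.of_dvd_nat hodd (orderOf_dvd_of_pow_eq_one hck)
    have h4 : π (v * c * v⁻¹) = π c := by
      rw [map_mul, map_mul, map_inv, hc, hm']
    have h5 : v * c = c * v := by
      rcases hπj c (v * c * v⁻¹) h4.symm with h6 | h6
      · rw [mul_inv_eq_iff_eq_mul] at h6; exact h6
      · exfalso
        have h7 : (v * c * v⁻¹) ^ k = 1 := by rw [conj_pow, hck]; group
        rw [h6, (show Commute c j from (hjcom c).symm).mul_pow, hck, hjk, one_mul] at h7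
        exact hj1 h7
    have h8 := cv c hcodd h5
    rw [h8, map_one] at hc
    exact Subtype.ext hc.symm
  have hinvol : Function.Involutive (φ : pPrimeCore 2 (B ⧸ zpowers j) → pPrimeCore 2 (B ⧸ zpowers j)) := by
    intro m
    apply Subtype.ext
    rw [hφv, hφv]
    have : π v * (π v * (m : B ⧸ zpowers j) * (π v)⁻¹) * (π v)⁻¹ =
        π (v * v) * m * (π (v * v))⁻¹ := by rw [map_mul]; group
    rw [this, hv, map_one]; simp
  have h9 := MonoidHom.FixedPointFree.coe_eq_inv_of_involutive hfp hinvol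
  have h10 := congrFun h9 ⟨n, hnm⟩
  have h11 := congrArg (Subtype.val) h10
  rw [hφv] at h11
  exact h11

theorem genq [Finite B] {j x u : B} (hj : j * j = 1) (hj1 : j ≠ 1) (hjc : j ∈ center B)
    (hx : x * x = 1) (hx1 : x ≠ 1) (hxj : x ≠ j) (hu : u * u = 1) (hxu : x * u = u * x)
    (hodd : ∀ g : B, ∃ m : ℕ, Odd m ∧
      ((x * (g * x * g⁻¹)) ^ m = 1 ∨ (x * (g * x * g⁻¹)) ^ m = j))
    (c1 : ∀ g : B, Odd (orderOf g) → x * g = g * x → g = 1)
    (c2 : ∀ g : B, Odd (orderOf g) → u * g = g * u → g = 1)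
    (c3 : ∀ g : B, Odd (orderOf g) → (x * u) * g = g * (x * u) → g = 1) (g : B) :
    g * x * g⁻¹ = x ∨ g * x * g⁻¹ = x * j := by
  have hn : (zpowers j).Normal := by
    refine ⟨fun n hn g => ?_⟩
    have hcz : zpowers j ≤ center B := by rw [zpowers_le]; exact hjc
    have := mem_center_iff.mp (hcz hn) g
    rw [this]
    simpa using hn
  set π := QuotientGroup.mk' (zpowers j) with hπ
  have hπ1 : ∀ a : B, π a = 1 → a = 1 ∨ a = j := by
    intro a ha
    exact mem_zj hj ((QuotientGroup.eq_one_iff (N := zpowers j) a).mp ha)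
  have hπj : π j = 1 := (QuotientGroup.eq_one_iff (N := zpowers j) j).mpr (mem_zpowers j)
  have hiso : H5.ZStar1.IsoInv (π x) := by
    refine ⟨H5.Dihedral.orderOf_eq_two (by rw [← map_mul, hx, map_one]) ?_, ?_⟩
    · intro h
      rcases hπ1 x h with h | h
      · exact hx1 h
      · exact hxj h
    · intro q
      obtain ⟨g', rfl⟩ := QuotientGroup.mk'_surjective (zpowers j) q
      obtain ⟨m, hm, hm'⟩ := hodd g'
      have h1 : (π x * (π g' * π x * (π g')⁻¹)) ^ m = 1 := by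
        rw [← map_inv, ← map_mul, ← map_mul, ← map_mul, ← map_pow]
        rcases hm' with h | h
        · rw [h, map_one]
        · rw [h, hπj]
      exact Odd.of_dvd_nat hm (orderOf_dvd_of_pow_eq_one h1)
  have hxuxu : (x * u) * (x * u) = 1 := by
    have : (x * u) * (x * u) = (x * x) * (u * u) := by
      rw [mul_assoc, ← mul_assoc u x u, ← hxu]; simp only [mul_assoc]
    rw [this, hx, hu, one_mul]
  have hbot : ∀ n : B ⧸ zpowers j, n ∈ pPrimeCore 2 (B ⧸ zpowers j) → n = 1 := by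
    intro n hn'
    have e1 := fpf hj hj1 hjc hx c1
    have e2 := fpf hj hj1 hjc hu c2 n hn'
    have e3 := fpf hj hj1 hjc hxuxu c3 n hn'
    have e4 := e1 n⁻¹ (inv_mem hn')
    have h1 : n⁻¹ = n := by
      rw [← e3, map_mul]
      have : QuotientGroup.mk' (zpowers j) x * QuotientGroup.mk' (zpowers j) u * n *
          (QuotientGroup.mk' (zpowers j) x * QuotientGroup.mk' (zpowers j) u)⁻¹ =
          QuotientGroup.mk' (zpowers j) x * (QuotientGroup.mk' (zpowers j) u * n *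
          (QuotientGroup.mk' (zpowers j) u)⁻¹) * (QuotientGroup.mk' (zpowers j) x)⁻¹ := by group
      rw [this, e2, e4, inv_inv]
    have hco := H1.Cores.coprime_card_pPrimeCore (G := B ⧸ zpowers j) 2
    have h2 : orderOf (⟨n, hn'⟩ : pPrimeCore 2 (B ⧸ zpowers j)) ∣
      Nat.card (pPrimeCore 2 (B ⧸ zpowers j)) := orderOf_dvd_natCard _
    rw [Subgroup.orderOf_mk] at h2
    have h3 : (orderOf n).Coprime 2 := hco.coprime_dvd_left h2
    have h4 : orderOf n ∣ 2 := orderOf_dvd_of_pow_eq_one (by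
      rw [pow_two]; nth_rewrite 1 [← h1]; exact inv_mul_cancel n)
    have h5 : orderOf n = 1 := by
      have := Nat.dvd_gcd (dvd_refl (orderOf n)) h4
      rw [h3] at this
      exact Nat.dvd_one.mp this
    exact orderOf_eq_one_iff.mp h5
  have h1 := hbot _ (H5.ZStar.zstar hiso (π g))
  rw [← map_inv, ← map_mul, ← map_mul, ← map_mul] at h1
  rcases hπ1 _ h1 with h2 | h2
  · left
    have := eq_inv_of_mul_eq_one_right h2
    rw [this, inv_eq_of_mul_eq_one_left hx]
  · right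
    calc g * x * g⁻¹ = x * (x * (g * x * g⁻¹)) := by rw [← mul_assoc, hx, one_mul]
      _ = x * j := by rw [h2]

theorem syl [Finite B] (H : Subgroup B) (hH : IsPGroup 2 H) (t : B) (ht : t ∈ H)
    (hfus : ∀ g : B, g * t * g⁻¹ ∈ H → g ∈ H) (Q : Sylow 2 B) :
    ∃ b : B, ∀ q ∈ Q, b * q * b⁻¹ ∈ H := by
  have : Fact (Nat.Prime 2) := ⟨Nat.prime_two⟩
  obtain ⟨P, hP⟩ := hH.exists_le_sylow
  have hPH : (P : Subgroup B) ≤ H := by
    by_contra hcon
    have h1 : H.subgroupOf (P : Subgroup B) ≠ ⊤ := by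
      intro h2
      exact hcon (subgroupOf_eq_top.mp h2)
    have hnil : Group.IsNilpotent (P : Subgroup B) := P.2.isNilpotent
    have h3 := Group.normalizerCondition_of_isNilpotent (G := (P : Subgroup B)) _ (lt_top_iff_ne_top.mpr h1)
    obtain ⟨p, hp, hp'⟩ := SetLike.exists_of_lt h3
    have h4 : (⟨t, hP ht⟩ : (P : Subgroup B)) ∈ H.subgroupOf (P : Subgroup B) := ht
    have h5 := (mem_normalizer_iff.mp hp ⟨t, hP ht⟩).mp h4
    exact hp' (hfus p h5)
  obtain ⟨b, hb⟩ := MulAction.exists_smul_eq B Q P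
  refine ⟨b, fun q hq => hPH ?_⟩
  rw [← hb]
  have := Subgroup.smul_mem_pointwise_smul q (MulAut.conj b) (Q : Subgroup B) hq
  exact this

theorem conj_odd [Finite B] {j x t : B} (hj : j * j = 1) (hjc : j ∈ center B) (hx : x * x = 1)
    (H : Subgroup B) (hH : IsPGroup 2 H) (ht : t ∈ H) (hfus : ∀ g : B, g * t * g⁻¹ ∈ H → g ∈ H)
    (hstar : ∀ k : B, k * x * k⁻¹ ∈ H → k ∈ H)
    (hHx : ∀ k ∈ H, k * x * k⁻¹ = x ∨ k * x * k⁻¹ = x * j) (g : B) :
    ∃ m : ℕ, Odd m ∧ ((x * (g * x * g⁻¹)) ^ m = 1 ∨ (x * (g * x * g⁻¹)) ^ m = j) := by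
  have hxi : x⁻¹ = x := inv_eq_of_mul_eq_one_left hx
  have hjcom : ∀ a : B, j * a = a * j := fun a => (mem_center_iff.mp hjc a).symm
  obtain ⟨a, m, hm, hom⟩ := Nat.exists_eq_two_pow_mul_odd (orderOf_pos (x * (g * x * g⁻¹))).ne'
  refine ⟨m, hm, ?_⟩
  obtain ⟨k, hk⟩ := hm
  have hd := dih (x := x) (g := g) hx k
  rw [← hk] at hd
  set w := x * (g * x * g⁻¹) with hw
  set g' := (w ^ k)⁻¹ * g with hg'
  set y := w ^ m with hy
  have hy2 : y ^ 2 ^ a = 1 := by
    rw [hy, ← pow_mul, mul_comm, ← hom, pow_orderOf_eq_one]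
  have hyP : IsPGroup 2 (zpowers y) := by
    rintro ⟨z, hz⟩
    obtain ⟨i, rfl⟩ := mem_zpowers_iff.mp hz
    refine ⟨a, Subtype.ext ?_⟩
    show (y ^ i) ^ 2 ^ a = 1
    rw [← zpow_natCast, ← zpow_mul, mul_comm, zpow_mul, zpow_natCast, hy2, one_zpow]
  have hxP : IsPGroup 2 (zpowers x) := by
    rintro ⟨z, hz⟩
    refine ⟨1, Subtype.ext ?_⟩
    show z ^ 2 ^ 1 = 1
    rcases mem_zj hx hz with rfl | rfl
    · exact one_pow _
    · rw [pow_one, pow_two, hx]
  have hxy : x * y * x⁻¹ = y⁻¹ := by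
    have h1 : g' * x * g'⁻¹ * (g' * x * g'⁻¹) = 1 := by
      have : g' * x * g'⁻¹ * (g' * x * g'⁻¹) = g' * (x * x) * g'⁻¹ := by group
      rw [this, hx]; group
    rw [eq_inv_iff_mul_eq_one, hxi, ← hd]
    have : x * (x * g' * x * g'⁻¹) * x * (x * g' * x * g'⁻¹) =
      (x * x) * (g' * x * g'⁻¹) * (x * x) * (g' * x * g'⁻¹) := by group
    rw [this, hx, one_mul, mul_one, h1]
  have hnorm : zpowers x ≤ normalizer (zpowers y : Set B) := by
    rw [zpowers_le]
    have key : ∀ z ∈ zpowers y, x * z * x⁻¹ ∈ zpowers y := by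
      intro z hz
      obtain ⟨i, rfl⟩ := mem_zpowers_iff.mp hz
      rw [← conj_zpow, hxy]
      exact zpow_mem (inv_mem (mem_zpowers y)) i
    rw [mem_normalizer_iff]
    intro z
    refine ⟨key z, fun hz => ?_⟩
    have h2 := key _ hz
    have h3 : x * (x * z * x⁻¹) * x⁻¹ = (x * x) * z * (x * x)⁻¹ := by group
    rw [h3, hx] at h2
    simpa using h2
  have : Fact (Nat.Prime 2) := ⟨Nat.prime_two⟩
  have hD : IsPGroup 2 (zpowers x ⊔ zpowers y : Subgroup B) :=
    IsPGroup.to_sup_of_normal_right' hxP hyP hnorm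
  obtain ⟨Q, hQ⟩ := hD.exists_le_sylow
  have hxQ : x ∈ Q := hQ (mem_sup_left (mem_zpowers x))
  have hyQ : y ∈ Q := hQ (mem_sup_right (mem_zpowers y))
  have hxgQ : g' * x * g'⁻¹ ∈ Q := by
    have : g' * x * g'⁻¹ = x * y := by
      rw [← hd]
      have : x * (x * g' * x * g'⁻¹) = (x * x) * (g' * x * g'⁻¹) := by group
      rw [this, hx, one_mul]
    rw [this]; exact mul_mem hxQ hyQ
  obtain ⟨b, hb⟩ := syl H hH t ht hfus Q
  have hbH := hstar b (hb x hxQ)
  have hbg := hb _ hxgQ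
  have e1 : b * (g' * x * g'⁻¹) * b⁻¹ = (b * g') * x * (b * g')⁻¹ := by group
  rw [e1] at hbg
  have hbgH := hstar _ hbg
  have e2 : y = b⁻¹ * ((b * x * b⁻¹) * ((b * g') * x * (b * g')⁻¹)) * b := by
    rw [← hd]; group
  have hfin : (b * x * b⁻¹) * ((b * g') * x * (b * g')⁻¹) = 1 ∨
      (b * x * b⁻¹) * ((b * g') * x * (b * g')⁻¹) = j := by
    rcases hHx b hbH with h1 | h1 <;> rcases hHx _ hbgH with h2 | h2 <;> rw [h1, h2]
    · left; exact hx
    · right; rw [← mul_assoc, hx, one_mul]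
    · right; rw [mul_assoc, hjcom, ← mul_assoc, hx, one_mul]
    · left
      have : x * j * (x * j) = (x * x) * (j * j) := by
        rw [mul_assoc, ← mul_assoc j x j, hjcom x]; simp only [mul_assoc]
      rw [this, hx, hj, one_mul]
  rcases hfin with h3 | h3
  · left; rw [e2, h3]; group
  · right; rw [e2, h3, mul_assoc, hjcom]; group

end H83.RACw0
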