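import Mathlib
import Cfsg.Agent.Lib.H54.RA0
import Cfsg.Agent.Lib.H54.RA1
import Cfsg.Agent.Lib.H83.RACw0

/-!
# Piece CW of S3330: the centralizer of `Φ (b0, b0)`
-/

set_option autoImplicit false
set_option maxRecDepth 100000

namespace H83.RACw

open Equiv Subgroup H54.RA

variable {G : Type*} [Group G]

def sw (e : EE) : EE := mkE e.1.2 e.1.1 e.2.symm

theorem n_mul {Φ : EE →* G} {n : G} (h : TM Φ n) (e : EE) : n * Φ e = Φ (sw e) * n :=
  mul_inv_eq_iff_eq_mul.mp (h.nc e.1.1 e.1.2 e.2)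

theorem sw_sw (e : EE) : sw (sw e) = e := rfl

theorem mul_mk {Φ : EE →* G} (a b c d : Perm (Fin 5)) (h1 : Perm.sign a = Perm.sign b)
    (h2 : Perm.sign c = Perm.sign d) (h3 : Perm.sign (a * c) = Perm.sign (b * d)) :
    Φ (mkE a b h1) * Φ (mkE c d h2) = Φ (mkE (a * c) (b * d) h3) := by
  rw [← map_mul]; rfl

def MM {Φ : EE →* G} {n : G} (h : TM Φ n) : Subgroup G where
  carrier := {g | (∃ e, g = Φ e) ∨ (∃ e, g = Φ e * n)}
  one_mem' := Or.inl ⟨1, (map_one Φ).symm⟩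
  mul_mem' := by
    rintro a b (⟨e, rfl⟩ | ⟨e, rfl⟩) (⟨f, rfl⟩ | ⟨f, rfl⟩)
    · exact Or.inl ⟨e * f, (map_mul Φ e f).symm⟩
    · exact Or.inr ⟨e * f, by rw [map_mul, mul_assoc]⟩
    · exact Or.inr ⟨e * sw f, by rw [map_mul, mul_assoc, n_mul h, mul_assoc]⟩
    · refine Or.inl ⟨e * sw f, ?_⟩
      rw [map_mul]
      calc Φ e * n * (Φ f * n) = Φ e * (n * Φ f) * n := by simp only [mul_assoc]
        _ = Φ e * Φ (sw f) * (n * n) := by rw [n_mul h]; simp only [mul_assoc]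
        _ = _ := by rw [h.nn, mul_one]
  inv_mem' := by
    rintro a (⟨e, rfl⟩ | ⟨e, rfl⟩)
    · exact Or.inl ⟨e⁻¹, (map_inv Φ e).symm⟩
    · refine Or.inr ⟨sw e⁻¹, ?_⟩
      rw [← n_mul h, mul_inv_rev, map_inv, inv_eq_of_mul_eq_one_left h.nn]

theorem mem_MM {Φ : EE →* G} {n : G} (h : TM Φ n) (g : G) :
    g ∈ MM h ↔ (g ∈ Φ.range ∨ g * n ∈ Φ.range) := by
  constructor
  · rintro (⟨e, rfl⟩ | ⟨e, rfl⟩)
    · exact Or.inl ⟨e, rfl⟩
    · exact Or.inr ⟨e, by rw [mul_assoc, h.nn, mul_one]⟩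
  · rintro (⟨e, he⟩ | ⟨e, he⟩)
    · exact Or.inl ⟨e, he.symm⟩
    · exact Or.inr ⟨e, by rw [he, mul_assoc, h.nn, mul_one]⟩

theorem n_mem {Φ : EE →* G} {n : G} (h : TM Φ n) : n ∈ MM h :=
  Or.inr ⟨1, by rw [map_one, one_mul]⟩

theorem Φ_mem {Φ : EE →* G} {n : G} (h : TM Φ n) (e : EE) : Φ e ∈ MM h := Or.inl ⟨e, rfl⟩

/-- every element of order at most `2` of `Sym(5)` commutes with a transposition -/
theorem dec1 : ∀ a : Perm (Fin 5), a * a = 1 → ∃ i j : Fin 5, i ≠ j ∧ a * swap i j = swap i j * a := by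
  decide +kernel

/-- transpositions are conjugate to `t5` by even elements -/
theorem conj_t5 (i j : Fin 5) (hij : i ≠ j) :
    ∃ c : Perm (Fin 5), Perm.sign c = 1 ∧ c * t5 * c⁻¹ = swap i j := by
  have h1 : IsConj t5 (swap i j) := by
    unfold t5
    exact Perm.isConj_swap (by decide) hij
  obtain ⟨c, hc⟩ := isConj_iff.mp h1
  rcases Int.units_eq_one_or (Perm.sign c) with h2 | h2
  · exact ⟨c, h2, hc⟩
  · refine ⟨c * t5, ?_, ?_⟩
    · rw [Perm.sign_mul, h2]; decide +kernel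
    · rw [← hc]
      group

theorem L1 {Φ : EE →* G} {n : G} (h : TM Φ n) {y : G} (hy : y ∈ MM h) (hyy : y * y = 1) :
    ∃ m ∈ MM h, y * (m * Φ tE * m⁻¹) = (m * Φ tE * m⁻¹) * y := by
  rcases hy with ⟨e, rfl⟩ | ⟨e, rfl⟩
  · obtain ⟨⟨a, b⟩, hab⟩ := e
    have h1 : (⟨(a, b), hab⟩ : EE) * ⟨(a, b), hab⟩ = 1 := by
      apply h.inj; rw [map_mul, map_one]; exact hyy
    have h2 : a * a = 1 := congrArg (fun z : EE => z.1.1) h1
    have h3 : b * b = 1 := congrArg (fun z : EE => z.1.2) h1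
    obtain ⟨i, j, hij, h4⟩ := dec1 a h2
    obtain ⟨k, l, hkl, h5⟩ := dec1 b h3
    obtain ⟨c, hc, hc'⟩ := conj_t5 i j hij
    obtain ⟨d, hd, hd'⟩ := conj_t5 k l hkl
    refine ⟨Φ (mkE c d (hc.trans hd.symm)), Φ_mem h _, ?_⟩
    have h6 : mkE c d (hc.trans hd.symm) * tE * (mkE c d (hc.trans hd.symm))⁻¹ =
        mkE (swap i j) (swap k l) (by rw [Perm.sign_swap hij, Perm.sign_swap hkl]) := by
      apply Subtype.ext
      exact Prod.ext hc' hd'
    rw [← map_inv, ← map_mul, ← map_mul, h6, ← map_mul, ← map_mul]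
    congr 1
    apply Subtype.ext
    exact Prod.ext h4 h5
  · obtain ⟨⟨a, b⟩, hab⟩ := e
    have h1 : (⟨(a, b), hab⟩ : EE) * sw ⟨(a, b), hab⟩ = 1 := by
      apply h.inj; rw [map_mul, map_one]
      calc Φ ⟨(a, b), hab⟩ * Φ (sw ⟨(a, b), hab⟩)
          = Φ ⟨(a, b), hab⟩ * (Φ (sw ⟨(a, b), hab⟩) * n) * n := by
            simp only [mul_assoc]; rw [h.nn, mul_one]
        _ = Φ ⟨(a, b), hab⟩ * n * (Φ ⟨(a, b), hab⟩ * n) := by
            rw [← n_mul h]; simp only [mul_assoc]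
        _ = 1 := hyy
    have h2 : a * b = 1 := congrArg (fun z : EE => z.1.1) h1
    have hb : b = a⁻¹ := eq_inv_of_mul_eq_one_right h2
    subst hb
    obtain ⟨c, hc, hc'⟩ : ∃ c : Perm (Fin 5), Perm.sign a = Perm.sign c ∧ c * t5 * c⁻¹ = t5 := by
      rcases Int.units_eq_one_or (Perm.sign a) with h3 | h3
      · exact ⟨1, by rw [h3, Perm.sign_one], by group⟩
      · refine ⟨t5, ?_, by group⟩
        rw [h3]; decide +kernel
    refine ⟨Φ (mkE a c hc), Φ_mem h _, ?_⟩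
    have hs : Perm.sign (a * t5 * a⁻¹) = Perm.sign t5 := by
      rw [Perm.sign_mul, Perm.sign_mul, Perm.sign_inv, mul_comm, ← mul_assoc, Int.units_mul_self,
        one_mul]
    have h6 : mkE a c hc * tE * (mkE a c hc)⁻¹ = mkE (a * t5 * a⁻¹) t5 hs := by
      apply Subtype.ext
      exact Prod.ext rfl hc'
    rw [← map_inv, ← map_mul, ← map_mul, h6, mul_assoc, n_mul h, ← mul_assoc, ← mul_assoc,
      ← map_mul, ← map_mul]
    congr 2
    apply Subtype.ext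
    refine Prod.ext ?_ ?_
    · show a * t5 = a * t5 * a⁻¹ * a
      group
    · show a⁻¹ * (a * t5 * a⁻¹) = t5 * a⁻¹
      group

/-- `★` -/
theorem L2 {Φ : EE →* G} {n x : G} (h : TM Φ n) (hx : x * x = 1)
    (hu : ∀ g : G, g * x = x * g → g ∈ Φ.range) {k : G} (hk : k * x * k⁻¹ ∈ MM h) :
    k ∈ MM h := by
  have hyy : k * x * k⁻¹ * (k * x * k⁻¹) = 1 := by
    have : k * x * k⁻¹ * (k * x * k⁻¹) = k * (x * x) * k⁻¹ := by group
    rw [this, hx]; group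
  obtain ⟨m, hm, hc⟩ := L1 h hk hyy
  have h1 : (k⁻¹ * m) * Φ tE * (k⁻¹ * m)⁻¹ ∈ Φ.range := by
    apply hu
    have e1 : (k⁻¹ * m) * Φ tE * (k⁻¹ * m)⁻¹ * x = k⁻¹ * ((m * Φ tE * m⁻¹) * (k * x * k⁻¹)) * k := by
      group
    have e2 : x * ((k⁻¹ * m) * Φ tE * (k⁻¹ * m)⁻¹) = k⁻¹ * ((k * x * k⁻¹) * (m * Φ tE * m⁻¹)) * k := by
      group
    rw [e1, e2, hc]
  have h2 : k⁻¹ * m ∈ MM h := (mem_MM h _).mpr (h.fus _ (Or.inl h1))
  have h3 : k⁻¹ ∈ MM h := by
    have := mul_mem h2 (inv_mem hm)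
    rwa [mul_assoc, mul_inv_cancel, mul_one] at this
  have := inv_mem h3
  rwa [inv_inv] at this

theorem dec3 : ∀ a : Perm (Fin 5), a * b0 = b0 * a → a ^ 4 = 1 := by decide +kernel

theorem HH {Φ : EE →* G} {n : G} (h : TM Φ n) {g : G} (hg : g ∈ MM h)
    (hj : g * Φ (mkE b0 b0 rfl) = Φ (mkE b0 b0 rfl) * g) :
    ∃ a b : Perm (Fin 5), ∃ hab : Perm.sign a = Perm.sign b, a * b0 = b0 * a ∧ b * b0 = b0 * b ∧
      (g = Φ (mkE a b hab) ∨ g = Φ (mkE a b hab) * n) := by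
  rcases hg with ⟨e, rfl⟩ | ⟨e, rfl⟩
  · obtain ⟨⟨a, b⟩, hab⟩ := e
    rw [← map_mul, ← map_mul] at hj
    have h1 := h.inj hj
    exact ⟨a, b, hab, congrArg (fun z : EE => z.1.1) h1, congrArg (fun z : EE => z.1.2) h1,
      Or.inl rfl⟩
  · obtain ⟨⟨a, b⟩, hab⟩ := e
    rw [mul_assoc, n_mul h, ← mul_assoc, ← mul_assoc, ← map_mul, ← map_mul] at hj
    have h1 := h.inj (mul_right_cancel hj)
    exact ⟨a, b, hab, congrArg (fun z : EE => z.1.1) h1, congrArg (fun z : EE => z.1.2) h1,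
      Or.inr rfl⟩

theorem H8 {Φ : EE →* G} {n : G} (h : TM Φ n) {g : G} (hg : g ∈ MM h)
    (hj : g * Φ (mkE b0 b0 rfl) = Φ (mkE b0 b0 rfl) * g) : g ^ 8 = 1 := by
  obtain ⟨a, b, hab, ha, hb, h1⟩ := HH h hg hj
  have hp4 : ∀ (c d : Perm (Fin 5)) (hcd : Perm.sign c = Perm.sign d), c * b0 = b0 * c →
      d * b0 = b0 * d → Φ (mkE c d hcd) ^ 4 = 1 := by
    intro c d hcd hc hd
    rw [← map_pow]
    have : mkE c d hcd ^ 4 = 1 := by
      apply Subtype.ext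
      exact Prod.ext (dec3 c hc) (dec3 d hd)
    rw [this, map_one]
  rcases h1 with rfl | rfl
  · rw [show 8 = 4 * 2 from rfl, pow_mul, hp4 a b hab ha hb, one_pow]
  · have h2 : (Φ (mkE a b hab) * n) ^ 2 = Φ (mkE (a * b) (b * a) (by
        rw [Perm.sign_mul, Perm.sign_mul, mul_comm])) := by
      rw [pow_two]
      calc Φ (mkE a b hab) * n * (Φ (mkE a b hab) * n)
          = Φ (mkE a b hab) * (n * Φ (mkE a b hab)) * n := by simp only [mul_assoc]
        _ = Φ (mkE a b hab) * Φ (sw (mkE a b hab)) * (n * n) := by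
            rw [n_mul h]; simp only [mul_assoc]
        _ = _ := by rw [h.nn, mul_one, ← map_mul]; rfl
    rw [show 8 = 2 * 4 from rfl, pow_mul, h2]
    apply hp4
    · rw [mul_assoc, hb, ← mul_assoc, ha, mul_assoc]
    · rw [mul_assoc, ha, ← mul_assoc, hb, mul_assoc]

theorem Hx {Φ : EE →* G} {n : G} (h : TM Φ n) {g : G} (hg : g ∈ MM h)
    (hj : g * Φ (mkE b0 b0 rfl) = Φ (mkE b0 b0 rfl) * g) :
    g * Φ (mkE b0 1 sb0) * g⁻¹ = Φ (mkE b0 1 sb0) ∨
    g * Φ (mkE b0 1 sb0) * g⁻¹ = Φ (mkE b0 1 sb0) * Φ (mkE b0 b0 rfl) := by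
  obtain ⟨a, b, hab, ha, hb, h1⟩ := HH h hg hj
  rcases h1 with rfl | rfl
  · left
    rw [mul_inv_eq_iff_eq_mul, ← map_mul, ← map_mul]
    congr 1
    apply Subtype.ext
    exact Prod.ext ha (by show b * 1 = 1 * b; group)
  · right
    rw [mul_inv_eq_iff_eq_mul, mul_assoc, n_mul h, ← mul_assoc, ← mul_assoc, ← map_mul, ← map_mul,
      ← map_mul]
    congr 2
    apply Subtype.ext
    refine Prod.ext ?_ ?_
    · show a * 1 = b0 * b0 * a
      have : b0 * b0 = 1 := by decide +kernel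
      rw [this, mul_one, one_mul]
    · show b * b0 = 1 * b0 * b
      rw [one_mul]; exact hb

def u0 : Perm (Fin 5) := swap 0 1 * swap 4 2

theorem su0 : Perm.sign u0 = Perm.sign (1 : Perm (Fin 5)) := by decide +kernel
theorem sbu0 : Perm.sign (b0 * u0) = Perm.sign (1 : Perm (Fin 5)) := by decide +kernel

theorem cu {Φ : EE →* G}
    (hu : ∀ g : G, g * Φ (mkE b0 1 sb0) = Φ (mkE b0 1 sb0) * g → g ∈ Φ.range)
    (a c : Perm (Fin 5)) (ha : Perm.sign a = Perm.sign (1 : Perm (Fin 5)))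
    (hc : Perm.sign c = Perm.sign (1 : Perm (Fin 5))) (hac : c * b0 * c⁻¹ = a) (g : G)
    (hg : Φ (mkE a 1 ha) * g = g * Φ (mkE a 1 ha)) : g ∈ Φ.range := by
  have h1 : Φ (mkE a 1 ha) = Φ (mkE c 1 hc) * Φ (mkE b0 1 sb0) * (Φ (mkE c 1 hc))⁻¹ := by
    rw [← map_inv, ← map_mul, ← map_mul]
    congr 1
    apply Subtype.ext
    exact Prod.ext hac.symm (by show (1 : Perm (Fin 5)) = 1 * 1 * 1⁻¹; group)
  have h2 : (Φ (mkE c 1 hc))⁻¹ * g * Φ (mkE c 1 hc) ∈ Φ.range := by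
    apply hu
    rw [h1] at hg
    calc (Φ (mkE c 1 hc))⁻¹ * g * Φ (mkE c 1 hc) * Φ (mkE b0 1 sb0)
        = (Φ (mkE c 1 hc))⁻¹ * (g * (Φ (mkE c 1 hc) * Φ (mkE b0 1 sb0) * (Φ (mkE c 1 hc))⁻¹)) *
            Φ (mkE c 1 hc) := by group
      _ = _ := by rw [← hg]; group
  have h3 : Φ (mkE c 1 hc) ∈ Φ.range := ⟨_, rfl⟩
  have h4 := mul_mem (mul_mem h3 h2) (inv_mem h3)
  have h5 : Φ (mkE c 1 hc) * ((Φ (mkE c 1 hc))⁻¹ * g * Φ (mkE c 1 hc)) * (Φ (mkE c 1 hc))⁻¹ = g := by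
    group
  rwa [h5] at h4

theorem cw {G : Type*} [Group G] [Finite G] {Φ : EE →* G} {n : G} (h : TM Φ n)
    (hu : ∀ g : G, g * Φ (mkE b0 1 sb0) = Φ (mkE b0 1 sb0) * g → g ∈ Φ.range) (g : G)
    (hg : g * Φ (mkE b0 b0 rfl) = Φ (mkE b0 b0 rfl) * g) : g ∈ Φ.range ∨ g * n ∈ Φ.range := by
  set x := Φ (mkE b0 1 sb0) with hxd
  set j := Φ (mkE b0 b0 rfl) with hjd
  have hbb : b0 * b0 = 1 := by decide +kernel
  have huu : u0 * u0 = 1 := by decide +kernel
  have hb01 : b0 ≠ 1 := by decide +kernel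
  have hbu : b0 * u0 = u0 * b0 := by decide +kernel
  have hΦ1 : ∀ e : EE, e = 1 → Φ e = 1 := fun e he => by rw [he, map_one]
  have hxx : x * x = 1 := by
    rw [hxd, ← map_mul]; apply hΦ1; apply Subtype.ext; exact Prod.ext hbb (one_mul _)
  have hjj : j * j = 1 := by
    rw [hjd, ← map_mul]; apply hΦ1; apply Subtype.ext; exact Prod.ext hbb hbb
  have hinj1 : ∀ e : EE, Φ e = 1 → e = 1 := fun e he => h.inj (by rw [he, map_one])
  have hx1 : x ≠ 1 := fun h1 => hb01 (congrArg (fun z : EE => z.1.1) (hinj1 _ h1))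
  have hj1 : j ≠ 1 := fun h1 => hb01 (congrArg (fun z : EE => z.1.1) (hinj1 _ h1))
  have hxj : x ≠ j := fun h1 => hb01 (congrArg (fun z : EE => z.1.2) (h.inj h1)).symm
  set u := Φ (mkE u0 1 su0) with hud
  have huu' : u * u = 1 := by
    rw [hud, ← map_mul]; apply hΦ1; apply Subtype.ext; exact Prod.ext huu (one_mul _)
  have hxu : x * u = u * x := by
    rw [hud, hxd, ← map_mul, ← map_mul]; congr 1; apply Subtype.ext; exact Prod.ext hbu rfl
  have hxuj : x * j = j * x := by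
    rw [hjd, hxd, ← map_mul, ← map_mul]
    exact congrArg Φ (Subtype.ext (Prod.ext rfl ((one_mul b0).trans (mul_one b0).symm)))
  have huj : u * j = j * u := by
    rw [hjd, hud, ← map_mul, ← map_mul]; congr 1; apply Subtype.ext
    exact Prod.ext hbu.symm (by show 1 * b0 = b0 * 1; rw [one_mul, mul_one])
  have htj : Φ tE * j = j * Φ tE := by
    rw [hjd, ← map_mul, ← map_mul]; congr 1; apply Subtype.ext
    have : t5 * b0 = b0 * t5 := by decide +kernel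
    exact Prod.ext this this
  have hxue : x * u = Φ (mkE (b0 * u0) 1 sbu0) := by
    rw [hud, hxd, ← map_mul]; rfl
  set C : Subgroup G := centralizer {j} with hC
  have memC : ∀ a : G, a ∈ C ↔ a * j = j * a := by
    intro a
    rw [hC, mem_centralizer_singleton_iff]
  have hjC : j ∈ C := (memC j).mpr rfl
  have hxC : x ∈ C := (memC x).mpr hxuj
  have huC : u ∈ C := (memC u).mpr huj
  have htC : Φ tE ∈ C := (memC _).mpr htj
  set H : Subgroup C := (MM h).subgroupOf C with hHd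
  have hHP : IsPGroup 2 H := by
    rintro ⟨⟨z, hz⟩, hz'⟩
    refine ⟨3, Subtype.ext (Subtype.ext ?_)⟩
    exact H8 h hz' ((memC z).mp hz)
  have hcen : ∀ v : G, (∀ a : G, v * a = a * v → a ∈ Φ.range) → ∀ a : C, Odd (orderOf a) →
      v * (a : G) = a * v → a = 1 := by
    intro v hv a hodd ha
    have h1 : (a : G) ∈ MM h := (mem_MM h _).mpr (Or.inl (hv a ha))
    have h2 : (a : G) ^ 8 = 1 := H8 h h1 ((memC _).mp a.2)
    have h3 : a ^ 8 = 1 := Subtype.ext h2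
    have h4 := orderOf_dvd_of_pow_eq_one h3
    have h5 : (orderOf a).Coprime 8 := by
      rw [show 8 = 2 ^ 3 from rfl]
      exact Nat.Coprime.pow_right 3 (Nat.coprime_two_right.mpr hodd)
    have h6 : orderOf a = 1 := by
      have := Nat.dvd_gcd (dvd_refl (orderOf a)) h4
      rw [h5] at this
      exact Nat.dvd_one.mp this
    exact orderOf_eq_one_iff.mp h6
  have hres := RACw0.genq (B := C) (j := ⟨j, hjC⟩) (x := ⟨x, hxC⟩) (u := ⟨u, huC⟩)
    (Subtype.ext hjj) (fun h1 => hj1 (congrArg Subtype.val h1))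
    (mem_center_iff.mpr fun a => Subtype.ext ((memC _).mp a.2))
    (Subtype.ext hxx) (fun h1 => hx1 (congrArg Subtype.val h1))
    (fun h1 => hxj (congrArg Subtype.val h1)) (Subtype.ext huu') (Subtype.ext hxu)
    (fun g' => RACw0.conj_odd (t := ⟨Φ tE, htC⟩) (Subtype.ext hjj)
      (mem_center_iff.mpr fun a => Subtype.ext ((memC _).mp a.2)) (Subtype.ext hxx) H hHP
      (Φ_mem h tE)
      (fun a ha => (mem_MM h _).mpr (h.fus a ((mem_MM h _).mp ha)))
      (fun k hk => L2 h hxx hu hk)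
      (fun k hk => by
        rcases Hx h hk ((memC _).mp k.2) with h1 | h1
        · left; exact Subtype.ext h1
        · right; exact Subtype.ext h1) g')
    (fun a ha hc => hcen x (fun b hb => hu b hb.symm) a ha (congrArg Subtype.val hc))
    (fun a ha hc => hcen u (fun b hb => cu hu u0 (swap 0 1 * swap 1 4) su0 (by decide +kernel)
      (by decide +kernel) b hb) a ha (congrArg Subtype.val hc))
    (fun a ha hc => hcen (x * u) (fun b hb => by
      rw [hxue] at hb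
      exact cu hu (b0 * u0) (swap 0 1 * swap 1 2) sbu0 (by decide +kernel)
        (by decide +kernel) b hb) a ha (congrArg Subtype.val hc))
    ⟨g, (memC g).mpr hg⟩
  rw [← mem_MM h]
  rcases hres with h1 | h1
  · have h2 : g * x * g⁻¹ = x := congrArg Subtype.val h1
    exact (mem_MM h _).mpr (Or.inl (hu g (mul_inv_eq_iff_eq_mul.mp h2)))
  · have h2 : g * x * g⁻¹ = x * j := congrArg Subtype.val h1
    refine L2 h hxx hu ?_
    rw [h2]
    exact mul_mem (Φ_mem h _) (Φ_mem h _)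

end H83.RACw
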