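import Mathlib
import Cfsg.Agent.Lib.H83.RealOver

/-!
For `N` normal of odd index and `θ` a real irreducible character of `N`, the unique real irreducible
character over `θ` has multiplicity one.
-/

set_option autoImplicit false
set_option linter.unusedSectionVars false
set_option linter.style.haveILetI false

namespace H83.RealOver

open Cfsg Representation H18.CharBasic H18.CharOrtho H18.CharInd H18.CharQuot H31.Clifford
  H83.FSMult H83.FSInd H83.RealOrb
open scoped ComplexConjugate

universe u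

variable {G : Type u} [Group G] [Finite G] (N : Subgroup G) [hN : N.Normal]

theorem mem_of_sq_mem (hodd : Odd N.index) {s : G} (h : s * s ∈ N) : s ∈ N := by
  obtain ⟨m, hm⟩ := hodd
  have h1 : (QuotientGroup.mk s : G ⧸ N) ^ N.index = 1 := by
    rw [Subgroup.index_eq_card]; exact pow_card_eq_one'
  have h2 : (QuotientGroup.mk s : G ⧸ N) ^ 2 = 1 := by
    rw [pow_two, ← QuotientGroup.mk_mul, QuotientGroup.eq_one_iff]; exact h
  rw [hm, pow_succ, pow_mul, h2, one_pow, one_mul, QuotientGroup.eq_one_iff] at h1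
  exact h1

theorem sum_nu_res [Fintype N] [Fintype (IrrCharacter G)] [Fintype (IrrCharacter N)]
    (hodd : Odd N.index) (n : N) :
    ∑ χ : IrrCharacter G, nu (χ : G → ℂ) * (χ : G → ℂ) n =
      ∑ θ : IrrCharacter N, nu (θ : N → ℂ) * (θ : N → ℂ) n := by
  letI := Fintype.ofFinite G
  have h1 := H4.FrobSchur.card_sqrt_eq (G := G) (n : G)
  have h2 := H4.FrobSchur.card_sqrt_eq (G := N) n
  simp only [nu_eq]
  rw [← h1, ← h2]
  congr 1
  refine Nat.card_congr ⟨fun s => ⟨⟨s.1, mem_of_sq_mem N hodd (by rw [s.2]; exact n.2)⟩,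
    Subtype.ext s.2⟩, fun s => ⟨s.1, congrArg Subtype.val s.2⟩, fun s => rfl, fun s => rfl⟩

/-- multiplicity one -/
theorem mult_one [Fintype N] (hodd : Odd N.index) {θ : N → ℂ} (hθ : IsIrrCharacter N θ)
    (hr : ∀ n, (θ n).im = 0) {χ : IrrCharacter G} (hχ : ∀ g, ((χ : G → ℂ) g).im = 0)
    (hne : classInner (fun n : N => (χ : G → ℂ) n) θ ≠ 0) :
    classInner (fun n : N => (χ : G → ℂ) n) θ = 1 := by
  classical
  letI := Fintype.ofFinite G
  haveI : Finite (IrrCharacter G) := instFiniteIrr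
  haveI : Finite (IrrCharacter N) := instFiniteIrr
  letI := Fintype.ofFinite (IrrCharacter G)
  letI := Fintype.ofFinite (IrrCharacter N)
  obtain ⟨χ₀, -, -, huniq⟩ := exists_unique_real N hodd hθ hr
  have h1 : (fun n : N => ∑ χ : IrrCharacter G, nu (χ : G → ℂ) * (χ : G → ℂ) n) =
      fun n : N => ∑ θ : IrrCharacter N, nu (θ : N → ℂ) * (θ : N → ℂ) n := by
    funext n; exact sum_nu_res N hodd n
  have h2 : classInner (fun n : N => ∑ χ : IrrCharacter G, nu (χ : G → ℂ) * (χ : G → ℂ) n) θ =
      nu (χ : G → ℂ) * classInner (fun n : N => (χ : G → ℂ) n) θ := by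
    have e : (fun n : N => ∑ χ : IrrCharacter G, nu (χ : G → ℂ) * (χ : G → ℂ) n) =
        ∑ χ : IrrCharacter G, nu (χ : G → ℂ) • (fun n : N => (χ : G → ℂ) n) := by
      funext n; rw [Finset.sum_apply]; rfl
    rw [e, inner_sum_left, Finset.sum_eq_single χ]
    · rw [H18.CharOrtho.inner_smul_left]
    · intro ψ _ hψ
      rw [H18.CharOrtho.inner_smul_left]
      by_cases h3 : nu (ψ : G → ℂ) = 0
      · rw [h3, zero_mul]
      · by_cases h4 : classInner (fun n : N => (ψ : G → ℂ) n) θ = 0
        · rw [h4, mul_zero]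
        · exfalso
          apply hψ
          rw [huniq ψ (real_of_nu ψ.2 h3) h4, huniq χ hχ hne]
    · intro h; exact absurd (Finset.mem_univ _) h
  have h3 : classInner (fun n : N => ∑ θ : IrrCharacter N, nu (θ : N → ℂ) * (θ : N → ℂ) n) θ =
      nu θ := by
    have e : (fun n : N => ∑ θ : IrrCharacter N, nu (θ : N → ℂ) * (θ : N → ℂ) n) =
        ∑ θ : IrrCharacter N, nu (θ : N → ℂ) • (θ : N → ℂ) := by
      funext n; rw [Finset.sum_apply]; rfl
    rw [e, inner_sum_left, Finset.sum_eq_single (⟨θ, hθ⟩ : IrrCharacter N)]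
    · rw [H18.CharOrtho.inner_smul_left, inner_irr_self hθ, mul_one]
    · intro ψ _ hψ
      rw [H18.CharOrtho.inner_smul_left, inner_irr_ne ψ.2 hθ (fun h => hψ (Subtype.ext h)), mul_zero]
    · intro h; exact absurd (Finset.mem_univ _) h
  rw [h1, h3] at h2
  obtain ⟨e, he⟩ := inner_char_natCast (isCharacter_restrict N (isCharacter_of_isIrr χ.2))
    (isCharacter_of_isIrr hθ)
  rw [he] at h2 ⊢
  have h4 : ((e : ℤ) : ℂ) = 1 ∨ ((e : ℤ) : ℂ) = -1 := by
    push_cast
    rcases nu_of_real hθ hr with h5 | h5 <;> rcases nu_of_real χ.2 hχ with h6 | h6 <;>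
      rw [h5, h6] at h2
    · left; rw [one_mul] at h2; exact h2.symm
    · right
      have : (e : ℂ) = -(-1 * e) := by ring
      rw [this, ← h2]
    · right; rw [one_mul] at h2; exact h2.symm
    · left
      have : (e : ℂ) = -(-1 * e) := by ring
      rw [this, ← h2]; ring
  rcases h4 with h4 | h4
  · have : (e : ℤ) = 1 := by exact_mod_cast h4
    have : e = 1 := by omega
    rw [this]; simp
  · have : (e : ℤ) = -1 := by exact_mod_cast h4
    omega

end H83.RealOver
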