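import Mathlib
import Cfsg.Agent.Lib.H83.RealOver
import Cfsg.Agent.Lib.H20.Defect
import Cfsg.Agent.Lib.H28.RelSyl

/-!
Groups whose real irreducible characters have degree prime to `p` (Isaacs–Navarro), core lemmas.
-/

set_option autoImplicit false
set_option linter.unusedSectionVars false
set_option linter.style.haveILetI false

namespace H83.RealP

open Cfsg Representation H18.CharBasic H18.CharOrtho H18.CharInd H18.CharQuot H31.Clifford
  H83.FSMult H83.FSInd H83.RealOrb H83.RealOver H28.Cj H28.RelSyl Subgroup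
open scoped ComplexConjugate

universe u

/-- the hypothesis: real irreducible characters have degree prime to `p` -/
def HR (p : ℕ) (G : Type u) [Group G] [Finite G] : Prop :=
  ∀ χ : IrrCharacter G, (∀ g : G, ((χ : G → ℂ) g).im = 0) → ¬ p ∣ charDegree (χ : G → ℂ)

section one

variable {G : Type u} [Group G] [Fintype G] (N : Subgroup G) [hN : N.Normal]

/-- A real irreducible character over `θ` when `θ` is conjugate to its complex conjugate; `H` is an
auxiliary subgroup meeting `N` trivially with `|G : N H|` odd. -/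
theorem exists_real [Fintype N] (H : Subgroup G) (hdis : ∀ x ∈ N, x ∈ H → x = 1)
    {θ : N → ℂ} (hθ : IsIrrCharacter N θ) (g : G) (hg : conjFunN N g θ = fun n => conj (θ n))
    (d : ℕ) (hd : θ 1 = d) (hodd : Odd d) (k : ℕ) (hidx : H.index = Nat.card N * k) (hk : Odd k) :
    ∃ χ : IrrCharacter G, (∀ g, ((χ : G → ℂ) g).im = 0) ∧
      classInner (fun n : N => (χ : G → ℂ) n) θ ≠ 0 := by
  classical
  haveI : Finite (IrrCharacter G) := instFiniteIrr
  letI := Fintype.ofFinite (IrrCharacter G)
  set π : G → ℂ := indFun H (fun _ => (1 : ℂ)) with hπ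
  have hπc : IsCharacter G π := isCharacter_ind H (isCharacter_of_isIrr isIrrCharacter_one)
  have hπr : ∀ g, (π g).im = 0 := indFun_real H (fun _ => by simp)
  -- values on `N`
  have hval : ∀ n : N, n ≠ 1 → π n = 0 := by
    intro n hn
    rw [hπ, indFun_apply', Finset.sum_eq_zero, mul_zero]
    intro x _
    apply ext_notMem
    intro h
    apply hn
    have h1 := hdis _ (hN.conj_mem n n.2 x) h
    apply Subtype.ext
    rw [mul_inv_eq_one] at h1
    have h2 : x * (n : G) = x * 1 := by rw [mul_one]; exact h1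
    exact mul_left_cancel h2
  have hN0 : (Nat.card N : ℂ) ≠ 0 := by exact_mod_cast Nat.card_pos.ne'
  have hin : classInner (fun n : N => π n) θ = (k * d : ℕ) := by
    unfold classInner
    rw [Finset.sum_eq_single (1 : N)]
    · have h1 : π ((1 : N) : G) = (H.index : ℂ) := by
        rw [hπ, OneMemClass.coe_one, indFun_one, mul_one]
      show (Nat.card N : ℂ)⁻¹ * (π ((1 : N) : G) * conj (θ 1)) = _
      rw [h1, hidx, hd, Complex.conj_natCast]
      push_cast
      field_simp
    · intro n _ hn
      show π n * _ = 0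
      rw [hval n hn, zero_mul]
    · intro h; exact absurd (Finset.mem_univ _) h
  -- expansion
  have h0 : ∀ χ : IrrCharacter G, ∃ a : ℕ, classInner π (χ : G → ℂ) = a := fun χ =>
    inner_char_natCast hπc (isCharacter_of_isIrr χ.2)
  choose a ha using h0
  have h0' : ∀ χ : IrrCharacter G, ∃ b : ℕ, classInner (fun n : N => (χ : G → ℂ) n) θ = b := fun χ =>
    inner_char_natCast (isCharacter_restrict N (isCharacter_of_isIrr χ.2)) (isCharacter_of_isIrr hθ)
  choose b hb using h0'
  have h1 := mem_classFun_expand (isClassFunction_of_isCharacter hπc)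
  have h2 : k * d = ∑ χ : IrrCharacter G, a χ * b χ := by
    have h3 : ((k * d : ℕ) : ℂ) = ((∑ χ : IrrCharacter G, a χ * b χ : ℕ) : ℂ) := by
      rw [← hin]
      have e : (fun n : N => π n) =
          ∑ χ : IrrCharacter G, (classInner π (χ : G → ℂ)) • (fun n : N => (χ : G → ℂ) n) := by
        funext n
        have := congrFun h1 n
        rw [this, Finset.sum_apply, Finset.sum_apply]
        rfl
      rw [e, inner_sum_left]
      push_cast
      refine Finset.sum_congr rfl fun χ _ => ?_
      rw [H18.CharOrtho.inner_smul_left, ha, hb]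
    exact_mod_cast h3
  have hodd' : Odd (∑ χ : IrrCharacter G, a χ * b χ) := by
    rw [← h2]; exact hk.mul hodd
  obtain ⟨χ, hχ1, hχ2⟩ := exists_fixed_odd conjIrr conjIrr_invol (fun χ => a χ * b χ) (by
    intro χ
    have h3 := inner_conjIrr hπc hπr χ
    rw [ha, ha] at h3
    have h4 : a (conjIrr χ) = a χ := by exact_mod_cast h3
    have h5 : b (conjIrr χ) = b χ := by
      have h6 : classInner (fun n : N => (conjIrr χ : G → ℂ) n) θ =
          conj (classInner (fun n : N => (χ : G → ℂ) n) (conjFunN N g θ)) := by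
        rw [hg]
        have h7 := inner_conj_conj (G := N) (fun n : N => (χ : G → ℂ) n) (fun n => conj (θ n))
        simp only [Complex.conj_conj] at h7
        exact h7
      rw [inner_restrict_cj N g (isClassFunction_of_isIrr χ.2), hb, hb, Complex.conj_natCast] at h6
      exact_mod_cast h6
    simp only [h4, h5]) hodd'
  refine ⟨χ, (conjIrr_eq_iff χ).1 hχ1, ?_⟩
  rw [hb]
  obtain ⟨-, h4⟩ := Nat.odd_mul.1 hχ2
  intro h
  have : b χ = 0 := by exact_mod_cast h
  rw [this] at h4
  simp at h4

/-- existence of `θ ≠ 1` conjugate to its complex conjugate -/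
theorem exists_theta {n : N} (hn : n ≠ 1) (g : G) (hgn : g * (n : G) * g⁻¹ = (n : G)⁻¹) :
    ∃ θ : IrrCharacter N, (θ : N → ℂ) ≠ (fun _ => 1) ∧
      conjFunN N g (θ : N → ℂ) = fun n => conj ((θ : N → ℂ) n) := by
  classical
  haveI : Fintype N := Fintype.ofFinite _
  let f : N → N := fun k => (MulAut.conjNormal g k)⁻¹
  have hf : ∀ χ : N → ℂ, IsIrrCharacter N χ → IsIrrCharacter N (χ ∘ f) := by
    intro χ hχ
    exact isIrrCharacter_conjN N g (H4.FixedCount.isIrrCharacter_comp_inv hχ)
  have key := H4.FixedCount.card_fixed_eq f hf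
  haveI : Finite (IrrCharacter N) := instFiniteIrr
  have hfn : f n = n := by
    apply Subtype.ext
    show (g * (n : G) * g⁻¹)⁻¹ = n
    rw [hgn, inv_inv]
  have hf1 : f 1 = 1 := by simp [f]
  have hfc : ∀ x y : N, IsConj x y → IsConj (f x) (f y) := by
    intro x y h
    have := isConj_mulEquiv (MulAut.conjNormal g : MulAut N) h
    exact isConj_inv this
  let C1 : {C : ConjClasses N // ∀ g : N, ConjClasses.mk g = C → IsConj (f g) g} :=
    ⟨ConjClasses.mk 1, by
      intro x hx
      rw [ConjClasses.mk_eq_mk_iff_isConj] at hx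
      exact ((hfc x 1 hx).trans (by rw [hf1])).trans hx.symm⟩
  let C2 : {C : ConjClasses N // ∀ g : N, ConjClasses.mk g = C → IsConj (f g) g} :=
    ⟨ConjClasses.mk n, by
      intro x hx
      rw [ConjClasses.mk_eq_mk_iff_isConj] at hx
      exact ((hfc x n hx).trans (by rw [hfn])).trans hx.symm⟩
  have hne : C1 ≠ C2 := by
    intro h
    have := congrArg Subtype.val h
    simp only [C1, C2] at this
    rw [ConjClasses.mk_eq_mk_iff_isConj, isConj_one_right] at this
    exact hn this
  have hcard : 1 < Nat.card {χ : IrrCharacter N // (χ : N → ℂ) ∘ f = (χ : N → ℂ)} := by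
    rw [key]
    haveI : Nontrivial {C : ConjClasses N // ∀ g : N, ConjClasses.mk g = C → IsConj (f g) g} :=
      ⟨C1, C2, hne⟩
    exact Finite.one_lt_card
  haveI : Nontrivial {χ : IrrCharacter N // (χ : N → ℂ) ∘ f = (χ : N → ℂ)} :=
    Finite.one_lt_card_iff_nontrivial.mp hcard
  let one' : {χ : IrrCharacter N // (χ : N → ℂ) ∘ f = (χ : N → ℂ)} :=
    ⟨⟨fun _ => 1, isIrrCharacter_one⟩, rfl⟩
  obtain ⟨θ, hθ⟩ := exists_ne one'
  refine ⟨θ.1, ?_, ?_⟩
  · intro h
    apply hθ
    exact Subtype.ext (Subtype.ext h)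
  · funext k
    have h1 := congrFun θ.2 k⁻¹
    rw [Function.comp_apply] at h1
    have h2 : f k⁻¹ = ⟨g * k * g⁻¹, hN.conj_mem k k.2 g⟩ := by
      apply Subtype.ext
      simp [f]
    rw [h2] at h1
    rw [cj_apply, h1]
    exact char_inv (isCharacter_of_isIrr θ.1.2) k

end one

end H83.RealP
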