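import Mathlib
import Cfsg.Agent.Lib.H83.RealP

/-!
Groups whose real irreducible characters have degree prime to `p` (Isaacs–Navarro): normality of Sylow
subgroups.
-/

set_option autoImplicit false
set_option linter.unusedSectionVars false
set_option linter.style.haveILetI false

namespace H83.RealP

open Cfsg Representation H18.CharBasic H18.CharOrtho H18.CharInd H18.CharQuot H31.Clifford
  H83.FSMult H83.FSInd H83.RealOrb H83.RealOver H28.Cj H28.RelSyl Subgroup
open scoped ComplexConjugate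

universe u

/-- the subgroup generated by the `q`-elements -/
abbrev Op (q : ℕ) (G : Type*) [Group G] : Subgroup G :=
  Subgroup.closure {g : G | ∃ k : ℕ, orderOf g = q ^ k}

section gen

variable {G : Type u} [Group G]

theorem Op_normal (q : ℕ) : (Op q G).Normal := by
  apply Subgroup.Normal.mk
  intro x hx g
  have h1 : (Op q G).map (MulAut.conj g).toMonoidHom ≤ Op q G := by
    rw [Op, MonoidHom.map_closure, Subgroup.closure_le]
    rintro _ ⟨y, ⟨k, hk⟩, rfl⟩
    apply Subgroup.subset_closure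
    exact ⟨k, by rw [← hk]; exact MulEquiv.orderOf_eq (MulAut.conj g) y⟩
  exact h1 ⟨x, hx, rfl⟩

theorem Op_map_le {q : ℕ} (hq : q.Prime) {G' : Type*} [Group G'] (f : G →* G') : (Op q G).map f ≤ Op q G' := by
  rw [Op, MonoidHom.map_closure, Subgroup.closure_le]
  rintro _ ⟨y, ⟨k, hk⟩, rfl⟩
  apply Subgroup.subset_closure
  have h1 := orderOf_map_dvd f y
  rw [hk] at h1
  obtain ⟨j, -, hj⟩ := (Nat.dvd_prime_pow hq).mp h1
  exact ⟨j, hj⟩

theorem le_Op [Finite G] {q : ℕ} [Fact q.Prime] {R : Subgroup G} (hR : IsPGroup q R) : R ≤ Op q G := by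
  intro x hx
  obtain ⟨k, hk⟩ := IsPGroup.iff_orderOf.mp hR ⟨x, hx⟩
  rw [Subgroup.orderOf_mk] at hk
  exact Subgroup.subset_closure ⟨k, hk⟩

theorem isSyl_map_hom [Finite G] {G' : Type*} [Group G'] {p : ℕ} {R K : Subgroup G} (h : IsSyl p R K)
    (f : G →* G') : IsSyl p (R.map f) (K.map f) := by
  refine ⟨Subgroup.map_mono h.le, h.isPGroup.map f, ?_⟩
  intro hd
  apply h.not_dvd
  refine hd.trans ?_
  have e : (R.map f).subgroupOf (K.map f) = (R.subgroupOf K).map (f.subgroupMap K) := by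
    ext ⟨y, hy⟩
    rw [Subgroup.mem_subgroupOf]
    constructor
    · rintro ⟨x, hx, hxy⟩
      exact ⟨⟨x, h.le hx⟩, hx, Subtype.ext hxy⟩
    · rintro ⟨x, hx, hxy⟩
      exact ⟨x, hx, congrArg Subtype.val hxy⟩
  rw [Subgroup.relIndex, e]
  exact Subgroup.index_map_dvd _ (f.subgroupMap_surjective K)

/-- inflation -/
theorem HR_quotient [Finite G] {p : ℕ} (h : HR p G) (N : Subgroup G) [N.Normal] : HR p (G ⧸ N) := by
  intro χ hχ hd
  have h1 : IsIrrCharacter G (fun g : G => (χ : G ⧸ N → ℂ) (QuotientGroup.mk g)) :=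
    isIrrCharacter_inflate N χ.2
  apply h ⟨_, h1⟩ (fun g => hχ _)
  have e1 := H20.Defect.charDegree_irr χ
  have e2 := H20.Defect.charDegree_irr (⟨_, h1⟩ : IrrCharacter G)
  have e3 : charDegree (fun g : G => (χ : G ⧸ N → ℂ) (QuotientGroup.mk g)) =
      charDegree (χ : G ⧸ N → ℂ) := by
    have : ((charDegree (fun g : G => (χ : G ⧸ N → ℂ) (QuotientGroup.mk g)) : ℕ) : ℂ) =
        charDegree (χ : G ⧸ N → ℂ) := by
      rw [e1]; exact e2
    exact_mod_cast this
  show p ∣ charDegree (fun g : G => (χ : G ⧸ N → ℂ) (QuotientGroup.mk g))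
  rw [e3]; exact hd

/-- an element acting nontrivially yields an inverted element -/
theorem exists_inverted [Finite G] {L : Subgroup G} [hL : L.Normal] {t : G} {k : ℕ}
    (ht : orderOf t = 2 ^ k) {a : G} (ha : a ∈ L) (hta : t * a ≠ a * t) :
    ∃ n ∈ L, n ≠ 1 ∧ ∃ s : G, s * n * s⁻¹ = n⁻¹ := by
  classical
  have hex : ∃ j : ℕ, t ^ (2 ^ j) ∈ centralizer (L : Set G) :=
    ⟨k, by rw [← ht, pow_orderOf_eq_one]; exact one_mem _⟩
  set j := Nat.find hex with hj
  have hj1 : t ^ (2 ^ j) ∈ centralizer (L : Set G) := Nat.find_spec hex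
  have hj0 : j ≠ 0 := by
    intro h0
    rw [h0, pow_zero, pow_one] at hj1
    exact hta (Subgroup.mem_centralizer_iff.mp hj1 a ha).symm
  obtain ⟨i, hi⟩ := Nat.exists_eq_succ_of_ne_zero hj0
  have hs : t ^ (2 ^ i) ∉ centralizer (L : Set G) := Nat.find_min hex (by omega)
  set s := t ^ (2 ^ i) with hsdef
  have hs2 : s * s ∈ centralizer (L : Set G) := by
    have : s * s = t ^ (2 ^ j) := by rw [hsdef, ← pow_add, hi, Nat.succ_eq_add_one]; congr 1; ring
    rw [this]; exact hj1
  rw [Subgroup.mem_centralizer_iff] at hs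
  push Not at hs
  obtain ⟨b, hb, hbs⟩ := hs
  refine ⟨b⁻¹ * (s * b * s⁻¹), L.mul_mem (L.inv_mem hb) (hL.conj_mem b hb s), ?_, s, ?_⟩
  · intro h
    rw [inv_mul_eq_one] at h
    apply hbs
    rw [eq_mul_inv_iff_mul_eq] at h
    exact h
  · have h1 : s * s * b = b * (s * s) := (Subgroup.mem_centralizer_iff.mp hs2 b hb).symm
    calc s * (b⁻¹ * (s * b * s⁻¹)) * s⁻¹ = (s * b * s⁻¹)⁻¹ * ((s * s * b) * (s * s)⁻¹) := by group
      _ = (s * b * s⁻¹)⁻¹ * b := by rw [h1, mul_inv_cancel_right]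
      _ = (b⁻¹ * (s * b * s⁻¹))⁻¹ := by group

end gen

section core

variable {G : Type u} [Group G] [Finite G] {p : ℕ} [hp : Fact p.Prime]

theorem commutator_normal_of {R L : Subgroup G} [hL : L.Normal]
    (hab : ∀ a ∈ L, ∀ b ∈ L, a * b = b * a) (hsup : L ⊔ normalizer (R : Set G) = ⊤)
    {D : Subgroup G} (hD : D ≤ L) (hDn : normalizer (R : Set G) ≤ normalizer (D : Set G)) : D.Normal := by
  rw [← Subgroup.normalizer_eq_top_iff, eq_top_iff, ← hsup]
  refine sup_le ?_ hDn
  intro x hx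
  rw [Subgroup.mem_normalizer_iff]
  intro y
  constructor
  · intro hy
    rw [hab x hx y (hD hy), mul_inv_cancel_right]; exact hy
  · intro hy
    have h1 := hab x⁻¹ (L.inv_mem hx) _ (hD hy)
    have e : y = x⁻¹ * (x * y * x⁻¹) * x := by group
    rw [e, h1, inv_mul_cancel_right]; exact hy

theorem core (hR : HR p G) (R L : Subgroup G) (hRp : IsPGroup p R) [hL : L.Normal] (hL0 : L ≠ ⊥)
    (hmin : ∀ N : Subgroup G, N.Normal → N ≤ L → N = ⊥ ∨ N = L)
    (hab : ∀ a ∈ L, ∀ b ∈ L, a * b = b * a) (hsup : L ⊔ normalizer (R : Set G) = ⊤)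
    (hinf : L ⊓ normalizer (R : Set G) = ⊥) (hO2 : L ≤ Op 2 G) : False := by
  classical
  letI := Fintype.ofFinite G
  letI := Fintype.ofFinite L
  haveI : Fact (Nat.Prime 2) := ⟨Nat.prime_two⟩
  -- the inverted element
  obtain ⟨n, hnL, hn1, s, hs⟩ : ∃ n ∈ L, n ≠ 1 ∧ ∃ s : G, s * n * s⁻¹ = n⁻¹ := by
    by_cases h2 : 2 ∣ Nat.card L
    · obtain ⟨n, hn⟩ := exists_prime_orderOf_dvd_card' (G := L) 2 h2
      rw [← Subgroup.orderOf_coe] at hn
      refine ⟨n, n.2, ?_, 1, ?_⟩
      · intro h; rw [h, orderOf_one] at hn; omega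
      · have : (n : G) * n = 1 := by rw [← pow_two, ← hn, pow_orderOf_eq_one]
        rw [one_mul, inv_one, mul_one]
        exact (inv_eq_of_mul_eq_one_left this).symm
    · by_contra hcon
      -- all `2`-elements centralise `L`
      have hc : ∀ t : G, (∃ k : ℕ, orderOf t = 2 ^ k) → ∀ a ∈ L, t * a = a * t := by
        rintro t ⟨k, hk⟩ a ha
        by_contra hta
        exact hcon (exists_inverted hk ha hta)
      have hle : Op 2 G ≤ normalizer (R : Set G) := by
        rw [Op, Subgroup.closure_le]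
        rintro t ⟨k, hk⟩
        have ht : t ∈ L ⊔ normalizer (R : Set G) := by rw [hsup]; trivial
        rw [Subgroup.mem_sup_of_normal_left] at ht
        obtain ⟨l, hl, h, hh, rfl⟩ := ht
        have h1 : Commute l h := by
          have e := hc (l * h) ⟨k, hk⟩ l hl
          have : l * (h * l) = l * (l * h) := by rw [← mul_assoc, e]
          exact (mul_left_cancel this).symm
        have h2' : (l * h) ^ (2 ^ k) = 1 := by rw [← hk]; exact pow_orderOf_eq_one _
        rw [h1.mul_pow] at h2'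
        have h3 : l ^ (2 ^ k) ∈ L ⊓ normalizer (R : Set G) := by
          refine Subgroup.mem_inf.mpr ⟨L.pow_mem hl _, ?_⟩
          rw [mul_eq_one_iff_eq_inv] at h2'
          rw [h2']
          exact Subgroup.inv_mem _ (Subgroup.pow_mem _ hh _)
        rw [hinf, Subgroup.mem_bot] at h3
        have h4 : orderOf l ∣ 2 ^ k := orderOf_dvd_of_pow_eq_one h3
        have h5 : orderOf l ∣ Nat.card L := Subgroup.orderOf_dvd_natCard L hl
        have h6 : (2 ^ k).Coprime (Nat.card L) :=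
          Nat.Coprime.pow_left k ((Nat.Prime.coprime_iff_not_dvd Nat.prime_two).mpr h2)
        have h7 : orderOf l = 1 := Nat.eq_one_of_dvd_coprimes h6 h4 h5
        rw [orderOf_eq_one_iff] at h7
        rw [h7, one_mul]; exact hh
      apply hL0
      rw [eq_bot_iff, ← hinf]
      exact le_inf le_rfl (hO2.trans hle)
  obtain ⟨θ, hθ1, hθg⟩ := exists_theta L (n := ⟨n, hnL⟩) (fun h => hn1 (congrArg Subtype.val h)) s hs
  have hcomm : ∀ a b : L, a * b = b * a := fun a b => Subtype.ext (hab a a.2 b b.2)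
  have hdeg : (θ : L → ℂ) 1 = ((1 : ℕ) : ℂ) := by
    rw [degree_one_of_comm hcomm θ.2]; simp
  -- index of the normaliser
  have hcompl : Subgroup.IsComplement' L (normalizer (R : Set G)) := by
    apply Subgroup.isComplement'_of_disjoint_and_mul_eq_univ
    · rw [disjoint_iff]; exact hinf
    · rw [← Subgroup.normal_mul, hsup]; rfl
  have hidx : (normalizer (R : Set G)).index = Nat.card L * 1 := by
    rw [mul_one]; exact hcompl.index_eq_card
  obtain ⟨χ, hχr, hχθ⟩ := exists_real L (normalizer (R : Set G)) (by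
    intro x hx hxn
    have : x ∈ L ⊓ normalizer (R : Set G) := Subgroup.mem_inf.mpr ⟨hx, hxn⟩
    rw [hinf, Subgroup.mem_bot] at this
    exact this) θ.2 s hθg 1 hdeg odd_one 1 hidx odd_one
  have hpd := hR χ hχr
  -- the inertia group has index prime to `p`
  have hpi : ¬ p ∣ (inertia L (θ : L → ℂ)).index := by
    intro hd
    apply hpd
    have h1 := degree_eq L χ.2 θ.2 hχθ
    obtain ⟨e, he⟩ := inner_char_natCast (isCharacter_restrict L (isCharacter_of_isIrr χ.2))
      (isCharacter_of_isIrr θ.2)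
    rw [he, hdeg, ← H20.Defect.charDegree_irr] at h1
    have h2 : charDegree (χ : G → ℂ) = e * (inertia L (θ : L → ℂ)).index * 1 := by exact_mod_cast h1
    rw [h2, mul_one]
    exact Dvd.dvd.mul_left hd e
  obtain ⟨T, hT⟩ := exists_isSyl p (inertia L (θ : L → ℂ))
  have hT' : IsSyl p T ⊤ := hT.trans le_top (by rwa [Subgroup.relIndex_top_right])
  obtain ⟨g, -, hg⟩ := hT'.exists_conj_le hRp le_top
  have hRi : cj g R ≤ inertia L (θ : L → ℂ) := hg.trans hT.le
  -- the commutator
  have hD : ⁅L, R⁆ ≤ L := Subgroup.commutator_le_left L R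
  have hDn : (⁅L, R⁆ : Subgroup G).Normal := by
    apply commutator_normal_of (R := R) hab hsup hD
    intro x hx
    rw [mem_normalizer_iff_cj, cj_commutator]
    rw [mem_normalizer_iff_cj.mp hx]
    congr 1
    exact mem_normalizer_iff_cj.mp ((Subgroup.normalizer_eq_top_iff.mpr hL).symm ▸ Subgroup.mem_top x)
  rcases hmin _ hDn hD with h | h
  · apply hL0
    rw [eq_bot_iff, ← hinf]
    refine le_inf le_rfl ?_
    rw [Subgroup.commutator_eq_bot_iff_le_centralizer] at h
    exact h.trans (Subgroup.centralizer_le_normalizer _)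
  · apply hθ1
    obtain ⟨f, hf⟩ := exists_hom_of_degree_one (isCharacter_of_isIrr θ.2)
      (degree_one_of_comm hcomm θ.2)
    have hL' : ⁅L, cj g R⁆ = L := by
      have e1 : cj g L = L := mem_normalizer_iff_cj.mp
        ((Subgroup.normalizer_eq_top_iff.mpr hL).symm ▸ Subgroup.mem_top g)
      have := cj_commutator g L R
      rw [h, e1] at this
      exact this.symm
    have hle : L ≤ (f.ker).map L.subtype := by
      conv_lhs => rw [← hL']
      rw [Subgroup.commutator_le]
      intro l hl x hx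
      have hx' : x⁻¹ ∈ inertia L (θ : L → ℂ) := Subgroup.inv_mem _ (hRi hx)
      have hx2 := hRi hx
      have hmem : l * x * l⁻¹ * x⁻¹ ∈ L := by
        have : l * x * l⁻¹ * x⁻¹ = l * (x * l⁻¹ * x⁻¹) := by group
        rw [this]
        exact L.mul_mem hl (hL.conj_mem _ (L.inv_mem hl) x)
      refine ⟨⟨_, hmem⟩, ?_, rfl⟩
      rw [SetLike.mem_coe, MonoidHom.mem_ker]
      have e : (⟨l * x * l⁻¹ * x⁻¹, hmem⟩ : L) =
          ⟨l, hl⟩ * ⟨x * l⁻¹ * x⁻¹, hL.conj_mem _ (L.inv_mem hl) x⟩ := by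
        apply Subtype.ext
        show l * x * l⁻¹ * x⁻¹ = l * (x * l⁻¹ * x⁻¹)
        group
      rw [e, map_mul]
      have h3 := (mem_inertia_iff L).mp hx2 ⟨l⁻¹, L.inv_mem hl⟩
      rw [hf] at h3
      have h4 : f ⟨x * l⁻¹ * x⁻¹, hL.conj_mem _ (L.inv_mem hl) x⟩ = f ⟨l⁻¹, L.inv_mem hl⟩ :=
        Units.ext h3
      rw [h4, ← map_mul]
      have : (⟨l, hl⟩ * ⟨l⁻¹, L.inv_mem hl⟩ : L) = 1 := Subtype.ext (mul_inv_cancel l)
      rw [this, map_one]
    funext y
    obtain ⟨z, hz, hzy⟩ := hle y.2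
    have : z = y := Subtype.ext hzy
    subst this
    rw [hf]
    rw [SetLike.mem_coe, MonoidHom.mem_ker] at hz
    show ((f z : ℂˣ) : ℂ) = 1
    rw [hz]; simp

end core

end H83.RealP
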