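import Mathlib
import Cfsg.Agent.Lib.H83.RealP2
import Cfsg.Agent.Lib.H28.Quot

/-!
Groups whose real irreducible characters have degree prime to `p` (Isaacs–Navarro): the normality lemma.
-/

set_option autoImplicit false
set_option linter.unusedSectionVars false
set_option linter.style.haveILetI false

namespace H83.RealP

open Cfsg H28.Cj H28.RelSyl Subgroup

universe u

variable {G : Type u} [Group G] [Finite G] {p : ℕ} [hp : Fact p.Prime]

theorem normal_of (hR : HR p G) (R E : Subgroup G) [hE : E.Normal] (hEs : Group.IsSolvable E)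
    (hE2 : E ≤ Op 2 G) (hRE : (R ⊔ E).Normal) (hRs : IsSyl p R (R ⊔ E)) : R.Normal := by
  classical
  -- minimal `N1`
  have hex : ∃ k : ℕ, ∃ N : Subgroup G, N.Normal ∧ N ≤ E ∧ (R ⊔ N).Normal ∧ Nat.card N = k :=
    ⟨_, E, hE, le_rfl, hRE, rfl⟩
  obtain ⟨N1, hN1, hN1E, hRN1, hN1c⟩ := Nat.find_spec hex
  have hmin1 : ∀ N : Subgroup G, N.Normal → N ≤ E → (R ⊔ N).Normal → Nat.card N1 ≤ Nat.card N := by
    intro N h1 h2 h3
    rw [hN1c]
    exact Nat.find_min' hex ⟨N, h1, h2, h3, rfl⟩
  by_cases hbot : N1 = ⊥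
  · rw [hbot, sup_bot_eq] at hRN1; exact hRN1
  exfalso
  -- maximal `N2 < N1`
  have hex2 : ∃ N2 : Subgroup G, N2.Normal ∧ N2 < N1 ∧
      ∀ N : Subgroup G, N.Normal → N < N1 → Nat.card N ≤ Nat.card N2 := by
    have hfin : (Set.univ : Set {N : Subgroup G // N.Normal ∧ N < N1}).Finite := Set.toFinite _
    haveI : Nonempty {N : Subgroup G // N.Normal ∧ N < N1} :=
      ⟨⟨⊥, inferInstance, bot_lt_iff_ne_bot.mpr hbot⟩⟩
    obtain ⟨N2, hN2⟩ := Finite.exists_max (fun N : {N : Subgroup G // N.Normal ∧ N < N1} =>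
      Nat.card N.1)
    exact ⟨N2.1, N2.2.1, N2.2.2, fun N h1 h2 => hN2 ⟨N, h1, h2⟩⟩
  obtain ⟨N2, hN2, hlt, hmax2⟩ := hex2
  set π := QuotientGroup.mk' N2 with hπ
  have hπs : Function.Surjective π := QuotientGroup.mk'_surjective N2
  set Rb := R.map π with hRb
  set Lb := N1.map π with hLb
  have hLn : Lb.Normal := hN1.map π hπs
  have hRsN : IsSyl p R (R ⊔ N1) := hRs.of_le_of_le le_sup_left (sup_le_sup_left hN1E R)
  have hRbp : IsPGroup p Rb := hRs.isPGroup.map π
  have hL0 : Lb ≠ ⊥ := by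
    intro h
    rw [hLb, Subgroup.map_eq_bot_iff, hπ, QuotientGroup.ker_mk'] at h
    exact absurd h (not_le_of_gt hlt)
  have hminL : ∀ N : Subgroup (G ⧸ N2), N.Normal → N ≤ Lb → N = ⊥ ∨ N = Lb := by
    intro N hN hNL
    have h1 : (N.comap π).Normal := hN.comap π
    have h2 : N.comap π ≤ N1 := by
      have := Subgroup.comap_mono (f := π) hNL
      rw [hLb, Subgroup.comap_map_eq, hπ, QuotientGroup.ker_mk', sup_eq_left.mpr hlt.le] at this
      exact this
    have h3 : N2 ≤ N.comap π := by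
      have := Subgroup.ker_le_comap π N
      rwa [hπ, QuotientGroup.ker_mk'] at this
    by_cases h4 : N.comap π = N1
    · right
      rw [hLb, ← h4, Subgroup.map_comap_eq_self_of_surjective hπs]
    · left
      have h5 := hmax2 _ h1 (lt_of_le_of_ne h2 h4)
      have h6 : N2 = N.comap π := Subgroup.eq_of_le_of_card_ge h3 h5
      have h7 : N = (N.comap π).map π := (Subgroup.map_comap_eq_self_of_surjective hπs N).symm
      rw [h7, ← h6, Subgroup.map_eq_bot_iff, hπ, QuotientGroup.ker_mk']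
  -- `Lb` is abelian
  have hsolv : Group.IsSolvable Lb := by
    haveI := hEs
    have h1 : Group.IsSolvable N1 :=
      Group.isSolvable_of_isSolvable_injective (f := Subgroup.inclusion hN1E)
        (Subgroup.inclusion_injective hN1E)
    exact Group.isSolvable_of_surjective (f := π.subgroupMap N1) (π.subgroupMap_surjective N1)
  have hab : ∀ a ∈ Lb, ∀ b ∈ Lb, a * b = b * a := by
    have hcn : (⁅Lb, Lb⁆ : Subgroup (G ⧸ N2)).Normal := Subgroup.commutator_normal Lb Lb
    rcases hminL _ hcn (Subgroup.commutator_le_left Lb Lb) with h | h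
    · rw [Subgroup.commutator_eq_bot_iff_le_centralizer] at h
      intro a ha b hb
      exact (Subgroup.mem_centralizer_iff.mp (h ha) b hb).symm
    · exfalso
      haveI : Nontrivial Lb := (Subgroup.nontrivial_iff_ne_bot _).mpr hL0
      have h1 := Group.IsSolvable.commutator_lt_top_of_nontrivial (G := Lb)
      apply h1.ne
      have h2 : (commutator Lb).map Lb.subtype = (⊤ : Subgroup Lb).map Lb.subtype := by
        rw [← H28.Quot.commutator_eq_map, h, ← MonoidHom.range_eq_map, Subgroup.range_subtype]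
      exact Subgroup.map_injective Lb.subtype_injective h2
  -- Frattini
  have hsylb : IsSyl p Rb (Rb ⊔ Lb) := by
    have := isSyl_map_hom hRsN π
    rwa [Subgroup.map_sup] at this
  have hRLn : (Rb ⊔ Lb).Normal := by
    rw [hRb, hLb, ← Subgroup.map_sup]
    exact hRN1.map π hπs
  have hsup : Lb ⊔ normalizer (Rb : Set (G ⧸ N2)) = ⊤ := by
    rw [eq_top_iff]
    intro x _
    obtain ⟨y, hy, m, hm, rfl⟩ := hsylb.frattini (H := ⊤)
      (by rw [Subgroup.normalizer_eq_top_iff.mpr hRLn]) (Subgroup.mem_top x)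
    refine Subgroup.mul_mem _ ?_ (Subgroup.mem_sup_right hm)
    have h1 : Rb ⊔ Lb ≤ Lb ⊔ normalizer (Rb : Set (G ⧸ N2)) :=
      sup_le (Subgroup.le_normalizer.trans le_sup_right) le_sup_left
    exact h1 hy
  have hinf : Lb ⊓ normalizer (Rb : Set (G ⧸ N2)) = ⊥ := by
    have hn : (Lb ⊓ normalizer (Rb : Set (G ⧸ N2))).Normal := by
      apply commutator_normal_of (R := Rb) hab hsup inf_le_left
      intro x hx
      rw [mem_normalizer_iff_cj, cj_inf]
      rw [mem_normalizer_iff_cj.mp ((Subgroup.normalizer_eq_top_iff.mpr hLn).symm ▸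
        Subgroup.mem_top x), cj_eq_self_of_mem hx]
    rcases hminL _ hn inf_le_left with h | h
    · exact h
    · exfalso
      have h1 : normalizer (Rb : Set (G ⧸ N2)) = ⊤ := by
        rw [eq_top_iff, ← hsup]
        exact sup_le (by rw [← h]; exact inf_le_right) le_rfl
      have h2 : Rb.Normal := Subgroup.normalizer_eq_top_iff.mp h1
      have h3 : (R ⊔ N2).Normal := by
        have := h2.comap π
        rwa [hRb, Subgroup.comap_map_eq, hπ, QuotientGroup.ker_mk'] at this
      have h4 := hmin1 N2 hN2 (hlt.le.trans hN1E) h3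
      exact absurd (Subgroup.eq_of_le_of_card_ge hlt.le h4) hlt.ne
  have hO2 : Lb ≤ Op 2 (G ⧸ N2) :=
    (Subgroup.map_mono (hN1E.trans hE2)).trans (Op_map_le Nat.prime_two π)
  exact core (HR_quotient hR N2) Rb Lb hRbp hL0 hminL hab hsup hinf hO2

/-- the Sylow `p`-subgroups of `O^{2'}(G)` are normal -/
theorem normal_K (hR : HR p G) (hs : Group.IsSolvable (Op p G)) (Q : Sylow p (Op 2 G)) :
    ((Q : Subgroup (Op 2 G)).map (Op 2 G).subtype).Normal := by
  haveI h2 : (Op 2 G).Normal := Op_normal 2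
  haveI hpn : (Op p G).Normal := Op_normal p
  have hE : (Op 2 G ⊓ Op p G).Normal := inferInstance
  set R := (Q : Subgroup (Op 2 G)).map (Op 2 G).subtype with hRdef
  have hR1 : IsSyl p R (Op 2 G) := isSyl_map Q
  have hle : R ≤ Op 2 G ⊓ Op p G := le_inf hR1.le (le_Op hR1.isPGroup)
  have hEs : Group.IsSolvable (Op 2 G ⊓ Op p G : Subgroup G) := by
    haveI := hs
    exact Group.isSolvable_of_isSolvable_injective (f := Subgroup.inclusion inf_le_right)
        (Subgroup.inclusion_injective (inf_le_right : Op 2 G ⊓ Op p G ≤ Op p G))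
  apply normal_of hR R (Op 2 G ⊓ Op p G) hEs inf_le_left
  · rw [sup_eq_right.mpr hle]; exact hE
  · rw [sup_eq_right.mpr hle]
    exact hR1.of_le_of_le hle inf_le_left

/-- the Sylow `p`-subgroups of `U`, `U / K` a normal `p`-subgroup of `G / K`, are normal -/
theorem normal_U (hR : HR p G) (hs : Group.IsSolvable (Op p G)) (U : Subgroup G) (hU : U.Normal)
    (hKU : Op 2 G ≤ U) (hUp : ∃ a : ℕ, (Op 2 G).relIndex U = p ^ a) (Q : Sylow p U) :
    ((Q : Subgroup U).map U.subtype).Normal := by
  haveI h2 : (Op 2 G).Normal := Op_normal 2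
  haveI hpn : (Op p G).Normal := Op_normal p
  have hE : (Op 2 G ⊓ Op p G).Normal := inferInstance
  set R := (Q : Subgroup U).map U.subtype with hRdef
  have hR1 : IsSyl p R U := isSyl_map Q
  have hEs : Group.IsSolvable (Op 2 G ⊓ Op p G : Subgroup G) := by
    haveI := hs
    exact Group.isSolvable_of_isSolvable_injective (f := Subgroup.inclusion inf_le_right)
        (Subgroup.inclusion_injective (inf_le_right : Op 2 G ⊓ Op p G ≤ Op p G))
  -- `U = K R`
  have hUK : R ⊔ Op 2 G = U := by
    apply le_antisymm (sup_le hR1.le hKU)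
    obtain ⟨a, ha⟩ := hUp
    have h1 : (R ⊔ Op 2 G).relIndex U ∣ p ^ a := by
      rw [← ha]; exact Subgroup.relIndex_dvd_of_le_left U le_sup_right
    have h3 : (R ⊔ Op 2 G).relIndex U ∣ R.relIndex U :=
      Subgroup.relIndex_dvd_of_le_left U le_sup_left
    obtain ⟨j, -, hj⟩ := (Nat.dvd_prime_pow hp.out).mp h1
    have hj0 : j = 0 := by
      by_contra hj0
      apply hR1.not_dvd
      refine dvd_trans ?_ h3
      rw [hj]; exact dvd_pow_self p hj0
    rw [hj0, pow_zero] at hj
    exact Subgroup.relIndex_eq_one.mp hj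
  have hRE : R ⊔ (Op 2 G ⊓ Op p G) = U ⊓ Op p G := by
    apply le_antisymm
    · exact sup_le (le_inf hR1.le (le_Op hR1.isPGroup)) (le_inf (inf_le_left.trans hKU) inf_le_right)
    · intro x hx
      obtain ⟨hxU, hxp⟩ := Subgroup.mem_inf.mp hx
      rw [← hUK, Subgroup.mem_sup_of_normal_right] at hxU
      obtain ⟨r, hr, k, hk, rfl⟩ := hxU
      refine Subgroup.mul_mem _ (Subgroup.mem_sup_left hr) (Subgroup.mem_sup_right ?_)
      refine Subgroup.mem_inf.mpr ⟨hk, ?_⟩
      have : k = r⁻¹ * (r * k) := by group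
      rw [this]
      exact (Op p G).mul_mem ((Op p G).inv_mem (le_Op hR1.isPGroup hr)) hxp
  apply normal_of hR R (Op 2 G ⊓ Op p G) hEs inf_le_left
  · rw [hRE]; infer_instance
  · apply hR1.of_le_of_le le_sup_left
    rw [hRE]; exact inf_le_left

theorem normal_of_map_subtype {H : Subgroup G} {Q : Subgroup H} (h : (Q.map H.subtype).Normal) :
    Q.Normal := by
  have h1 := h.comap H.subtype
  rwa [Subgroup.comap_map_eq_self_of_injective H.subtype_injective] at h1

end H83.RealP
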