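import Mathlib
import Cfsg.Agent.Lib.H83.RealP2

/-!
Groups whose real irreducible characters have degree prime to `p` (Isaacs–Navarro): normal subgroups in
the derived subgroup of a Sylow subgroup.
-/

set_option autoImplicit false
set_option linter.unusedSectionVars false
set_option linter.style.haveILetI false

namespace H83.RealP

open Cfsg Representation H18.CharBasic H18.CharOrtho H18.CharInd H18.CharQuot H31.Clifford
  H83.FSMult H83.FSInd H83.RealOrb H83.RealOver H28.Cj H28.RelSyl Subgroup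
open scoped ComplexConjugate

universe u

variable {G : Type u} [Group G] [Finite G] {p : ℕ} [hp : Fact p.Prime]

/-- a linear character is trivial on the derived subgroup -/
theorem linear_trivial {P : Subgroup G} [Fintype P] {ψ : P → ℂ} (hψ : IsIrrCharacter P ψ) (h1 : ψ 1 = 1)
    {x : G} (hxP : x ∈ P) (hx : x ∈ ⁅P, P⁆) : ψ ⟨x, hxP⟩ = 1 := by
  obtain ⟨f, rfl⟩ := exists_hom_of_degree_one (isCharacter_of_isIrr hψ) h1
  have h2 : (⟨x, hxP⟩ : P) ∈ f.ker := by
    have h3 : (⟨x, hxP⟩ : P) ∈ commutator P := by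
      have h4 : (commutator P).map P.subtype = ⁅P, P⁆ := by
        rw [_root_.commutator_def, Subgroup.map_commutator, ← MonoidHom.range_eq_map,
          Subgroup.range_subtype]
      rw [← h4] at hx
      obtain ⟨y, hy, hyx⟩ := hx
      have : y = ⟨x, hxP⟩ := Subtype.ext hyx
      rw [← this]; exact hy
    exact Abelianization.commutator_subset_ker f h3
  show ((f ⟨x, hxP⟩ : ℂˣ) : ℂ) = 1
  rw [MonoidHom.mem_ker.mp h2]; simp

/-- a character of degree prime to `p` restricted to `M ≤ P'` contains the trivial character -/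
theorem inner_one_ne_zero (P : Subgroup G) (hP : IsPGroup p P) {M : Subgroup G} [M.Normal] [Fintype M]
    (hM : M ≤ ⁅P, P⁆) {χ : G → ℂ} (hχ : IsCharacter G χ) {c : ℕ} (hc : χ 1 = c) (hpc : ¬ p ∣ c) :
    classInner (fun m : M => χ m) (fun _ => (1 : ℂ)) ≠ 0 := by
  classical
  letI := Fintype.ofFinite G
  letI := Fintype.ofFinite P
  haveI : Finite (IrrCharacter P) := instFiniteIrr
  letI := Fintype.ofFinite (IrrCharacter P)
  have hMP : M ≤ P := hM.trans (Subgroup.commutator_le_self P)
  have hφ : IsCharacter P (fun x : P => χ x) := isCharacter_restrict P hχ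
  have h0 : ∀ ψ : IrrCharacter P, ∃ a : ℕ, classInner (fun x : P => χ x) (ψ : P → ℂ) = a := fun ψ =>
    inner_char_natCast hφ (isCharacter_of_isIrr ψ.2)
  choose a ha using h0
  have h0' : ∀ ψ : IrrCharacter P, ∃ b : ℕ, classInner (resH hMP (ψ : P → ℂ)) (fun _ => (1 : ℂ)) = b :=
    fun ψ => inner_char_natCast (isCharacter_resH M P hMP (isCharacter_of_isIrr ψ.2))
      (isCharacter_of_isIrr isIrrCharacter_one)
  choose b hb using h0'
  have h0'' : ∀ ψ : IrrCharacter P, ∃ d : ℕ, (ψ : P → ℂ) 1 = d := fun ψ =>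
    exists_degree (isCharacter_of_isIrr ψ.2)
  choose d hd using h0''
  have h1 := mem_classFun_expand (isClassFunction_of_isCharacter hφ)
  intro hz
  have hsum : ∑ ψ : IrrCharacter P, a ψ * b ψ = 0 := by
    have h3 : ((∑ ψ : IrrCharacter P, a ψ * b ψ : ℕ) : ℂ) = 0 := by
      rw [← hz]
      have e : (fun m : M => χ m) =
          ∑ ψ : IrrCharacter P, (classInner (fun x : P => χ x) (ψ : P → ℂ)) • resH hMP (ψ : P → ℂ) := by
        funext m
        have := congrFun h1 ⟨m, hMP m.2⟩
        rw [Finset.sum_apply]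
        rw [Finset.sum_apply] at this
        exact this
      rw [e, inner_sum_left]
      push_cast
      refine Finset.sum_congr rfl fun ψ _ => ?_
      rw [H18.CharOrtho.inner_smul_left, ha, hb]
    exact_mod_cast h3
  have hdeg : c = ∑ ψ : IrrCharacter P, a ψ * d ψ := by
    have h3 : (c : ℂ) = ((∑ ψ : IrrCharacter P, a ψ * d ψ : ℕ) : ℂ) := by
      rw [← hc]
      have := congrFun h1 1
      rw [Finset.sum_apply] at this
      push_cast
      refine Eq.trans this (Finset.sum_congr rfl fun ψ _ => ?_)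
      rw [Pi.smul_apply, smul_eq_mul, ha, hd]
    exact_mod_cast h3
  apply hpc
  rw [hdeg]
  apply Finset.dvd_sum
  intro ψ _
  have h4 := (Finset.sum_eq_zero_iff.mp hsum) ψ (Finset.mem_univ _)
  by_cases h5 : d ψ = 1
  · have h6 : b ψ = 1 := by
      have h7 : resH hMP (ψ : P → ℂ) = fun _ => 1 := by
        funext m
        rw [resH_apply]
        exact linear_trivial ψ.2 (by rw [hd, h5]; simp) (hMP m.2) (hM m.2)
      have h8 := hb ψ
      rw [h7, inner_irr_self isIrrCharacter_one] at h8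
      exact_mod_cast h8.symm
    rw [h6, mul_one] at h4
    rw [h4, zero_mul]
    exact dvd_zero p
  · apply Dvd.dvd.mul_left
    have h6 := H20.Defect.charDegree_dvd_card ψ
    have h7 := H20.Defect.charDegree_irr ψ
    rw [hd] at h7
    have h8 : charDegree (ψ : P → ℂ) = d ψ := by exact_mod_cast h7
    rw [h8] at h6
    obtain ⟨k, hk⟩ := IsPGroup.iff_card.mp hP
    rw [hk] at h6
    obtain ⟨j, -, hj⟩ := (Nat.dvd_prime_pow hp.out).mp h6
    have hj0 : j ≠ 0 := by
      rintro rfl
      exact h5 (by rw [hj, pow_zero])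
    rw [hj]
    exact dvd_pow_self p hj0

theorem cj_one_fun (N : Subgroup G) [N.Normal] (g : G) :
    conjFunN N g (fun _ => (1 : ℂ)) = fun _ => 1 := rfl

theorem centralized (hp2 : p ≠ 2) (hR : HR p G) (P : Sylow p G) (M : Subgroup G) [hM : M.Normal]
    (hMP : M ≤ ⁅(P : Subgroup G), (P : Subgroup G)⁆) : Op 2 G ≤ centralizer (M : Set G) := by
  classical
  letI := Fintype.ofFinite G
  letI := Fintype.ofFinite M
  haveI : Fact (Nat.Prime 2) := ⟨Nat.prime_two⟩
  have hMP' : M ≤ (P : Subgroup G) := hMP.trans (Subgroup.commutator_le_self _)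
  have hMp : IsPGroup p M := P.2.to_le hMP'
  have hModd : Odd (Nat.card M) := by
    obtain ⟨k, hk⟩ := IsPGroup.iff_card.mp hMp
    rw [hk]; exact (hp.out.odd_of_ne_two hp2).pow
  rw [Op, Subgroup.closure_le]
  rintro t ⟨k, hk⟩
  rw [SetLike.mem_coe, Subgroup.mem_centralizer_iff]
  intro a ha
  by_contra hta
  obtain ⟨n, hn, hn1, s, hs⟩ := exists_inverted (L := M) hk ha (fun h => hta h.symm)
  obtain ⟨θ, hθ1, hθs⟩ := exists_theta M (n := ⟨n, hn⟩) (fun h => hn1 (congrArg Subtype.val h)) s hs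
  -- Sylow 2-subgroup
  let S : Sylow 2 G := default
  have hSM : ∀ x ∈ M, x ∈ (S : Subgroup G) → x = 1 := by
    intro x hx hxS
    have h1 : orderOf x ∣ Nat.card M := Subgroup.orderOf_dvd_natCard M hx
    obtain ⟨j, hj⟩ := IsPGroup.iff_orderOf.mp S.2 ⟨x, hxS⟩
    rw [Subgroup.orderOf_mk] at hj
    rw [hj] at h1
    have h2 : j = 0 := by
      by_contra hj0
      have h3 : 2 ∣ Nat.card M := (dvd_pow_self 2 hj0).trans h1
      exact (Nat.not_even_iff_odd.mpr hModd) (even_iff_two_dvd.mpr h3)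
    rw [h2, pow_zero, orderOf_eq_one_iff] at hj
    exact hj
  have hSi : Odd (S : Subgroup G).index := by
    rw [← Nat.not_even_iff_odd, even_iff_two_dvd]; exact S.not_dvd_index
  obtain ⟨m, hm⟩ : Nat.card M ∣ (S : Subgroup G).index := by
    have h1 : Nat.card M ∣ Nat.card S * (S : Subgroup G).index := by
      rw [Subgroup.card_mul_index]; exact Subgroup.card_subgroup_dvd_card M
    refine Nat.Coprime.dvd_of_dvd_mul_left ?_ h1
    obtain ⟨j, hj⟩ := IsPGroup.iff_card.mp S.2
    rw [hj]
    refine Nat.Coprime.pow_right j (Nat.Coprime.symm (Nat.prime_two.coprime_iff_not_dvd.mpr ?_))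
    intro h
    exact (Nat.not_even_iff_odd.mpr hModd) (even_iff_two_dvd.mpr h)
  have hmodd : Odd m := by
    rw [hm] at hSi
    exact (Nat.odd_mul.mp hSi).2
  have hdθ := H20.Defect.charDegree_dvd_card θ
  have hdθ2 := H20.Defect.charDegree_irr θ
  obtain ⟨χ, hχr, hχθ⟩ := exists_real M (S : Subgroup G) hSM θ.2 s hθs _ hdθ2.symm
    (Odd.of_dvd_nat hModd hdθ) m hm hmodd
  have hpd := hR χ hχr
  have h1 := inner_one_ne_zero (G := G) (p := p) (P : Subgroup G) P.2 hMP (isCharacter_of_isIrr χ.2)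
    (H20.Defect.charDegree_irr χ).symm hpd
  obtain ⟨g, hg⟩ := constituents_conj M χ.2 θ.2 isIrrCharacter_one hχθ h1
  apply hθ1
  apply cj_inj M g
  rw [cj_one_fun]
  exact hg.symm

end H83.RealP
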