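import Mathlib
import Cfsg.Agent.Lib.H83.RealP3
import Cfsg.Agent.Lib.H83.RealOne
import Cfsg.Agent.S4914

/-!
Groups whose real irreducible characters have degree prime to `p` (Isaacs–Navarro): the correspondence
between invariant characters of `K = O^{2'}(G)` and of `N_K(P)`.
-/

set_option autoImplicit false
set_option linter.unusedSectionVars false
set_option linter.style.haveILetI false

namespace H83.RealP

open Cfsg Representation H18.CharBasic H18.CharOrtho H18.CharInd H18.CharQuot H31.Clifford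
  H83.FSMult H83.FSInd H83.RealOrb H83.RealOver H28.Cj H28.RelSyl Subgroup
open scoped ComplexConjugate

universe u

variable {G : Type u} [Group G] [Finite G] {p : ℕ} [hp : Fact p.Prime]

theorem odd_index_Op : Odd (Op 2 G).index := by
  haveI : Fact (Nat.Prime 2) := ⟨Nat.prime_two⟩
  let S : Sylow 2 G := default
  have h1 : (S : Subgroup G) ≤ Op 2 G := le_Op S.2
  have h2 := Subgroup.index_dvd_of_le h1
  rw [← Nat.not_even_iff_odd, even_iff_two_dvd]
  exact fun h => S.not_dvd_index (h.trans h2)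

section corr

variable (K : Subgroup G) [hK : K.Normal] (N : Subgroup G)

/-- restriction of a function on `K` to `K ∩ N` as a subgroup of `N` -/
def resKN (θ : K → ℂ) : (K.subgroupOf N) → ℂ := fun c => θ ⟨c.1.1, Subgroup.mem_subgroupOf.mp c.2⟩

theorem resKN_cj (n : N) (θ : K → ℂ) :
    resKN K N (conjFunN K (n : G) θ) = conjFunN (K.subgroupOf N) n (resKN K N θ) := rfl

theorem isCharacter_resKN {θ : K → ℂ} (h : IsCharacter K θ) : IsCharacter (K.subgroupOf N) (resKN K N θ) :=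
  isCharacter_comp (G := K) (H := K.subgroupOf N)
    { toFun := fun c => ⟨c.1.1, Subgroup.mem_subgroupOf.mp c.2⟩
      map_one' := rfl
      map_mul' := fun _ _ => rfl } h

end corr

/-- the correspondence of Isaacs–Navarro, transported -/
theorem exists_corr (P : Sylow p G) (K : Subgroup G) [hK : K.Normal] (Q : Subgroup G) [hQ : Q.Normal]
    (hQK : IsSyl p Q K) :
    ∃ F : {θ : IrrCharacter K // (P : Subgroup G) ≤ inertia K (θ : K → ℂ)} →
      {ξ : IrrCharacter (K.subgroupOf (normalizer ((P : Subgroup G) : Set G))) //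
        (P : Subgroup G).subgroupOf (normalizer ((P : Subgroup G) : Set G)) ≤
          inertia (K.subgroupOf (normalizer ((P : Subgroup G) : Set G))) (ξ : _ → ℂ)},
      Function.Bijective F ∧ ∀ θ, (∀ ξ, ∀ [Fintype (K.subgroupOf (normalizer ((P : Subgroup G) : Set G)))],
        ∃ m : ℕ, classInner (resKN K (normalizer ((P : Subgroup G) : Set G)) (θ.1 : K → ℂ)) (ξ.1 : (K.subgroupOf (normalizer ((P : Subgroup G) : Set G))) → ℂ) = m ∧
          (ξ = F θ ↔ ¬ p ∣ m)) ∧
        ((charDegree ((F θ).1 : (K.subgroupOf (normalizer ((P : Subgroup G) : Set G))) → ℂ) : ZMod p) =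
            (charDegree (θ.1 : K → ℂ) : ZMod p) ∨
          (charDegree ((F θ).1 : (K.subgroupOf (normalizer ((P : Subgroup G) : Set G))) → ℂ) : ZMod p) =
            -(charDegree (θ.1 : K → ℂ) : ZMod p)) := by
  classical
  letI := Fintype.ofFinite G
  set N := normalizer ((P : Subgroup G) : Set G) with hN
  letI := Fintype.ofFinite N
  have hQP : Q ≤ (P : Subgroup G) := by
    obtain ⟨g, -, hg⟩ := (isSyl_top P).exists_conj_le hQK.isPGroup le_top
    rw [mem_normalizer_iff_cj.mp ((Subgroup.normalizer_eq_top_iff.mpr hQ).symm ▸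
      Subgroup.mem_top g)] at hg
    exact hg
  have hPK : (P : Subgroup G) ⊓ K = Q := by
    apply hQK.eq_of_le (P.2.to_le inf_le_left) (le_inf hQP hQK.le) inf_le_right
  have hC : ∀ k : G, k ∈ N ⊓ K ↔ (k ∈ K ∧ ∀ x ∈ (P : Subgroup G), x * k * x⁻¹ * k⁻¹ ∈ Q) := by
    intro k
    constructor
    · intro hk
      obtain ⟨hkN, hkK⟩ := Subgroup.mem_inf.mp hk
      refine ⟨hkK, fun x hx => ?_⟩
      rw [← hPK]
      refine Subgroup.mem_inf.mpr ⟨?_, ?_⟩
      · have : x * k * x⁻¹ * k⁻¹ = x * (k * x⁻¹ * k⁻¹) := by group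
        rw [this]
        exact Subgroup.mul_mem _ hx ((Subgroup.mem_normalizer_iff.mp hkN _).mp
          (Subgroup.inv_mem _ hx))
      · exact K.mul_mem (hK.conj_mem k hkK x) (K.inv_mem hkK)
    · rintro ⟨hkK, hk⟩
      refine Subgroup.mem_inf.mpr ⟨?_, hkK⟩
      rw [mem_normalizer_iff_cj]
      apply Subgroup.eq_of_le_of_card_ge
      · rintro _ ⟨y, hy, rfl⟩
        have h1 := hk y⁻¹ (Subgroup.inv_mem _ hy)
        have h3 : k * y * k⁻¹ = y * (y⁻¹ * k * y⁻¹⁻¹ * k⁻¹) := by group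
        show k * y * k⁻¹ ∈ (P : Subgroup G)
        rw [h3]
        exact Subgroup.mul_mem _ hy (hQP h1)
      · exact le_of_eq (card_cj k _).symm
  obtain ⟨f, hf, hspec⟩ := Cfsg.Agent.S4914.result p (P : Subgroup G) K Q (N ⊓ K) P.2
    (by rw [Subgroup.normalizer_eq_top_iff.mpr hK]; exact le_top) hQK.le
    (fun k _ q hq => hQ.conj_mem q hq k) (IsPGroup.iff_card.mp hQK.isPGroup) hQK.not_dvd
    inf_le_right hC
  -- transport
  let e : (K.subgroupOf N) ≃* (N ⊓ K : Subgroup G) :=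
    { toFun := fun c => ⟨c.1.1, Subgroup.mem_inf.mpr ⟨c.1.2, Subgroup.mem_subgroupOf.mp c.2⟩⟩
      invFun := fun c => ⟨⟨c.1, (Subgroup.mem_inf.mp c.2).1⟩,
        Subgroup.mem_subgroupOf.mpr (Subgroup.mem_inf.mp c.2).2⟩
      left_inv := fun _ => rfl
      right_inv := fun _ => rfl
      map_mul' := fun _ _ => rfl }
  have hinvK : ∀ θ : IrrCharacter K, (∀ x ∈ (P : Subgroup G), ∀ k k' : K, (k' : G) = x * (k : G) * x⁻¹ →
      (θ : K → ℂ) k' = (θ : K → ℂ) k) ↔ (P : Subgroup G) ≤ inertia K (θ : K → ℂ) := by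
    intro θ
    constructor
    · intro h x hx
      rw [mem_inertia_iff]
      intro k
      exact h x hx k _ rfl
    · intro h x hx k k' hk
      have h1 := (mem_inertia_iff K).mp (h hx) k
      have h2 : k' = ⟨x * k * x⁻¹, hK.conj_mem k k.2 x⟩ := Subtype.ext hk
      rw [h2, h1]
  have hinvC : ∀ ξ : IrrCharacter (N ⊓ K : Subgroup G),
      (∀ x ∈ (P : Subgroup G), ∀ k k' : (N ⊓ K : Subgroup G), (k' : G) = x * (k : G) * x⁻¹ →
      (ξ : _ → ℂ) k' = (ξ : _ → ℂ) k) ↔ (P : Subgroup G).subgroupOf N ≤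
        inertia (K.subgroupOf N) (fun c => (ξ : _ → ℂ) (e c)) := by
    intro ξ
    constructor
    · intro h x hx
      rw [mem_inertia_iff]
      intro k
      exact h x.1 (Subgroup.mem_subgroupOf.mp hx) (e k) _ rfl
    · intro h x hx k k' hk
      have h1 := (mem_inertia_iff (K.subgroupOf N)).mp (h (x := ⟨x, Subgroup.le_normalizer hx⟩)
        (Subgroup.mem_subgroupOf.mpr hx)) (e.symm k)
      have h2 : k' = e ⟨(⟨x, Subgroup.le_normalizer hx⟩ : N) * ((e.symm k : K.subgroupOf N) : N) *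
        (⟨x, Subgroup.le_normalizer hx⟩ : N)⁻¹, (inferInstance : (K.subgroupOf N).Normal).conj_mem _
          (e.symm k).2 _⟩ := Subtype.ext hk
      rw [h2]
      exact h1
  -- the transported map
  let E1 : {θ : IrrCharacter K // (P : Subgroup G) ≤ inertia K (θ : K → ℂ)} ≃
      {χ : IrrCharacter K // (∀ x ∈ (P : Subgroup G), ∀ k k' : K, (k' : G) = x * (k : G) * x⁻¹ →
        (χ : K → ℂ) k' = (χ : K → ℂ) k)} := Equiv.subtypeEquivRight fun θ => (hinvK θ).symm
  let E2 : {ξ : IrrCharacter (N ⊓ K : Subgroup G) // (∀ x ∈ (P : Subgroup G),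
        ∀ k k' : (N ⊓ K : Subgroup G), (k' : G) = x * (k : G) * x⁻¹ → (ξ : _ → ℂ) k' = (ξ : _ → ℂ) k)} ≃
      {ξ : IrrCharacter (K.subgroupOf N) // (P : Subgroup G).subgroupOf N ≤
        inertia (K.subgroupOf N) (ξ : _ → ℂ)} :=
    { toFun := fun ξ => ⟨⟨fun c => (ξ.1 : _ → ℂ) (e c), (isIrrCharacter_mulEquiv e).1 ξ.1.2⟩,
        (hinvC ξ.1).1 ξ.2⟩
      invFun := fun ξ => ⟨⟨fun c => (ξ.1 : _ → ℂ) (e.symm c), (isIrrCharacter_mulEquiv e.symm).1 ξ.1.2⟩,
        (hinvC ⟨fun c => (ξ.1 : _ → ℂ) (e.symm c), (isIrrCharacter_mulEquiv e.symm).1 ξ.1.2⟩).2 ξ.2⟩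
      left_inv := fun _ => rfl
      right_inv := fun _ => rfl }
  refine ⟨fun θ => E2 (f (E1 θ)), E2.bijective.comp (hf.comp E1.bijective), ?_⟩
  intro θ
  obtain ⟨h1, h2⟩ := hspec (E1 θ)
  refine ⟨?_, ?_⟩
  · intro ξ _
    letI : Fintype (N ⊓ K : Subgroup G) := Fintype.ofFinite _
    obtain ⟨m, hm, hm1, hm2⟩ := h1 (E2.symm ξ)
    refine ⟨m, ?_, ?_⟩
    · rw [← hm, finsum_eq_sum_of_fintype]
      have h3 := classInner_mulEquiv e (fun c : (N ⊓ K : Subgroup G) =>
        (θ.1 : K → ℂ) (Subgroup.inclusion inf_le_right c)) ((E2.symm ξ).1 : _ → ℂ)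
      exact h3
    · constructor
      · intro h3 h4
        have h5 : E2.symm ξ = f (E1 θ) := by rw [h3]; exact Equiv.symm_apply_apply _ _
        have h6 : (m : ZMod p) = 0 := (ZMod.natCast_eq_zero_iff m p).2 h4
        have h7 : (1 : ZMod p) ≠ 0 := one_ne_zero
        rcases hm1 h5 with h8 | h8
        · exact h7 (h8.symm.trans h6)
        · rw [h6] at h8
          exact h7 (neg_eq_zero.mp h8.symm)
      · intro h3
        by_contra h4
        apply h3
        apply hm2
        intro h5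
        apply h4
        show ξ = E2 (f (E1 θ))
        rw [← h5]; exact (Equiv.apply_symm_apply _ _).symm
  · have e1 : (charDegree ((E2 (f (E1 θ))).1 : (K.subgroupOf N) → ℂ)) =
        charDegree ((f (E1 θ)).1 : (N ⊓ K : Subgroup G) → ℂ) := by
      have h3 := H20.Defect.charDegree_irr (E2 (f (E1 θ))).1
      have h4 := H20.Defect.charDegree_irr (f (E1 θ)).1
      have h5 : ((charDegree ((E2 (f (E1 θ))).1 : (K.subgroupOf N) → ℂ) : ℕ) : ℂ) =
          charDegree ((f (E1 θ)).1 : (N ⊓ K : Subgroup G) → ℂ) := by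
        rw [h3, h4]; rfl
      exact_mod_cast h5
    rw [e1]
    exact h2

end H83.RealP
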