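import Mathlib
import Cfsg.Agent.Lib.H83.RealP5

/-!
Groups whose real irreducible characters have degree prime to `p` (Isaacs–Navarro): bijection between the
real characters of `G` and the real `p'`-characters of `N_G(P)`.
-/

set_option autoImplicit false
set_option linter.unusedSectionVars false
set_option linter.style.haveILetI false

namespace H83.RealP

open Cfsg Representation H18.CharBasic H18.CharOrtho H18.CharInd H18.CharQuot H31.Clifford
  H83.FSMult H83.FSInd H83.RealOrb H83.RealOver H28.Cj H28.RelSyl Subgroup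
open scoped ComplexConjugate

universe u

variable {G : Type u} [Group G] [Finite G] {p : ℕ} [hp : Fact p.Prime]

/-- normaliser of a Sylow subgroup -/
abbrev NN (P : Sylow p G) : Subgroup G := normalizer ((P : Subgroup G) : Set G)

/-- the Sylow subgroup in its normaliser -/
abbrev PP (P : Sylow p G) : Subgroup (NN P) := (P : Subgroup G).subgroupOf (NN P)

theorem not_dvd_index_PP (P : Sylow p G) : ¬ p ∣ (PP P).index :=
  ((isSyl_top P).of_le_of_le Subgroup.le_normalizer le_top).not_dvd

theorem index_modEq (P : Sylow p G) {T : Subgroup G} (hT : (P : Subgroup G) ≤ T) :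
    (T.index : ZMod p) = (T.relIndex (NN P) : ZMod p) := by
  have h1 : ((NN P).index : ZMod p) = 1 := by
    have h2 := card_sylow_modEq_one p G
    rw [P.card_eq_index_normalizer] at h2
    have h3 := (ZMod.natCast_eq_natCast_iff _ _ p).mpr h2
    rw [Nat.cast_one] at h3
    exact h3
  have h2 : ((NN P).relIndex T : ZMod p) = 1 := by
    have hsyl : IsSyl p (P : Subgroup G) T := (isSyl_top P).of_le_of_le hT le_top
    have h3 := card_sylow_modEq_one p T
    rw [hsyl.toSylow.card_eq_index_normalizer] at h3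
    have h4 := (ZMod.natCast_eq_natCast_iff _ _ p).mpr h3
    rw [Nat.cast_one] at h4
    have h5 : normalizer ((hsyl.toSylow : Subgroup T) : Set T) = (NN P).subgroupOf T := by
      rw [hsyl.coe_toSylow]
      exact (Subgroup.subgroupOf_normalizer_eq hT).symm
    rw [Subgroup.relIndex, ← h5]
    exact h4
  have h3 : (NN P ⊓ T).index = (NN P).relIndex T * T.index := by
    rw [← Subgroup.inf_relIndex_right, Subgroup.relIndex_mul_index inf_le_right]
  have h4 : (NN P ⊓ T).index = T.relIndex (NN P) * (NN P).index := by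
    rw [← Subgroup.inf_relIndex_left, Subgroup.relIndex_mul_index inf_le_left]
  have h5 : (((NN P).relIndex T * T.index : ℕ) : ZMod p) = ((T.relIndex (NN P) * (NN P).index : ℕ) : ZMod p) := by
    rw [← h3, ← h4]
  push_cast at h5
  rw [h1, h2, one_mul, mul_one] at h5
  exact h5

section inv

variable (P : Sylow p G) (K : Subgroup G) [hK : K.Normal]

/-- two `P`-invariant characters of `K` conjugate in `G` are conjugate in `N_G(P)` -/
theorem fusion {θ θ' : K → ℂ} (hθ : (P : Subgroup G) ≤ inertia K θ) (hθ' : (P : Subgroup G) ≤ inertia K θ')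
    {g : G} (hg : θ' = conjFunN K g θ) : ∃ n : NN P, θ' = conjFunN K (n : G) θ := by
  letI := Fintype.ofFinite G
  have h1 : cj g (P : Subgroup G) ≤ inertia K θ := by
    rintro _ ⟨x, hx, rfl⟩
    have h2 := (mem_inertia K).mp (hθ' hx)
    rw [hg, cj_mul] at h2
    rw [mem_inertia]
    show conjFunN K (g * x * g⁻¹) θ = θ
    apply cj_inj K g
    rw [cj_mul, inv_mul_cancel_right, h2]
  have hs1 : IsSyl p (P : Subgroup G) (inertia K θ) := (isSyl_top P).of_le_of_le hθ le_top
  have hs2 : IsSyl p (cj g (P : Subgroup G)) (inertia K θ) := by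
    have := (isSyl_top P).cj g
    rw [cj_top] at this
    exact this.of_le_of_le h1 le_top
  obtain ⟨t, ht, htg⟩ := hs2.exists_conj_eq hs1
  rw [cj_cj] at htg
  refine ⟨⟨t * g, mem_normalizer_iff_cj.mpr htg.symm⟩, ?_⟩
  show θ' = conjFunN K (t * g) θ
  rw [← cj_mul, (mem_inertia K).mp ht, hg]

/-- a real character of degree prime to `p` lies over a real `P`-invariant character of `K` -/
theorem exists_real_inv (hodd : Odd K.index) [Fintype K] {χ : IrrCharacter G}
    (hχ : ∀ g, ((χ : G → ℂ) g).im = 0) (hpχ : ¬ p ∣ charDegree (χ : G → ℂ)) :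
    ∃ θ : IrrCharacter K, (∀ k, ((θ : K → ℂ) k).im = 0) ∧ (P : Subgroup G) ≤ inertia K (θ : K → ℂ) ∧
      classInner (fun k : K => (χ : G → ℂ) k) (θ : K → ℂ) ≠ 0 := by
  letI := Fintype.ofFinite G
  obtain ⟨φ, hφ, h0⟩ := exists_constituent_restrict K χ.2
  have h1 : Odd (inertia K φ).index := by
    have h2 := Subgroup.index_dvd_of_le (le_inertia K (isClassFunction_of_isIrr hφ))
    exact Odd.of_dvd_nat hodd h2
  obtain ⟨η, hη, hηr, hη0, -⟩ := exists_real_under K χ.2 hχ hφ h0 h1
  have hpi : ¬ p ∣ (inertia K η).index := by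
    intro hd
    apply hpχ
    have h2 := degree_eq K χ.2 hη hη0
    obtain ⟨e, he⟩ := inner_char_natCast (isCharacter_restrict K (isCharacter_of_isIrr χ.2))
      (isCharacter_of_isIrr hη)
    obtain ⟨c, hc⟩ := exists_degree (isCharacter_of_isIrr hη)
    rw [he, hc, ← H20.Defect.charDegree_irr] at h2
    have h3 : charDegree (χ : G → ℂ) = e * (inertia K η).index * c := by exact_mod_cast h2
    rw [h3]
    exact Dvd.dvd.mul_right (Dvd.dvd.mul_left hd e) c
  obtain ⟨T, hT⟩ := exists_isSyl p (inertia K η)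
  have hT' : IsSyl p T ⊤ := hT.trans le_top (by rwa [Subgroup.relIndex_top_right])
  obtain ⟨g, -, hg⟩ := hT'.exists_conj_eq (isSyl_top P)
  refine ⟨⟨conjFunN K g⁻¹ η, isIrrCharacter_conjN K g⁻¹ hη⟩, fun k => hηr _, ?_, ?_⟩
  · intro x hx
    rw [hg, mem_cj] at hx
    have h2 := (mem_inertia K).mp (hT.le hx)
    rw [mem_inertia]
    show conjFunN K x (conjFunN K g⁻¹ η) = conjFunN K g⁻¹ η
    apply cj_inj K g
    rw [cj_mul, cj_mul, cj_mul, inv_mul_cancel, H31.Clifford.cj_one, ← mul_assoc]
    exact h2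
  · show classInner (fun k : K => (χ : G → ℂ) k) (conjFunN K g⁻¹ η) ≠ 0
    rw [inner_restrict_cj K g⁻¹ (isClassFunction_of_isIrr χ.2)]
    exact hη0

theorem inv_conj {θ : K → ℂ} (hθ : (P : Subgroup G) ≤ inertia K θ) (n : NN P) :
    (P : Subgroup G) ≤ inertia K (conjFunN K (n : G) θ) := by
  letI := Fintype.ofFinite G
  intro x hx
  have h1 : (n : G) * x * (n : G)⁻¹ ∈ (P : Subgroup G) := (Subgroup.mem_normalizer_iff.mp n.2 x).mp hx
  have h2 := (mem_inertia K).mp (hθ h1)
  rw [mem_inertia, cj_mul]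
  have h3 : (n : G) * x = ((n : G) * x * (n : G)⁻¹) * n := by group
  rw [h3, ← cj_mul, h2]

theorem inv_star {θ : K → ℂ} {T : Subgroup G} (hθ : T ≤ inertia K θ) :
    T ≤ inertia K (fun k => conj (θ k)) := by
  letI := Fintype.ofFinite G
  intro x hx
  have h2 := (mem_inertia K).mp (hθ hx)
  rw [mem_inertia]
  funext k
  exact congrArg conj (congrFun h2 k)

end inv

end H83.RealP
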