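import Mathlib
import Cfsg.Agent.Lib.H83.RealP6

/-!
Groups whose real irreducible characters have degree prime to `p` (Isaacs–Navarro): bijection between the
real characters of `G` and the real `p'`-characters of `N_G(P)`.
-/

set_option autoImplicit false
set_option linter.unusedSectionVars false
set_option linter.style.haveILetI false

namespace H83.RealP

open Cfsg Representation H18.CharBasic H18.CharOrtho H18.CharInd H18.CharQuot H31.Clifford
  H83.FSMult H83.FSInd H83.RealOrb H83.RealOver H28.Cj H28.RelSyl Subgroup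
open scoped ComplexConjugate

universe u

variable {G : Type u} [Group G] [Finite G] {p : ℕ} [hp : Fact p.Prime]

theorem charDegree_eq_of (χ : IrrCharacter G) {K : Subgroup G} [K.Normal] [Fintype K] (θ : IrrCharacter K)
    (h : classInner (fun k : K => (χ : G → ℂ) k) (θ : K → ℂ) = 1) :
    charDegree (χ : G → ℂ) = (inertia K (θ : K → ℂ)).index * charDegree (θ : K → ℂ) := by
  letI := Fintype.ofFinite G
  have h2 := degree_eq K χ.2 θ.2 (by rw [h]; exact one_ne_zero)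
  rw [h, one_mul, ← H20.Defect.charDegree_irr, ← H20.Defect.charDegree_irr] at h2
  exact_mod_cast h2

theorem natCast_ne_zero_iff {n : ℕ} : (n : ZMod p) ≠ 0 ↔ ¬ p ∣ n := by
  rw [Ne, ZMod.natCast_eq_zero_iff]

/-- the bijection -/
theorem exists_bijection (hR : HR p G) (P : Sylow p G) (K : Subgroup G) [hK : K.Normal]
    (hodd : Odd K.index) (Q : Subgroup G) [hQ : Q.Normal] (hQK : IsSyl p Q K) :
    ∃ Φ : {χ : IrrCharacter G // ∀ g : G, ((χ : G → ℂ) g).im = 0} →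
      {ζ : IrrCharacter (NN P) // (∀ n, ((ζ : NN P → ℂ) n).im = 0) ∧
        ¬ p ∣ charDegree (ζ : NN P → ℂ)}, Function.Bijective Φ ∧
      ∀ χ, ((charDegree ((Φ χ).1 : NN P → ℂ) : ZMod p) = (charDegree (χ.1 : G → ℂ) : ZMod p) ∨
        (charDegree ((Φ χ).1 : NN P → ℂ) : ZMod p) = -(charDegree (χ.1 : G → ℂ) : ZMod p)) := by
  classical
  letI := Fintype.ofFinite G
  letI := Fintype.ofFinite K
  letI := Fintype.ofFinite (NN P)
  letI := Fintype.ofFinite (K.subgroupOf (NN P))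
  obtain ⟨F, hFb, hF⟩ := exists_corr P K Q hQK
  set C : Subgroup (NN P) := K.subgroupOf (NN P) with hC
  have hCodd : Odd C.index := by
    have h1 : C.index ∣ K.index := Subgroup.relIndex_dvd_index_of_normal K (NN P)
    exact Odd.of_dvd_nat hodd h1
  -- uniqueness
  have hFu : ∀ (θ : {θ : IrrCharacter K // (P : Subgroup G) ≤ inertia K (θ : K → ℂ)})
      (ξ : {ξ : IrrCharacter C // PP P ≤ inertia C (ξ : C → ℂ)}) (θ' : {θ : IrrCharacter K //
        (P : Subgroup G) ≤ inertia K (θ : K → ℂ)}) (ξ' : {ξ : IrrCharacter C // PP P ≤ inertia C (ξ : C → ℂ)}),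
      ξ = F θ → (classInner (resKN K (NN P) (θ'.1 : K → ℂ)) (ξ'.1 : C → ℂ) =
        classInner (resKN K (NN P) (θ.1 : K → ℂ)) (ξ.1 : C → ℂ) ∨
        classInner (resKN K (NN P) (θ'.1 : K → ℂ)) (ξ'.1 : C → ℂ) =
        conj (classInner (resKN K (NN P) (θ.1 : K → ℂ)) (ξ.1 : C → ℂ))) → ξ' = F θ' := by
    intro θ ξ θ' ξ' h h2
    obtain ⟨m, hm, hm'⟩ := (hF θ).1 ξ
    obtain ⟨m', hm1, hm1'⟩ := (hF θ').1 ξ'
    have h3 : m' = m := by
      rw [hm, hm1, Complex.conj_natCast, or_self] at h2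
      exact_mod_cast h2
    rw [hm1', h3]
    exact hm'.1 h
  -- equivariance
  have hFc : ∀ (θ : {θ : IrrCharacter K // (P : Subgroup G) ≤ inertia K (θ : K → ℂ)}) (n : NN P)
      (θ' : {θ : IrrCharacter K // (P : Subgroup G) ≤ inertia K (θ : K → ℂ)}),
      (θ'.1 : K → ℂ) = conjFunN K (n : G) (θ.1 : K → ℂ) →
      ((F θ').1 : C → ℂ) = conjFunN C n ((F θ).1 : C → ℂ) := by
    intro θ n θ' hθ'
    have hinv : PP P ≤ inertia C (conjFunN C n ((F θ).1 : C → ℂ)) := by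
      intro x hx
      have h1 : n * x * n⁻¹ ∈ PP P := by
        rw [Subgroup.mem_subgroupOf]
        exact (Subgroup.mem_normalizer_iff.mp n.2 (x : G)).mp (Subgroup.mem_subgroupOf.mp hx)
      have h2 := (mem_inertia C).mp ((F θ).2 h1)
      rw [mem_inertia, cj_mul]
      have h3 : n * x = (n * x * n⁻¹) * n := by group
      rw [h3, ← cj_mul, h2]
    have := hFu θ (F θ) θ' ⟨⟨conjFunN C n ((F θ).1 : C → ℂ), isIrrCharacter_conjN C n (F θ).1.2⟩, hinv⟩ rfl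
      (Or.inl (by
        show classInner (resKN K (NN P) (θ'.1 : K → ℂ)) (conjFunN C n ((F θ).1 : C → ℂ)) = _
        rw [hθ', resKN_cj, inner_cj]))
    exact (congrArg (fun ξ => (ξ.1 : C → ℂ)) this).symm
  have hFs : ∀ (θ θ' : {θ : IrrCharacter K // (P : Subgroup G) ≤ inertia K (θ : K → ℂ)}),
      (θ'.1 : K → ℂ) = (fun k => conj ((θ.1 : K → ℂ) k)) →
      ((F θ').1 : C → ℂ) = fun c => conj (((F θ).1 : C → ℂ) c) := by
    intro θ θ' hθ'
    have := hFu θ (F θ) θ' ⟨⟨_, H4.FixedCount.isIrrCharacter_conj (F θ).1.2⟩, inv_star C (F θ).2⟩ rfl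
      (Or.inr (by
        show classInner (resKN K (NN P) (θ'.1 : K → ℂ)) (fun c => conj (((F θ).1 : C → ℂ) c)) = _
        rw [hθ']
        exact inner_conj_conj (resKN K (NN P) (θ.1 : K → ℂ)) ((F θ).1 : C → ℂ)))
    exact (congrArg (fun ξ => (ξ.1 : C → ℂ)) this).symm
  have hreal : ∀ θ : {θ : IrrCharacter K // (P : Subgroup G) ≤ inertia K (θ : K → ℂ)},
      (∀ k, ((θ.1 : K → ℂ) k).im = 0) ↔ (∀ c, (((F θ).1 : C → ℂ) c).im = 0) := by
    intro θ
    let θ' : {θ : IrrCharacter K // (P : Subgroup G) ≤ inertia K (θ : K → ℂ)} :=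
      ⟨conjIrr θ.1, inv_star K θ.2⟩
    have h1 := hFs θ θ' rfl
    have h2 : conjIrr (F θ).1 = (F θ').1 := Subtype.ext h1.symm
    rw [← conjIrr_eq_iff, ← conjIrr_eq_iff, h2]
    constructor
    · intro h
      have : θ' = θ := Subtype.ext h
      rw [this]
    · intro h
      have h3 : F θ' = F θ := Subtype.ext h
      exact congrArg Subtype.val (hFb.1 h3)
  -- inertia groups correspond
  have hin : ∀ θ : {θ : IrrCharacter K // (P : Subgroup G) ≤ inertia K (θ : K → ℂ)},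
      inertia C ((F θ).1 : C → ℂ) = (inertia K (θ.1 : K → ℂ)).subgroupOf (NN P) := by
    intro θ
    ext n
    let θ' : {θ : IrrCharacter K // (P : Subgroup G) ≤ inertia K (θ : K → ℂ)} :=
      ⟨⟨conjFunN K (n : G) (θ.1 : K → ℂ), isIrrCharacter_conjN K n θ.1.2⟩, inv_conj P K θ.2 n⟩
    have h1 := hFc θ n θ' rfl
    rw [mem_inertia, Subgroup.mem_subgroupOf, mem_inertia, ← h1]
    constructor
    · intro h
      have h3 : F θ' = F θ := Subtype.ext (Subtype.ext h)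
      exact congrArg (fun t => (t.1 : K → ℂ)) (hFb.1 h3)
    · intro h
      have : θ' = θ := Subtype.ext (Subtype.ext h)
      rw [this]
  -- choices
  have hex1 : ∀ χ : {χ : IrrCharacter G // ∀ g : G, ((χ : G → ℂ) g).im = 0},
      ∃ θ : {θ : IrrCharacter K // (P : Subgroup G) ≤ inertia K (θ : K → ℂ)},
        (∀ k, ((θ.1 : K → ℂ) k).im = 0) ∧
        classInner (fun k : K => (χ.1 : G → ℂ) k) (θ.1 : K → ℂ) ≠ 0 := by
    intro χ
    obtain ⟨θ, h1, h2, h3⟩ := exists_real_inv P K hodd χ.2 (hR χ.1 χ.2)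
    exact ⟨⟨θ, h2⟩, h1, h3⟩
  choose θ hθr hθχ using hex1
  have hex2 : ∀ χ : {χ : IrrCharacter G // ∀ g : G, ((χ : G → ℂ) g).im = 0},
      ∃ ζ : IrrCharacter (NN P), (∀ n, ((ζ : NN P → ℂ) n).im = 0) ∧
        classInner (fun c : C => (ζ : NN P → ℂ) c) ((F (θ χ)).1 : C → ℂ) ≠ 0 := by
    intro χ
    obtain ⟨ζ, h1, ⟨e, he, he'⟩, -⟩ := exists_unique_real C hCodd (F (θ χ)).1.2
      ((hreal (θ χ)).1 (hθr χ))
    refine ⟨ζ, h1, ?_⟩
    rw [he']
    intro h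
    have : e = 0 := by exact_mod_cast h
    rw [this] at he
    simp at he
  choose ζ hζr hζχ using hex2
  have hd1 : ∀ χ, charDegree (χ.1 : G → ℂ) =
      (inertia K ((θ χ).1 : K → ℂ)).index * charDegree ((θ χ).1 : K → ℂ) := fun χ =>
    charDegree_eq_of χ.1 (θ χ).1 (mult_one K hodd (θ χ).1.2 (hθr χ) χ.2 (hθχ χ))
  have hd2 : ∀ χ, charDegree (ζ χ : NN P → ℂ) =
      (inertia C ((F (θ χ)).1 : C → ℂ)).index * charDegree ((F (θ χ)).1 : C → ℂ) := fun χ =>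
    charDegree_eq_of (ζ χ) (F (θ χ)).1 (mult_one C hCodd (F (θ χ)).1.2 ((hreal (θ χ)).1 (hθr χ)) (hζr χ)
      (hζχ χ))
  have hcong : ∀ χ : {χ : IrrCharacter G // ∀ g : G, ((χ : G → ℂ) g).im = 0},
      ((charDegree (ζ χ : NN P → ℂ) : ZMod p) = (charDegree (χ.1 : G → ℂ) : ZMod p) ∨
        (charDegree (ζ χ : NN P → ℂ) : ZMod p) = -(charDegree (χ.1 : G → ℂ) : ZMod p)) := by
    intro χ
    rw [hd1, hd2, hin, Nat.cast_mul, Nat.cast_mul, index_modEq P (θ χ).2]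
    rcases (hF (θ χ)).2 with h | h
    · left; rw [h]; rfl
    · right; rw [h, mul_neg]; rfl
  refine ⟨fun χ => ⟨ζ χ, hζr χ, ?_⟩, ⟨?_, ?_⟩, hcong⟩
  · rw [← natCast_ne_zero_iff (p := p)]
    have h1 := (natCast_ne_zero_iff (p := p)).mpr (hR χ.1 χ.2)
    rcases hcong χ with h | h
    · rw [h]; exact h1
    · rw [h]; exact neg_ne_zero.mpr h1
  · intro χ χ' h
    have h1 : ζ χ = ζ χ' := congrArg Subtype.val h
    have h2 := hζχ χ'
    rw [← h1] at h2
    obtain ⟨n, hn⟩ := constituents_conj C (ζ χ).2 (F (θ χ)).1.2 (F (θ χ')).1.2 (hζχ χ) h2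
    let θ' : {θ : IrrCharacter K // (P : Subgroup G) ≤ inertia K (θ : K → ℂ)} :=
      ⟨⟨conjFunN K (n : G) ((θ χ).1 : K → ℂ), isIrrCharacter_conjN K n (θ χ).1.2⟩, inv_conj P K (θ χ).2 n⟩
    have h3 := hFc (θ χ) n θ' rfl
    have h4 : F (θ χ') = F θ' := Subtype.ext (Subtype.ext (hn.trans h3.symm))
    have h5 : θ χ' = θ' := hFb.1 h4
    have h6 : classInner (fun k : K => (χ.1 : G → ℂ) k) ((θ χ').1 : K → ℂ) ≠ 0 := by
      rw [h5]
      show classInner (fun k : K => (χ.1 : G → ℂ) k) (conjFunN K (n : G) ((θ χ).1 : K → ℂ)) ≠ 0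
      rw [inner_restrict_cj K _ (isClassFunction_of_isIrr χ.1.2)]
      exact hθχ χ
    obtain ⟨χ₀, -, -, huniq⟩ := exists_unique_real K hodd (θ χ').1.2 (hθr χ')
    apply Subtype.ext
    rw [huniq χ.1 χ.2 h6, huniq χ'.1 χ'.2 (hθχ χ')]
  · rintro ⟨ψ, hψr, hψp⟩
    obtain ⟨φ, hφ, h0⟩ := exists_constituent_restrict C ψ.2
    have h1 : Odd (inertia C φ).index := by
      have h2 := Subgroup.index_dvd_of_le (le_inertia C (isClassFunction_of_isIrr hφ))
      exact Odd.of_dvd_nat hCodd h2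
    obtain ⟨η, hη, hηr, hη0, -⟩ := exists_real_under C ψ.2 hψr hφ h0 h1
    have hpi : ¬ p ∣ (inertia C η).index := by
      intro hd
      apply hψp
      rw [charDegree_eq_of ψ ⟨η, hη⟩ (mult_one C hCodd hη hηr hψr hη0)]
      exact Dvd.dvd.mul_right hd _
    have hPη : PP P ≤ inertia C η := by
      obtain ⟨T, hT⟩ := exists_isSyl p (inertia C η)
      have hT' : IsSyl p T ⊤ := hT.trans le_top (by rwa [Subgroup.relIndex_top_right])
      have hPPn : (PP P).Normal := by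
        exact (Subgroup.normal_subgroupOf_iff_le_normalizer Subgroup.le_normalizer).mpr le_rfl
      have hPPs : IsSyl p (PP P) ⊤ := by
        refine ⟨le_top, (isPGroup_subgroupOf Subgroup.le_normalizer).mpr P.2, ?_⟩
        rw [Subgroup.relIndex_top_right]
        exact not_dvd_index_PP P
      have h3 : T = PP P := hPPs.eq_of_normal (by rw [Subgroup.normalizer_eq_top_iff.mpr hPPn]) hT'
      rw [← h3]; exact hT.le
    obtain ⟨θ₀, hθ₀⟩ := hFb.2 ⟨⟨η, hη⟩, hPη⟩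
    have hθ₀r : ∀ k, ((θ₀.1 : K → ℂ) k).im = 0 := by
      rw [hreal, hθ₀]; exact hηr
    obtain ⟨χ₀, hχ₀r, ⟨e, he, he'⟩, -⟩ := exists_unique_real K hodd θ₀.1.2 hθ₀r
    have hne : classInner (fun k : K => (χ₀ : G → ℂ) k) (θ₀.1 : K → ℂ) ≠ 0 := by
      rw [he']
      intro h
      have : e = 0 := by exact_mod_cast h
      rw [this] at he
      simp at he
    refine ⟨⟨χ₀, hχ₀r⟩, ?_⟩
    apply Subtype.ext
    show ζ ⟨χ₀, hχ₀r⟩ = ψ
    obtain ⟨g, hg⟩ := constituents_conj K χ₀.2 θ₀.1.2 (θ ⟨χ₀, hχ₀r⟩).1.2 hne (hθχ ⟨χ₀, hχ₀r⟩)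
    obtain ⟨n, hn⟩ := fusion P K θ₀.2 (θ ⟨χ₀, hχ₀r⟩).2 hg
    have h3 := hFc θ₀ n (θ ⟨χ₀, hχ₀r⟩) hn
    have h4 : classInner (fun c : C => (ψ : NN P → ℂ) c) ((F (θ ⟨χ₀, hχ₀r⟩)).1 : C → ℂ) ≠ 0 := by
      rw [h3, hθ₀]
      show classInner (fun c : C => (ψ : NN P → ℂ) c) (conjFunN C n η) ≠ 0
      rw [inner_restrict_cj C n (isClassFunction_of_isIrr ψ.2)]
      exact hη0
    obtain ⟨ζ₀, -, -, huniq⟩ := exists_unique_real C hCodd (F (θ ⟨χ₀, hχ₀r⟩)).1.2
      ((hreal (θ ⟨χ₀, hχ₀r⟩)).1 (hθr ⟨χ₀, hχ₀r⟩))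
    rw [huniq _ (hζr ⟨χ₀, hχ₀r⟩) (hζχ ⟨χ₀, hχ₀r⟩), huniq ψ hψr h4]

end H83.RealP
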