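import Mathlib
import Cfsg.Agent.Lib.H83.RealP7

/-!
Groups whose real irreducible characters have degree prime to `p` (Isaacs–Navarro): real classes meet
`N_G(P)`.
-/

set_option autoImplicit false
set_option linter.unusedSectionVars false
set_option linter.style.haveILetI false

namespace H83.RealP

open Cfsg H83.RealOrb H83.RealOver H28.Cj H28.RelSyl Subgroup

universe u

variable {G : Type u} [Group G] [Finite G] {p : ℕ} [hp : Fact p.Prime]

/-- the case where `O^{2'}(G)` is a `p'`-group -/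
theorem meets_of (hR : HR p G) (P : Sylow p G) (K : Subgroup G) [hK : K.Normal]
    (hodd : Odd K.index) (hpK : ¬ p ∣ Nat.card K) (x : G) (hx : IsConj x x⁻¹) :
    ∃ y ∈ NN P, IsConj x y := by
  classical
  have hsylK : IsSyl p (⊥ : Subgroup G) K := by
    refine ⟨bot_le, IsPGroup.of_bot, ?_⟩
    rw [Subgroup.relIndex_bot_left]; exact hpK
  obtain ⟨Φ, hΦ, -⟩ := exists_bijection hR P K hodd ⊥ hsylK
  have hCodd : Odd (K.subgroupOf (NN P)).index := by
    have h1 : (K.subgroupOf (NN P)).index ∣ K.index := Subgroup.relIndex_dvd_index_of_normal K (NN P)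
    exact Odd.of_dvd_nat hodd h1
  have hPK : ∀ z ∈ (P : Subgroup G), z ∈ K → z = 1 := by
    intro z hz hzK
    obtain ⟨k, hk⟩ := IsPGroup.iff_orderOf.mp P.2 ⟨z, hz⟩
    rw [Subgroup.orderOf_mk] at hk
    have h1 : orderOf z ∣ Nat.card K := Subgroup.orderOf_dvd_natCard K hzK
    rw [hk] at h1
    have h2 : k = 0 := by
      by_contra hk0
      exact hpK ((dvd_pow_self p hk0).trans h1)
    rw [h2, pow_zero, orderOf_eq_one_iff] at hk
    exact hk
  -- real elements of `N` centralise `P`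
  have hcent : ∀ y : NN P, IsConj y y⁻¹ → (P : Subgroup G) ≤ centralizer ({(y : G)} : Set G) := by
    intro y hy z hz
    rw [Subgroup.mem_centralizer_singleton_iff]
    have h1 : y ∈ K.subgroupOf (NN P) := mem_of_isConj_inv (K.subgroupOf (NN P)) hCodd hy
    have h2 : (y : G) ∈ K := Subgroup.mem_subgroupOf.mp h1
    have h3 : z * y * z⁻¹ * (y : G)⁻¹ = 1 := by
      apply hPK
      · have : z * y * z⁻¹ * (y : G)⁻¹ = z * ((y : G) * z⁻¹ * (y : G)⁻¹) := by group
        rw [this]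
        exact Subgroup.mul_mem _ hz ((Subgroup.mem_normalizer_iff.mp y.2 _).mp (Subgroup.inv_mem _ hz))
      · exact K.mul_mem (hK.conj_mem _ h2 z) (K.inv_mem h2)
    rw [mul_inv_eq_one, mul_inv_eq_iff_eq_mul] at h3
    exact h3
  -- the map on classes
  have hmap : ∀ C : ConjClasses (NN P), (∀ g : NN P, ConjClasses.mk g = C → IsConj g g⁻¹) →
      (∀ g : G, ConjClasses.mk g = ConjClasses.map (NN P).subtype C → IsConj g g⁻¹) := by
    intro C hC g hg
    obtain ⟨c, rfl⟩ := ConjClasses.exists_rep C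
    change ConjClasses.mk g = ConjClasses.mk (c : G) at hg
    rw [ConjClasses.mk_eq_mk_iff_isConj] at hg
    have h1 := hC c rfl
    obtain ⟨n, hn⟩ := isConj_iff.1 h1
    have h2 : IsConj (c : G) (c : G)⁻¹ := isConj_iff.2 ⟨n, congrArg Subtype.val hn⟩
    exact (hg.trans h2).trans (isConj_inv hg.symm)
  let f : {C : ConjClasses (NN P) // ∀ g : NN P, ConjClasses.mk g = C → IsConj g g⁻¹} →
      {C : ConjClasses G // ∀ g : G, ConjClasses.mk g = C → IsConj g g⁻¹} :=
    fun C => ⟨ConjClasses.map (NN P).subtype C.1, hmap C.1 C.2⟩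
  have hf : Function.Injective f := by
    rintro ⟨C, hC⟩ ⟨D, hD⟩ h
    obtain ⟨c, rfl⟩ := ConjClasses.exists_rep C
    obtain ⟨d, rfl⟩ := ConjClasses.exists_rep D
    have h1 := congrArg Subtype.val h
    change ConjClasses.mk (c : G) = ConjClasses.mk (d : G) at h1
    rw [ConjClasses.mk_eq_mk_iff_isConj] at h1
    obtain ⟨g, hg⟩ := isConj_iff.1 h1
    have hc := hcent c (hC c rfl)
    have hd := hcent d (hD d rfl)
    have hs1 : IsSyl p (P : Subgroup G) (centralizer ({(d : G)} : Set G)) :=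
      (isSyl_top P).of_le_of_le hd le_top
    have hs2 : IsSyl p (cj g (P : Subgroup G)) (centralizer ({(d : G)} : Set G)) := by
      have h2 : IsSyl p (P : Subgroup G) (centralizer ({(c : G)} : Set G)) :=
        (isSyl_top P).of_le_of_le hc le_top
      have h3 := h2.cj g
      have h4 : cj g (centralizer ({(c : G)} : Set G)) = centralizer ({(d : G)} : Set G) := by
        rw [cj_centralizer_singleton, hg]
      rwa [h4] at h3
    obtain ⟨t, ht, htg⟩ := hs2.exists_conj_eq hs1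
    rw [cj_cj] at htg
    apply Subtype.ext
    show ConjClasses.mk c = ConjClasses.mk d
    rw [ConjClasses.mk_eq_mk_iff_isConj, isConj_iff]
    refine ⟨⟨t * g, mem_normalizer_iff_cj.mpr htg.symm⟩, ?_⟩
    apply Subtype.ext
    show t * g * c * (t * g)⁻¹ = d
    have h5 : t * d = d * t := Subgroup.mem_centralizer_singleton_iff.mp ht
    calc t * g * c * (t * g)⁻¹ = t * (g * c * g⁻¹) * t⁻¹ := by group
      _ = d := by rw [hg, h5, mul_inv_cancel_right]
  have hcard : Nat.card {C : ConjClasses G // ∀ g : G, ConjClasses.mk g = C → IsConj g g⁻¹} ≤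
      Nat.card {C : ConjClasses (NN P) // ∀ g : NN P, ConjClasses.mk g = C → IsConj g g⁻¹} := by
    rw [← H4.FixedCount.card_real, ← H4.FixedCount.card_real]
    haveI : Finite (IrrCharacter (NN P)) := H18.CharOrtho.instFiniteIrr
    exact Nat.card_le_card_of_injective (fun χ => (⟨(Φ χ).1, (Φ χ).2.1⟩ :
      {ζ : IrrCharacter (NN P) // ∀ n, ((ζ : NN P → ℂ) n).im = 0})) (by
        intro a b hab
        apply hΦ.1
        apply Subtype.ext
        exact congrArg (fun t : {ζ : IrrCharacter (NN P) // ∀ n, ((ζ : NN P → ℂ) n).im = 0} => t.1) hab)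
  have hbij : Function.Bijective f := by
    haveI : Finite {C : ConjClasses G // ∀ g : G, ConjClasses.mk g = C → IsConj g g⁻¹} := inferInstance
    exact hf.bijective_of_nat_card_le hcard
  have hxC : ∀ g : G, ConjClasses.mk g = ConjClasses.mk x → IsConj g g⁻¹ := by
    intro g hg
    rw [ConjClasses.mk_eq_mk_iff_isConj] at hg
    exact (hg.trans hx).trans (isConj_inv hg.symm)
  obtain ⟨⟨C, hC⟩, hCx⟩ := hbij.2 ⟨ConjClasses.mk x, hxC⟩
  obtain ⟨c, rfl⟩ := ConjClasses.exists_rep C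
  have h1 := congrArg Subtype.val hCx
  change ConjClasses.mk (c : G) = ConjClasses.mk x at h1
  rw [ConjClasses.mk_eq_mk_iff_isConj] at h1
  exact ⟨c, c.2, h1.symm⟩

theorem meets (hR : HR p G) (hs : Group.IsSolvable (Op p G)) (P : Sylow p G) (x : G)
    (hx : IsConj x x⁻¹) : ∃ y ∈ NN P, IsConj x y := by
  classical
  haveI := Op_normal (G := G) 2
  let Q0 : Sylow p (Op 2 G) := default
  set Q : Subgroup G := (Q0 : Subgroup (Op 2 G)).map (Op 2 G).subtype with hQdef
  have hQs : IsSyl p Q (Op 2 G) := isSyl_map Q0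
  haveI hQ : Q.Normal := normal_K hR hs Q0
  set π := QuotientGroup.mk' Q with hπ
  have hπs : Function.Surjective π := QuotientGroup.mk'_surjective Q
  haveI hKn : ((Op 2 G).map π).Normal := (inferInstance : (Op 2 G).Normal).map π hπs
  have hKodd : Odd ((Op 2 G).map π).index :=
    Odd.of_dvd_nat odd_index_Op (Subgroup.index_map_dvd _ hπs)
  have hKp : ¬ p ∣ Nat.card ((Op 2 G).map π) := by
    have h1 := isSyl_map_hom hQs π
    have h2 : Q.map π = ⊥ := by
      rw [Subgroup.map_eq_bot_iff, hπ, QuotientGroup.ker_mk']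
    rw [h2] at h1
    have := h1.not_dvd
    rwa [Subgroup.relIndex_bot_left] at this
  have hQP : Q ≤ (P : Subgroup G) := by
    obtain ⟨g, -, hg⟩ := (isSyl_top P).exists_conj_le hQs.isPGroup le_top
    rw [mem_normalizer_iff_cj.mp ((Subgroup.normalizer_eq_top_iff.mpr hQ).symm ▸
      Subgroup.mem_top g)] at hg
    exact hg
  have hPs : IsSyl p ((P : Subgroup G).map π) ⊤ := by
    have h1 := isSyl_map_hom (isSyl_top P) π
    rwa [Subgroup.map_top_of_surjective π hπs] at h1
  obtain ⟨P', hP'⟩ := isSyl_top_iff_exists.mp hPs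
  obtain ⟨y, hy, hxy⟩ := meets_of (HR_quotient hR Q) P' ((Op 2 G).map π) hKodd hKp (π x) (by
    rw [← map_inv]
    obtain ⟨g, hg⟩ := isConj_iff.1 hx
    exact isConj_iff.2 ⟨π g, by rw [← map_inv, ← map_mul, ← map_mul, hg]⟩)
  obtain ⟨g', hg'⟩ := isConj_iff.1 hxy
  obtain ⟨g, rfl⟩ := hπs g'
  refine ⟨g * x * g⁻¹, ?_, isConj_iff.2 ⟨g, rfl⟩⟩
  rw [← map_inv, ← map_mul, ← map_mul] at hg'
  rw [← hg'] at hy
  have h1 : π (g * x * g⁻¹) ∈ normalizer (((P : Subgroup G).map π : Subgroup (G ⧸ Q)) : Set (G ⧸ Q)) := by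
    rw [← hP']; exact hy
  rw [mem_normalizer_iff_cj]
  apply Subgroup.eq_of_le_of_card_ge
  · rintro _ ⟨z, hz, rfl⟩
    show g * x * g⁻¹ * z * (g * x * g⁻¹)⁻¹ ∈ (P : Subgroup G)
    have h2 := (Subgroup.mem_normalizer_iff.mp h1 (π z)).mp ⟨z, hz, rfl⟩
    rw [← map_inv, ← map_mul, ← map_mul] at h2
    obtain ⟨w, hw, hwz⟩ := h2
    have h3 : w⁻¹ * (g * x * g⁻¹ * z * (g * x * g⁻¹)⁻¹) ∈ Q := by
      rw [← QuotientGroup.eq]; exact hwz
    have h4 : g * x * g⁻¹ * z * (g * x * g⁻¹)⁻¹ = w * (w⁻¹ * (g * x * g⁻¹ * z * (g * x * g⁻¹)⁻¹)) := by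
      group
    rw [h4]
    exact Subgroup.mul_mem _ hw (hQP h3)
  · exact le_of_eq (card_cj _ _).symm

end H83.RealP
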