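import Cfsg.Agent.Lib.H84.Star15
import Cfsg.Agent.Lib.H80.FS4
import Cfsg.Agent.Lib.H80.BR7

set_option autoImplicit false
set_option linter.unusedSectionVars false
set_option linter.unusedVariables false

/-!
# Semidihedral / quaternion defect groups: the local block at the cyclic subgroup of order four
-/

namespace H83.SdA

open Cfsg H20.Loc H20.GA H80.GA H80.GB H80.GD H80.GE H80.GF H80.GH H80.GJ H80.FS H80.FS3 H84.RG H18.CharBasic H18.CharOrtho H18.CharInd H84.TrR
open H20.Blk H20.Orth H20.Ind H20.Height H20.Defect H80.BR1 H80.BR2 H19.Second H19.Second3 H81.Section H81.Contrib H84.Star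

universe u
attribute [local instance 2000] Fintype.ofFinite

section grp
variable {K : Type u} [Group K] [Finite K]

/-- if `x` of odd order moves `u` by `d` and commutes with the 2-element `d` then `d = 1` -/
theorem odd_trick {x u d : K} (hx : Odd (orderOf x)) (hd : x * d = d * x) (h : x * u * x⁻¹ = u * d)
    (h2 : ∃ n : ℕ, orderOf d = 2 ^ n) : d = 1 := by
  have key : ∀ k : ℕ, x ^ k * u * (x ^ k)⁻¹ = u * d ^ k := by
    intro k
    induction k with
    | zero => simp
    | succ k ih =>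
      have hdk : x * d ^ k = d ^ k * x := (Commute.pow_right (show Commute x d from hd) k).eq
      calc x ^ (k + 1) * u * (x ^ (k + 1))⁻¹ = x * (x ^ k * u * (x ^ k)⁻¹) * x⁻¹ := by
            rw [pow_succ']; group
        _ = x * u * x⁻¹ * (x * d ^ k * x⁻¹) := by rw [ih]; group
        _ = u * d * (x * d ^ k * x⁻¹) := by rw [h]
        _ = u * d * d ^ k := by rw [hdk]; group
        _ = u * d ^ (k + 1) := by rw [pow_succ', mul_assoc]
  have h1 := key (orderOf x)
  rw [pow_orderOf_eq_one] at h1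
  have h3 : d ^ orderOf x = 1 := by
    have h4 : u = u * d ^ orderOf x := by simpa using h1
    exact mul_eq_left.1 h4.symm
  have h4 : orderOf d ∣ orderOf x := orderOf_dvd_of_pow_eq_one h3
  obtain ⟨n, hn⟩ := h2
  rcases Nat.eq_zero_or_pos n with h0 | h0
  · rw [h0, pow_zero] at hn; exact orderOf_eq_one_iff.1 hn
  · exfalso
    rw [hn] at h4
    exact (Nat.not_even_iff_odd.2 hx) (even_iff_two_dvd.2 ((dvd_pow_self 2 h0.ne').trans h4))

theorem odd_cent {D Q : Subgroup K} {t x s : K} (hD : IsPGroup 2 D) (ho : orderOf t = 4) (ht : t ∈ D)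
    (hn : ∀ d ∈ D, d * t * d⁻¹ = t ∨ d * t * d⁻¹ = t⁻¹) (hcyc : ∀ a ∈ D, a * t = t * a → a ∈ Subgroup.zpowers s)
    (hQ : Q ≤ D) (hxt : x * t = t * x) (hx : x ∈ Subgroup.normalizer (Q : Set K)) (hodd : Odd (orderOf x)) :
    x ∈ Subgroup.centralizer (Q : Set K) := by
  classical
  have h2p : ∀ a ∈ D, ∃ n : ℕ, orderOf a = 2 ^ n := by
    intro a ha
    obtain ⟨n, hn⟩ := (IsPGroup.iff_orderOf.1 hD) ⟨a, ha⟩
    rw [← Subgroup.orderOf_coe] at hn
    exact ⟨n, hn⟩
  -- involutions of the cyclic group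
  have hinv : ∀ a ∈ D, a * t = t * a → a * a = 1 → a = 1 ∨ a = t * t := by
    intro a ha hat haa
    by_contra hcon
    push Not at hcon
    have h1 := IsCyclic.card_pow_eq_one_le (α := Subgroup.zpowers s) (n := 2) (by norm_num)
    have h2 : t * t ≠ 1 := by
      intro h
      have h3 : orderOf t ∣ 2 := orderOf_dvd_of_pow_eq_one (by rw [pow_two]; exact h)
      rw [ho] at h3; omega
    have h4 : t * t * (t * t) = 1 := by
      have h5 := pow_orderOf_eq_one t
      rw [ho] at h5
      rw [← h5]; simp [pow_succ, mul_assoc]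
    have hmem : ∀ b : K, b ∈ D → b * t = t * b → b ∈ Subgroup.zpowers s := hcyc
    have ha' := hmem a ha hat
    have ht' := hmem (t * t) (mul_mem ht ht) (mul_assoc _ _ _)
    have h5 : ({1, ⟨a, ha'⟩, ⟨t * t, ht'⟩} : Finset (Subgroup.zpowers s)) ⊆
        Finset.univ.filter (fun b : Subgroup.zpowers s => b ^ 2 = 1) := by
      intro b hb
      rw [Finset.mem_insert, Finset.mem_insert, Finset.mem_singleton] at hb
      rw [Finset.mem_filter]
      refine ⟨Finset.mem_univ _, ?_⟩
      rcases hb with rfl | rfl | rfl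
      · exact one_pow _
      · rw [pow_two]; exact Subtype.ext haa
      · rw [pow_two]; exact Subtype.ext h4
    have h6 := (Finset.card_le_card h5).trans h1
    have h7 : ({1, ⟨a, ha'⟩, ⟨t * t, ht'⟩} : Finset (Subgroup.zpowers s)).card = 3 := by
      rw [Finset.card_eq_three]
      refine ⟨_, _, _, ?_, ?_, ?_, rfl⟩
      · intro h; exact hcon.1 (congrArg Subtype.val h).symm
      · intro h; exact h2 (congrArg Subtype.val h).symm
      · intro h; exact hcon.2 (congrArg Subtype.val h)
    omega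
  have hxQ : ∀ u ∈ Q, x * u * x⁻¹ ∈ Q := fun u hu => (Subgroup.mem_normalizer_iff.1 hx u).1 hu
  have hxt' : x * t * x⁻¹ = t := by rw [hxt]; group
  have hxti : x⁻¹ * t = t * x⁻¹ := by
    rw [inv_mul_eq_iff_eq_mul, ← mul_assoc, hxt, mul_assoc, mul_inv_cancel, mul_one]
  -- the centralizer of t in Q
  have step : ∀ n : ℕ, ∀ a ∈ Q, a * t = t * a → orderOf a = n → x * a = a * x := by
    intro n
    induction n using Nat.strong_induction_on with
    | _ n ih =>
      intro a ha hat hna
      by_cases ha1 : a = 1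
      · rw [ha1]; simp
      have haa : a * a * t = t * (a * a) := by rw [mul_assoc, hat, ← mul_assoc, hat, mul_assoc]
      have hlt : orderOf (a * a) < n := by
        obtain ⟨k, hk⟩ := h2p a (hQ ha)
        have hk0 : k ≠ 0 := by
          rintro rfl
          rw [pow_zero] at hk
          exact ha1 (orderOf_eq_one_iff.1 hk)
        obtain ⟨j, rfl⟩ := Nat.exists_eq_succ_of_ne_zero hk0
        have h1 : (a * a) ^ (2 ^ j) = 1 := by
          rw [← pow_two, ← pow_mul, ← pow_succ', ← hk]
          exact pow_orderOf_eq_one a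
        have h2 : orderOf (a * a) ≤ 2 ^ j := orderOf_le_of_pow_eq_one (by positivity) h1
        rw [← hna, hk, pow_succ]
        have h3 : 0 < 2 ^ j := by positivity
        omega
      have h1 := ih _ hlt (a * a) (mul_mem ha ha) haa rfl
      set a' := x * a * x⁻¹ with ha'
      have ha'Q : a' ∈ Q := hxQ a ha
      have ha't : a' * t = t * a' := by
        calc a' * t = x * a * (x⁻¹ * t) := by rw [ha']; group
          _ = x * (a * t) * x⁻¹ := by rw [hxti]; group
          _ = x * t * a * x⁻¹ := by rw [hat]; group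
          _ = t * a' := by rw [hxt, ha']; group
      have haa' : a * a' = a' * a := by
        obtain ⟨i, hi⟩ := Subgroup.mem_zpowers_iff.1 (hcyc a (hQ ha) hat)
        obtain ⟨j, hj⟩ := Subgroup.mem_zpowers_iff.1 (hcyc a' (hQ ha'Q) ha't)
        rw [← hi, ← hj, ← zpow_add, ← zpow_add, add_comm]
      have h3 : a' * a' = a * a := by
        calc a' * a' = x * (a * a) * x⁻¹ := by rw [ha']; group
          _ = a * a := by rw [h1]; group
      set d := a⁻¹ * a' with hd
      have hdQ : d ∈ Q := mul_mem (inv_mem ha) ha'Q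
      have hai : a⁻¹ * t = t * a⁻¹ := by
        rw [inv_mul_eq_iff_eq_mul, ← mul_assoc, hat, mul_assoc, mul_inv_cancel, mul_one]
      have hdt : d * t = t * d := by
        rw [hd, mul_assoc, ha't, ← mul_assoc, hai, mul_assoc]
      have hdd : d * d = 1 := by
        have h5 : a⁻¹ * a' = a' * a⁻¹ := by
          rw [inv_mul_eq_iff_eq_mul, ← mul_assoc, haa', mul_assoc, mul_inv_cancel, mul_one]
        calc d * d = a⁻¹ * a' * (a⁻¹ * a') := rfl
          _ = a⁻¹ * a' * (a' * a⁻¹) := by rw [← h5]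
          _ = a⁻¹ * (a' * a') * a⁻¹ := by group
          _ = 1 := by rw [h3]; group
      have hxd : x * d = d * x := by
        rcases hinv d (hQ hdQ) hdt hdd with h0 | h0
        · rw [h0]; simp
        · rw [h0, ← mul_assoc, hxt, mul_assoc, hxt, mul_assoc]
      have hd1 : d = 1 := odd_trick (u := a) hodd hxd (by rw [hd, ha']; group) (h2p d (hQ hdQ))
      have h6 : a' = a := by
        have h7 : a' = a * d := by rw [hd]; group
        rw [h7, hd1, mul_one]
      have h8 : x * a = a' * x := by rw [ha']; group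
      rw [h8, h6]
  rw [Subgroup.mem_centralizer_iff]
  intro u hu
  have hu : u ∈ Q := hu
  rcases hn u (hQ hu) with hut | hut
  · exact (step _ u hu (by rw [← mul_inv_eq_iff_eq_mul]; exact hut) rfl).symm
  · set u' := x * u * x⁻¹ with hu'
    have hu'Q : u' ∈ Q := hxQ u hu
    have hu't : u' * t * u'⁻¹ = t⁻¹ := by
      have h1 : x⁻¹ * t * x = t := by rw [hxti]; group
      have h2 : x * t⁻¹ * x⁻¹ = t⁻¹ := by
        have h3 : x * t⁻¹ * x⁻¹ = (x * t * x⁻¹)⁻¹ := by group
        rw [h3, hxt']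
      calc u' * t * u'⁻¹ = x * (u * (x⁻¹ * t * x) * u⁻¹) * x⁻¹ := by rw [hu']; group
        _ = t⁻¹ := by rw [h1, hut, h2]
    set r := u⁻¹ * u' with hr
    have hrQ : r ∈ Q := mul_mem (inv_mem hu) hu'Q
    have hrt : r * t = t * r := by
      have h1 : u⁻¹ * t⁻¹ * u = t := by rw [← hut]; group
      have h2 : r * t * r⁻¹ = t := by
        calc r * t * r⁻¹ = u⁻¹ * (u' * t * u'⁻¹) * u := by rw [hr]; group
          _ = t := by rw [hu't, h1]
      rw [← mul_inv_eq_iff_eq_mul]; exact h2
    have hxr : x * r = r * x := step _ r hrQ hrt rfl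
    have hr1 : r = 1 := odd_trick (u := u) hodd hxr (by rw [hr, hu']; group) (h2p r (hQ hrQ))
    have h6 : u' = u := by
      have h7 : u' = u * r := by rw [hr]; group
      rw [h7, hr1, mul_one]
    have h8 : x * u = u' * x := by rw [hu']; group
    rw [h8, h6]

end grp

variable {M : Ideal AlgInt} [M.IsMaximal] {G : Type u} [Group G] [Finite G]
variable [CharP (ResF M) 2] [Algebra (ZMod 2) (ResF M)] [Algebra.IsAlgebraic (ZMod 2) (ResF M)]
  [IsAlgClosed (ResF M)]

/-- (A) -/
theorem exists_H (hM : IsPModular 2 M) {B : Set (IrrCharacter G)} (hB : IsPBlock M B) {D : Subgroup G}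
    (hD : IsDefectGroup 2 M B D) {t : G} (ht : t ∈ D) (ho : orderOf t = 4)
    (hn : ∀ d ∈ D, d * t * d⁻¹ = t ∨ d * t * d⁻¹ = t⁻¹) (hy : ∃ y ∈ D, y * t * y⁻¹ = t⁻¹)
    (hcyc : ∃ s : G, D ⊓ Subgroup.centralizer {t} = Subgroup.zpowers s) :
    ∃ (H : Subgroup G) (β : Set (IrrCharacter H)), (∀ g : G, g ∈ H ↔ g * t * g⁻¹ = t ∨ g * t * g⁻¹ = t⁻¹) ∧ D ≤ H ∧
      IsInducedBlock M H β B ∧ IsDefectGroup 2 M β (D.subgroupOf H) ∧ Nilp 2 ⊤ (ebar M β) := by
  classical
  haveI : Fact (Nat.Prime 2) := ⟨Nat.prime_two⟩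
  obtain ⟨e, hmax⟩ := exists_isMax_of_isDefectGroup hM hB hD
  set Q := Subgroup.zpowers t with hQdef
  have hQD : Q ≤ D := (Subgroup.zpowers_le (H := D)).2 ht
  obtain ⟨f, hle, -⟩ := exists_unique_sle hmax.of.pair hQD
  have hpair := hle.pair_left hmax.of.pair
  have hof : PairOf 2 ⊤ (ebar M B) Q f := (pairOf_of_sle hmax.of.pair hle).1 hmax.of
  -- the normalizer of Q
  have hnorm : ∀ g : G, g * t * g⁻¹ = t ∨ g * t * g⁻¹ = t⁻¹ → g ∈ Subgroup.normalizer (Q : Set G) := by
    intro g hg
    rw [mem_normalizer]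
    have h1 : cs g Q = Subgroup.zpowers (g * t * g⁻¹) := by
      unfold cs
      rw [hQdef, MonoidHom.map_zpowers]
      congr 1
    rw [h1]
    rcases hg with h | h
    · rw [h]
    · rw [h, Subgroup.zpowers_inv]
  have hnorm' : ∀ g : G, g ∈ Subgroup.normalizer (Q : Set G) → g * t * g⁻¹ = t ∨ g * t * g⁻¹ = t⁻¹ := by
    intro g hg
    have h1 : g * t * g⁻¹ ∈ Q := (mem_normalizer_iff'.1 hg t).1 (Subgroup.mem_zpowers t)
    obtain ⟨k, hk⟩ := Subgroup.mem_zpowers_iff.1 h1
    have h2 : orderOf (g * t * g⁻¹) = 4 := by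
      have := orderOf_injective (MulAut.conj g).toMonoidHom (MulAut.conj g).injective t
      rw [← ho, ← this]; simp
    have h4 : t ^ (4 : ℤ) = 1 := by
      have := pow_orderOf_eq_one t
      rw [ho] at this
      exact_mod_cast this
    have h5 : t ^ k = t ^ (k % 4) := by
      conv_lhs => rw [← Int.emod_add_mul_ediv k 4]
      rw [zpow_add, zpow_mul, h4, one_zpow, mul_one]
    have h6 : 0 ≤ k % 4 := Int.emod_nonneg _ (by norm_num)
    have h7 : k % 4 < 4 := Int.emod_lt_of_pos _ (by norm_num)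
    rw [h5] at hk
    have h8 : k % 4 = 0 ∨ k % 4 = 1 ∨ k % 4 = 2 ∨ k % 4 = 3 := by omega
    rcases h8 with h8 | h8 | h8 | h8
    · rw [h8, zpow_zero] at hk
      rw [← hk, orderOf_one] at h2; omega
    · left; rw [← hk, h8, zpow_one]
    · exfalso
      rw [h8] at hk
      have h9 : (g * t * g⁻¹) ^ 2 = 1 := by
        rw [← hk, ← zpow_natCast, ← zpow_mul]
        norm_num [h4]
      have h10 := orderOf_dvd_of_pow_eq_one h9
      rw [h2] at h10; omega
    · right
      rw [← hk, h8]
      have h9 : t ^ (3 : ℤ) * t = 1 := by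
        rw [← zpow_add_one]; norm_num [h4]
      exact eq_inv_of_mul_eq_one_left h9
  have hNH : NH D Q = D := by
    unfold NH
    refine inf_eq_left.2 ?_
    intro d hd
    exact hnorm d (hn d hd)
  have hDST : D ≤ ST ⊤ Q f := by
    have := NH_le_ST hmax.of.pair hle
    rwa [hNH] at this
  set H := ST ⊤ Q f with hH
  have hCH : CH ⊤ Q ≤ H := CH_le_ST hpair.blk.mem.1
  have hCC : Subgroup.centralizer (Q : Set G) ≤ H := fun x hx => hCH ⟨hx, Subgroup.mem_top x⟩
  have hcen : ∀ g : G, g * t * g⁻¹ = t → g ∈ H := by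
    intro g hg
    apply hCC
    rw [hQdef, Subgroup.mem_centralizer_iff]
    rintro _ ⟨k, rfl⟩
    have h1 : Commute g t := by
      change g * t = t * g
      rw [← mul_inv_eq_iff_eq_mul]; exact hg
    exact (h1.zpow_right k).eq.symm
  have hHmem : ∀ g : G, g ∈ H ↔ g * t * g⁻¹ = t ∨ g * t * g⁻¹ = t⁻¹ := by
    intro g
    constructor
    · intro hg
      exact hnorm' g hg.2.1
    · rintro (hg | hg)
      · exact hcen g hg
      · obtain ⟨y, hy, hyt⟩ := hy
        have h1 : (g * y⁻¹) * t * (g * y⁻¹)⁻¹ = t := by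
          have h2 : y⁻¹ * t * y = t⁻¹ := by
            have h3 : y⁻¹ * t⁻¹ * y = t := by rw [← hyt]; group
            have h4 : y⁻¹ * t * y = (y⁻¹ * t⁻¹ * y)⁻¹ := by group
            rw [h4, h3]
          calc (g * y⁻¹) * t * (g * y⁻¹)⁻¹ = g * (y⁻¹ * t * y) * g⁻¹ := by group
            _ = (g * t * g⁻¹)⁻¹ := by rw [h2]; group
            _ = t := by rw [hg, inv_inv]
        have h3 := mul_mem (hcen _ h1) (hDST hy)
        have h4 : g * y⁻¹ * y = g := by group
        rwa [h4] at h3
  have hblk : IsBlk H f := isBlk_ST hpair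
  obtain ⟨β, hβ, hβf⟩ := exists_bl hblk
  have hQH : Q ≤ H := hQD.trans hDST
  have hind : IsInducedBlock M H β B := by
    rw [H80.BR7.induced_iff_br hM hpair.pgr hQH hCC ST_le_normalizer hβ hB, hβf]
    exact hof.br
  have hdef : IsDefectGroup 2 M β (D.subgroupOf H) := by
    rw [isDefectGroup_iff_isDef' hM hβ, Subgroup.subgroupOf_map_subtype, inf_eq_left.2 hDST, hβf]
    have hfn : (fsys hmax.of.pair).IsFullyNormalized Q := by
      refine ⟨hle.le' hmax.of.pair, ?_⟩
      intro Q' hQ'
      rw [nIn_eq, nIn_eq, hNH]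
      exact Subgroup.card_le_of_le inf_le_left
    have h1 := (fn_iff hmax hle).1 hfn
    rwa [hNH] at h1
  refine ⟨H, β, hHmem, hDST, hind, hdef, isBlk_ebar hβ, ?_⟩
  -- nilpotency
  obtain ⟨e', hmax'⟩ := exists_isMax_of_isDefectGroup hM hβ hdef
  intro Q' f' hf' x hx hpx
  obtain ⟨g, -, hg⟩ := sle_max hmax' hf'
  have hle' : cs g Q' ≤ D.subgroupOf H := hg.le' hmax'.of.pair
  have hxn : x ∈ Subgroup.normalizer (Q' : Set H) := (mem_ST.1 hx).2.1
  set x' := g * x * g⁻¹ with hx'
  have h1 : x' ∈ Subgroup.normalizer ((cs g Q' : Subgroup H) : Set H) := by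
    rw [hx', ← cs_normalizer, conj_mem_cs]
    exact hxn
  have h2 : orderOf x' = orderOf x := by
    have := orderOf_injective (MulAut.conj g).toMonoidHom (MulAut.conj g).injective x
    simpa [hx'] using this
  have hodd : Odd (orderOf x') := by
    rw [h2, ← Nat.not_even_iff_odd, even_iff_two_dvd]; exact hpx
  obtain ⟨s, hs⟩ := hcyc
  have hsD : s ∈ D := by
    have : s ∈ D ⊓ Subgroup.centralizer {t} := hs ▸ Subgroup.mem_zpowers s
    exact this.1
  let t' : H := ⟨t, hDST ht⟩
  let s' : H := ⟨s, hDST hsD⟩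
  have ho' : orderOf t' = 4 := by rw [← ho]; exact (Subgroup.orderOf_coe t').symm
  have hxt : x' * t' = t' * x' := by
    rcases (hHmem (x' : G)).1 x'.2 with h | h
    · apply Subtype.ext
      change (x' : G) * t = t * x'
      rw [← mul_inv_eq_iff_eq_mul]; exact h
    · exfalso
      -- odd powers of `x'` invert `t`
      have key : ∀ m : ℕ, (x' : G) ^ (2 * m + 1) * t * ((x' : G) ^ (2 * m + 1))⁻¹ = t⁻¹ := by
        intro m
        induction m with
        | zero => simpa using h
        | succ m ih =>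
          have h3 : (x' : G) * t⁻¹ * (x' : G)⁻¹ = t := by
            have h4 : (x' : G) * t⁻¹ * (x' : G)⁻¹ = ((x' : G) * t * (x' : G)⁻¹)⁻¹ := by group
            rw [h4, h, inv_inv]
          have h5 : (x' : G) ^ (2 * (m + 1) + 1) = x' * (x' * (x' : G) ^ (2 * m + 1)) := by
            rw [← pow_succ', ← pow_succ']; congr 1
          rw [h5]
          calc (x' : G) * (x' * (x' : G) ^ (2 * m + 1)) * t * (x' * (x' * (x' : G) ^ (2 * m + 1)))⁻¹
              = x' * (x' * ((x' : G) ^ (2 * m + 1) * t * ((x' : G) ^ (2 * m + 1))⁻¹) * (x' : G)⁻¹) * (x' : G)⁻¹ := by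
                group
            _ = t⁻¹ := by rw [ih, h3, h]
      obtain ⟨m, hm⟩ := hodd
      have h3 := key m
      have h4 : (x' : G) ^ (2 * m + 1) = 1 := by
        rw [← hm]
        have := congrArg (fun z : H => (z : G)) (pow_orderOf_eq_one x')
        exact this
      rw [h4] at h3
      have h5 : t * t = 1 := by
        have h6 : t = t⁻¹ := by simpa using h3
        calc t * t = t * t⁻¹ := by rw [← h6]
          _ = 1 := mul_inv_cancel t
      have h6 : orderOf t ∣ 2 := orderOf_dvd_of_pow_eq_one (by rw [pow_two]; exact h5)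
      rw [ho] at h6; omega
  have hDp : IsPGroup 2 (D.subgroupOf H) := hmax'.of.pair.pgr
  have h3 := odd_cent (D := D.subgroupOf H) (Q := cs g Q') (t := t') (x := x') (s := s') hDp ho'
    (Subgroup.mem_subgroupOf.2 ht)
    (by
      intro d hd
      rcases hn d (Subgroup.mem_subgroupOf.1 hd) with h | h
      · left; exact Subtype.ext h
      · right; exact Subtype.ext h)
    (by
      intro a ha hat
      have h4 : (a : G) ∈ D ⊓ Subgroup.centralizer {t} := by
        refine Subgroup.mem_inf.2 ⟨Subgroup.mem_subgroupOf.1 ha, Subgroup.mem_centralizer_singleton_iff.2 ?_⟩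
        exact congrArg (fun z : H => (z : G)) hat
      rw [hs] at h4
      obtain ⟨k, hk⟩ := Subgroup.mem_zpowers_iff.1 h4
      rw [Subgroup.mem_zpowers_iff]
      exact ⟨k, Subtype.ext hk⟩)
    hle' hxt h1 hodd
  rw [Subgroup.mem_centralizer_iff] at h3 ⊢
  intro u hu
  have h4 := h3 (g * u * g⁻¹) (conj_mem_cs.2 hu)
  have h5 : g * (u * x) * g⁻¹ = g * (x * u) * g⁻¹ := by
    calc g * (u * x) * g⁻¹ = g * u * g⁻¹ * (g * x * g⁻¹) := by group
      _ = g * x * g⁻¹ * (g * u * g⁻¹) := h4
      _ = _ := by group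
  exact mul_left_cancel (mul_right_cancel h5)

end H83.SdA
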