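import Cfsg.Agent.Lib.H5.TBa
import Cfsg.Agent.Lib.H78.BlkCount
import Cfsg.Agent.Lib.H81.OddHt
import Cfsg.Agent.Lib.H67.OddCh
import Cfsg.Agent.Lib.H83.SdA
import Cfsg.Agent.Lib.H81.SpnE

set_option autoImplicit false
set_option linter.unusedSectionVars false
set_option linter.unusedVariables false

/-!
# Semidihedral / quaternion defect groups: the odd family
-/

namespace H83.SdG

open Cfsg H20.Loc H20.GA H80.GA H80.GB H80.GD H80.GE H80.GF H80.GJ H80.FS H80.FS3 H84.RG H18.CharBasic H18.CharOrtho H18.CharInd H84.TrR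
open H78.BlkCount H20.Blk H20.Orth H20.Ind H20.Height H20.Defect H80.BR1 H80.BR2 H19.Second H19.Second3 H81.Section H81.Contrib H84.Star
open scoped ComplexConjugate

universe u
attribute [local instance 2000] Fintype.ofFinite

section grp
variable {K : Type u} [Group K] [Finite K]

/-- elements of order four of a cyclic group generate the same subgroup -/
theorem cyc4 {a t w : K} (ht : t ∈ Subgroup.zpowers a) (hw : w ∈ Subgroup.zpowers a) (ot : orderOf t = 4)
    (ow : orderOf w = 4) : t ∈ Subgroup.zpowers w := by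
  classical
  set A := Subgroup.zpowers a with hA
  have h1 := IsCyclic.card_pow_eq_one_le (α := A) (n := 4) (by norm_num)
  let w' : A := ⟨w, hw⟩
  let t' : A := ⟨t, ht⟩
  have how : orderOf w' = 4 := by rw [← ow]; exact (Subgroup.orderOf_coe w').symm
  have hot : orderOf t' = 4 := by rw [← ot]; exact (Subgroup.orderOf_coe t').symm
  let T : Finset A := Finset.univ.filter (fun b => b ∈ Subgroup.zpowers w')
  have hT : T.card = 4 := by
    have h2 : T.card = Nat.card (Subgroup.zpowers w') := by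
      rw [Nat.card_eq_fintype_card]
      exact (Fintype.card_subtype _).symm
    rw [h2, Nat.card_zpowers, how]
  have hsub : T ⊆ Finset.univ.filter (fun b : A => b ^ 4 = 1) := by
    intro b hb
    rw [Finset.mem_filter] at hb ⊢
    refine ⟨Finset.mem_univ _, ?_⟩
    obtain ⟨k, rfl⟩ := Subgroup.mem_zpowers_iff.1 hb.2
    rw [← zpow_natCast, ← zpow_mul, mul_comm, zpow_mul, zpow_natCast]
    have : w' ^ 4 = 1 := by rw [← how]; exact pow_orderOf_eq_one w'
    rw [this, one_zpow]
  have heq : T = Finset.univ.filter (fun b : A => b ^ 4 = 1) :=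
    Finset.eq_of_subset_of_card_le hsub (by rw [hT]; exact h1)
  have h3 : t' ∈ T := by
    rw [heq, Finset.mem_filter]
    refine ⟨Finset.mem_univ _, ?_⟩
    rw [← hot]; exact pow_orderOf_eq_one t'
  obtain ⟨k, hk⟩ := Subgroup.mem_zpowers_iff.1 (Finset.mem_filter.1 h3).2
  exact Subgroup.mem_zpowers_iff.2 ⟨k, congrArg Subtype.val hk⟩

/-- the elements of order four of a cyclic group of order four -/
theorem pm_of_mem {t w : K} (ot : orderOf t = 4) (hw : w ∈ Subgroup.zpowers t) (ow : orderOf w = 4) :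
    w = t ∨ w = t⁻¹ := by
  obtain ⟨k, hk⟩ := Subgroup.mem_zpowers_iff.1 hw
  have h4 : t ^ (4 : ℤ) = 1 := by
    have := pow_orderOf_eq_one t
    rw [ot] at this
    exact_mod_cast this
  have h5 : t ^ k = t ^ (k % 4) := by
    conv_lhs => rw [← Int.emod_add_mul_ediv k 4]
    rw [zpow_add, zpow_mul, h4, one_zpow, mul_one]
  have h6 : 0 ≤ k % 4 := Int.emod_nonneg _ (by norm_num)
  have h7 : k % 4 < 4 := Int.emod_lt_of_pos _ (by norm_num)
  rw [h5] at hk
  have h8 : k % 4 = 0 ∨ k % 4 = 1 ∨ k % 4 = 2 ∨ k % 4 = 3 := by omega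
  rcases h8 with h8 | h8 | h8 | h8
  · rw [h8, zpow_zero] at hk
    rw [← hk, orderOf_one] at ow; omega
  · left; rw [← hk, h8, zpow_one]
  · exfalso
    rw [h8] at hk
    have h9 : w ^ 2 = 1 := by
      rw [← hk, ← zpow_natCast, ← zpow_mul]
      norm_num [h4]
    have h10 := orderOf_dvd_of_pow_eq_one h9
    rw [ow] at h10; omega
  · right
    rw [← hk, h8]
    have h9 : t ^ (3 : ℤ) * t = 1 := by
      rw [← zpow_add_one]; norm_num [h4]
    exact eq_inv_of_mul_eq_one_left h9

/-- in a cyclic 2-group with element `t` of order four, `y ≠ 1, t ^ 2` implies `t ∈ ⟨y⟩` -/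
theorem mem_of_ne {a t y : K} (ht : t ∈ Subgroup.zpowers a) (hy : y ∈ Subgroup.zpowers a) (ot : orderOf t = 4)
    (h2 : ∃ k : ℕ, orderOf y = 2 ^ k) (hy1 : y ≠ 1) (hyz : y ≠ t * t) : t ∈ Subgroup.zpowers y := by
  obtain ⟨k, hk⟩ := h2
  have h4 : t * t * (t * t) = 1 := by
    have h5 := pow_orderOf_eq_one t
    rw [ot] at h5
    rw [← h5]; simp [pow_succ, mul_assoc]
  have h2' : t * t ≠ 1 := by
    intro h
    have h3 : orderOf t ∣ 2 := orderOf_dvd_of_pow_eq_one (by rw [pow_two]; exact h)
    rw [ot] at h3; omega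
  have hk2 : 2 ≤ k := by
    by_contra hcon
    have : k = 0 ∨ k = 1 := by omega
    rcases this with rfl | rfl
    · rw [pow_zero] at hk; exact hy1 (orderOf_eq_one_iff.1 hk)
    · apply hyz
      rw [pow_one] at hk
      exact H5.TBa.inv_unique hy (mul_mem ht ht) hk (orderOf_eq_prime (by rw [pow_two]; exact h4) h2')
  have h6 : orderOf (y ^ (2 ^ (k - 2))) = 4 := by
    have h7 : 2 ^ (k - 2) ∣ orderOf y := by rw [hk]; exact pow_dvd_pow 2 (by omega)
    rw [orderOf_pow_of_dvd (by positivity) h7, hk]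
    have h8 : 2 ^ k = 2 ^ (k - 2) * 4 := by
      conv_lhs => rw [show k = (k - 2) + 2 by omega]
      rw [pow_add]; norm_num
    rw [h8, Nat.mul_div_cancel_left _ (by positivity)]
  have h7 := cyc4 ht (pow_mem hy _) ot h6
  exact (Subgroup.zpowers_le.2 (Subgroup.pow_mem _ (Subgroup.mem_zpowers y) _)) h7

end grp

variable {M : Ideal AlgInt} [M.IsMaximal] {G : Type u} [Group G] [Finite G]
variable [CharP (ResF M) 2] [Algebra (ZMod 2) (ResF M)] [Algebra.IsAlgebraic (ZMod 2) (ResF M)]
  [IsAlgClosed (ResF M)]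

/-- (G) -/
theorem odd_family (hM : IsPModular 2 M) {B : Set (IrrCharacter G)} (hB : IsPBlock M B) {D : Subgroup G}
    (hD : IsDefectGroup 2 M B D) {q : ℕ} (hq : 2 ≤ q) (hcard : Nat.card D = 8 * q) {s t z y : G} (hs : s ∈ D)
    (hso : orderOf s = 4 * q) (hts : t ∈ Subgroup.zpowers s) (hto : orderOf t = 4) (htz : t * t = z)
    (hcen : ∀ d ∈ D, d * t * d⁻¹ = t ∨ d * t * d⁻¹ = t⁻¹) (hy : y ∈ D) (hyt : y * t * y⁻¹ = t⁻¹) :
    ∃ o : Fin (q - 1) → G → ℂ, LinearIndependent ℂ o ∧ (∀ i, o i ∈ spn B) ∧ (∀ i, reg 2 (o i) = 0) ∧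
      (∀ i (f : C z → ℂ), IsClassFunction (C z) f → (∀ c : C z, f c ≠ 0 → z ∈ Subgroup.zpowers (c : G)) →
        (∀ c c' : C z, (c' : G) = z * c → f c' = f c) → classInner (o i) (indFun (C z) f) = 0) ∧
      (∀ i (f : C z → ℂ), (∀ c : C z, f c ≠ 0 → ¬ 2 ∣ orderOf (z * (c : G))) →
        classInner (o i) (indFun (C z) f) = 0) := by
  classical
  have htD : t ∈ D := (Subgroup.zpowers_le.2 hs) hts
  have hDp : IsPGroup 2 D := by
    obtain ⟨e, hmax⟩ := exists_isMax_of_isDefectGroup hM hB hD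
    exact hmax.of.pair.pgr
  have hzz : z * z = 1 := by
    have h5 := pow_orderOf_eq_one t
    rw [hto] at h5
    rw [← h5, ← htz]; simp [pow_succ, mul_assoc]
  have hz1 : z ≠ 1 := by
    intro h
    have h3 : orderOf t ∣ 2 := orderOf_dvd_of_pow_eq_one (by rw [pow_two, htz]; exact h)
    rw [hto] at h3; omega
  have hzo : orderOf z = 2 := orderOf_eq_prime (by rw [pow_two]; exact hzz) hz1
  have hti : t ≠ t⁻¹ := by
    intro h
    apply hz1
    rw [← htz]
    calc t * t = t * t⁻¹ := by rw [← h]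
      _ = 1 := mul_inv_cancel t
  have hcyc : D ⊓ Subgroup.centralizer {t} = Subgroup.zpowers s := by
    symm
    have hle : Subgroup.zpowers s ≤ D ⊓ Subgroup.centralizer {t} := by
      rw [Subgroup.zpowers_le]
      refine Subgroup.mem_inf.2 ⟨hs, Subgroup.mem_centralizer_singleton_iff.2 ?_⟩
      obtain ⟨k, hk⟩ := Subgroup.mem_zpowers_iff.1 hts
      rw [← hk]
      exact ((Commute.refl s).zpow_right k).eq
    apply Subgroup.eq_of_le_of_card_ge hle
    rw [Nat.card_zpowers, hso]
    obtain ⟨m, hm⟩ := Subgroup.card_dvd_of_le (inf_le_left : D ⊓ Subgroup.centralizer {t} ≤ D)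
    rw [hcard] at hm
    have hm1 : m ≠ 1 := by
      rintro rfl
      rw [mul_one] at hm
      have h1 : D ⊓ Subgroup.centralizer {t} = D :=
        Subgroup.eq_of_le_of_card_ge inf_le_left (by rw [hcard, hm])
      have h2 : y ∈ D ⊓ Subgroup.centralizer {t} := by rw [h1]; exact hy
      have h3 := Subgroup.mem_centralizer_singleton_iff.1 (Subgroup.mem_inf.1 h2).2
      apply hti
      rw [← hyt, h3, mul_assoc, mul_inv_cancel, mul_one]
    have hm0 : m ≠ 0 := by
      rintro rfl
      omega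
    have hm2 : 2 ≤ m := by omega
    nlinarith
  obtain ⟨H, β, hH, hDH, hind, hdef, hnil⟩ := H83.SdA.exists_H hM hB hD htD hto hcen ⟨y, hy, hyt⟩ ⟨s, hcyc⟩
  have hβ : IsPBlock M β := hind.1
  obtain ⟨e, hmax⟩ := exists_isMax_of_isDefectGroup hM hβ hdef
  set P := D.subgroupOf H with hP
  obtain ⟨ψ, hψ, hψ0⟩ := exists_height_zero hM hβ
  -- `z` is central in `H`
  have hzt : ∀ g : G, g ∈ H → g * z * g⁻¹ = z := by
    intro g hg
    rcases (hH g).1 hg with h | h
    · calc g * z * g⁻¹ = (g * t * g⁻¹) * (g * t * g⁻¹) := by rw [← htz]; group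
        _ = z := by rw [h, htz]
    · calc g * z * g⁻¹ = (g * t * g⁻¹) * (g * t * g⁻¹) := by rw [← htz]; group
        _ = (t * t)⁻¹ := by rw [h]; group
        _ = z := by rw [htz, inv_eq_iff_mul_eq_one]; exact hzz
  have htH : t ∈ H := hDH htD
  have hzD : z ∈ D := by rw [← htz]; exact mul_mem htD htD
  have hzH : z ∈ H := hDH hzD
  let tH : H := ⟨t, htH⟩
  let zH : H := ⟨z, hzH⟩
  have hzc : ∀ g : H, g * zH = zH * g := by
    intro g
    apply Subtype.ext
    change (g : G) * z = z * g
    rw [← mul_inv_eq_iff_eq_mul]; exact hzt g g.2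
  have hψz : (ψ : H → ℂ) zH = (ψ : H → ℂ) 1 :=
    H81.OddHt.odd_height hM hβ hdef (t := tH) (y := ⟨y, hDH hy⟩) (z := zH) (Subgroup.mem_subgroupOf.2 htD)
      (Subgroup.mem_subgroupOf.2 hy) hzc (Subtype.ext htz) (Subtype.ext hzz) (Subtype.ext hyt) hψ hψ0
  -- the characters of `P`
  let sP : P := ⟨⟨s, hDH hs⟩, Subgroup.mem_subgroupOf.2 hs⟩
  let tP : P := ⟨tH, Subgroup.mem_subgroupOf.2 htD⟩
  let zP : P := ⟨zH, Subgroup.mem_subgroupOf.2 hzD⟩
  let yP : P := ⟨⟨y, hDH hy⟩, Subgroup.mem_subgroupOf.2 hy⟩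
  have hcardP : Nat.card P = 8 * q := by
    rw [← hcard]
    exact Nat.card_congr (Subgroup.subgroupOfEquivOfLe hDH).toEquiv
  have hsoP : orderOf sP = 4 * q := by
    rw [← hso, ← Subgroup.orderOf_coe, ← Subgroup.orderOf_coe]
  have htP : tP ∈ Subgroup.zpowers sP := by
    obtain ⟨k, hk⟩ := Subgroup.mem_zpowers_iff.1 hts
    exact Subgroup.mem_zpowers_iff.2 ⟨k, Subtype.ext (Subtype.ext hk)⟩
  obtain ⟨ξ, hξi, hξ1, hξz, hξs⟩ := H67.OddCh.odd_chars (P := P) (q := q) (by omega) hcardP (s := sP) (t := tP)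
    (y := yP) (z := zP) hsoP htP (Subtype.ext (Subtype.ext htz))
    (fun h => hz1 (congrArg (fun x : P => ((x : H) : G)) h))
    (Subtype.ext (Subtype.ext hzz))
    (by
      intro g
      rcases hcen ((g : H) : G) (Subgroup.mem_subgroupOf.1 g.2) with h | h
      · left; exact Subtype.ext (Subtype.ext h)
      · right; exact Subtype.ext (Subtype.ext h))
    (Subtype.ext (Subtype.ext hyt))
  have hinn := inn_of_nilp hmax hnil
  -- the characters of the block
  have hX : ∀ i : Fin q, ∃ χ : IrrCharacter H, χ ∈ β ∧ (χ : H → ℂ) = H5.TBa.FF 2 P e (ψ : H → ℂ) (ξ i) := by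
    intro i
    exact star_irr hM hmax hβ hnil hinn hψ hψ0 (ξ i).2
  choose X hXβ hXF using hX
  have hXi : ∀ i j, i ≠ j → (X i : H → ℂ) ≠ X j := by
    intro i j hij h
    have h1 : classInner (X i : H → ℂ) (X j : H → ℂ) = 1 := by
      rw [h]; exact inner_irr_self (X j).2
    rw [hXF, hXF, H5.TBa.FF_inner hM hmax hβ hnil hψ hψ0 (isClassFunction_of_isIrr (ξ i).2)
      (isClassFunction_of_isIrr (ξ j).2), inner_irr_ne (ξ i).2 (ξ j).2 (fun h2 => hij (hξi (Subtype.ext h2)))] at h1
    exact zero_ne_one h1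
  -- parity
  have hXz : ∀ i (c : H), (X i : H → ℂ) (zH * c) = - (X i : H → ℂ) c := by
    intro i
    have hval1 : (X i : H → ℂ) 1 = 2 * (ψ : H → ℂ) 1 := by
      rw [hXF, H5.TBa.FF_reg hM hmax hβ hnil hψ (isClassFunction_of_isIrr (ξ i).2) (by rw [orderOf_one]; norm_num),
        hξ1]
    have hvalz : (X i : H → ℂ) zH = - (2 * (ψ : H → ℂ) 1) := by
      have h1 := H5.TBa.FF_central hM hmax hβ hnil hψ (isClassFunction_of_isIrr (ξ i).2) (w := zP)
        (fun g => hzc g) ⟨1, by
          rw [pow_one, ← hzo]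
          exact (Subgroup.orderOf_coe zH).symm⟩ (c := 1) (by rw [orderOf_one]; norm_num)
      rw [mul_one] at h1
      rw [hXF]
      change H5.TBa.FF 2 P e (ψ : H → ℂ) (ξ i) ((zP : P) : H) = _
      rw [h1]
      have h2 : (ξ i : P → ℂ) zP = - 2 := by
        have := hξz i 1
        rw [mul_one, hξ1] at this
        exact this
      rw [h2]
      change -2 * (ψ : H → ℂ) zH = _
      rw [hψz]; ring
    rcases H62.CentralInv.central_sign (X i).2 (fun g => (hzc g).symm) (Subtype.ext hzz : zH * zH = 1) with h | h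
    · exfalso
      have h1 := h 1
      rw [mul_one, hvalz, hval1] at h1
      have h2 : (ψ : H → ℂ) 1 = 0 := by linear_combination (-1/4 : ℂ) * h1
      exact (irr_one_ne_zero ψ.2) h2
    · exact h
  -- the functions
  let f0 : Fin (q - 1) → Fin q := fun i => ⟨i.1 + 1, by omega⟩
  let z0 : Fin q := ⟨0, by omega⟩
  let v : Fin (q - 1) → H → ℂ := fun i => (X (f0 i) : H → ℂ) - (X z0 : H → ℂ)
  have hf0 : ∀ i, f0 i ≠ z0 := by
    intro i h
    have := congrArg Fin.val h
    simp [f0, z0] at this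
  have hf0i : ∀ i j, f0 i = f0 j → i = j := by
    intro i j h
    have := congrArg Fin.val h
    simp [f0] at this
    exact Fin.ext this
  have hvF : ∀ i, v i = H5.TBa.FF 2 P e (ψ : H → ℂ) ((ξ (f0 i) : P → ℂ) - (ξ z0 : P → ℂ)) := by
    intro i
    have h1 : ((ξ (f0 i) : P → ℂ) - (ξ z0 : P → ℂ)) = (ξ (f0 i) : P → ℂ) + (-1 : ℂ) • (ξ z0 : P → ℂ) := by
      rw [neg_one_smul, sub_eq_add_neg]
    rw [h1, H5.TBa.FF_add, H5.TBa.FF_smul, ← hXF, ← hXF, neg_one_smul, ← sub_eq_add_neg]
  have hvclass : ∀ i, IsClassFunction H (v i) := fun i =>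
    isClassFunction_sub (isClassFunction_of_isIrr (X (f0 i)).2) (isClassFunction_of_isIrr (X z0).2)
  have hvz : ∀ i (c : H), v i (zH * c) = - v i c := by
    intro i c
    change (X (f0 i) : H → ℂ) (zH * c) - (X z0 : H → ℂ) (zH * c) = -((X (f0 i) : H → ℂ) c - (X z0 : H → ℂ) c)
    rw [hXz, hXz]; ring
  -- support
  have hsupp : ∀ i (c : H), v i c ≠ 0 → ∃ x : H, IsPPart 2 c x ∧ t ∈ Subgroup.zpowers (x : G) := by
    intro i c hc
    rw [hvF] at hc
    obtain ⟨w, hw, g, x, hx, hwx⟩ := H5.TBa.FF_supp hM hc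
    refine ⟨x, hx, ?_⟩
    have hw' : (ξ (f0 i) : P → ℂ) w - (ξ z0 : P → ℂ) w ≠ 0 := hw
    have hws : w ∈ Subgroup.zpowers sP := by
      by_contra hcon
      apply hw'
      rw [hξs _ _ hcon, hξs _ _ hcon, sub_zero]
    have hw1 : w ≠ 1 := by
      rintro rfl
      apply hw'
      rw [hξ1, hξ1, sub_self]
    have hwz : w ≠ tP * tP := by
      intro h
      apply hw'
      have h1 : tP * tP = zP * 1 := by rw [mul_one]; exact Subtype.ext (Subtype.ext htz)
      rw [h, h1, hξz, hξz, hξ1, hξ1, sub_self]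
    have hto' : orderOf tP = 4 := by
      rw [← hto, ← Subgroup.orderOf_coe, ← Subgroup.orderOf_coe]
    have h2 := mem_of_ne htP hws hto' (by
      obtain ⟨n, hn⟩ := (IsPGroup.iff_orderOf.1 hmax.of.pair.pgr) w
      exact ⟨n, hn⟩) hw1 hwz
    obtain ⟨k, hk⟩ := Subgroup.mem_zpowers_iff.1 h2
    have hk' : ((w : H) : G) ^ k = t := congrArg (fun a : P => ((a : H) : G)) hk
    rw [hwx] at hk'
    have hk2 : ((g : H) : G) * (x : G) ^ k * (g : G)⁻¹ = t := by
      rw [← hk', ← conj_zpow]; rfl
    have hk3 : (x : G) ^ k = (g : G)⁻¹ * t * (g : G)⁻¹⁻¹ := by rw [← hk2]; group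
    rcases (hH (g : G)⁻¹).1 (inv_mem g.2) with h | h
    · exact Subgroup.mem_zpowers_iff.2 ⟨k, by rw [hk3, h]⟩
    · refine Subgroup.mem_zpowers_iff.2 ⟨-k, ?_⟩
      rw [zpow_neg, hk3, h, inv_inv]
  have hsuppc : ∀ i (c : H), v i c ≠ 0 → t ∈ Subgroup.zpowers (c : G) := by
    intro i c hc
    obtain ⟨x, hx, htx⟩ := hsupp i c hc
    have h1 : x ∈ Subgroup.zpowers c := H20.First.isPPart_mem_zpowers hx
    have h2 : (x : G) ∈ Subgroup.zpowers (c : G) := by
      obtain ⟨k, hk⟩ := Subgroup.mem_zpowers_iff.1 h1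
      exact Subgroup.mem_zpowers_iff.2 ⟨k, congrArg Subtype.val hk⟩
    exact (Subgroup.zpowers_le.2 h2) htx
  have h2f : (Fact (Nat.Prime 2)) := ⟨Nat.prime_two⟩
  -- trivial intersection
  set T : Set G := {g | t ∈ Subgroup.zpowers g} with hT
  have hTI : ∀ g : G, g ∉ H → ∀ w ∈ T, g * w * g⁻¹ ∈ T → w = 1 := by
    intro g hg w hw hw'
    exfalso
    apply hg
    have hw1 : t ∈ Subgroup.zpowers w := hw
    have hw2 : t ∈ Subgroup.zpowers (g * w * g⁻¹) := hw'
    have h1 : g * t * g⁻¹ ∈ Subgroup.zpowers (g * w * g⁻¹) := by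
      obtain ⟨k, hk⟩ := Subgroup.mem_zpowers_iff.1 hw1
      refine Subgroup.mem_zpowers_iff.2 ⟨k, ?_⟩
      rw [← hk, conj_zpow]
    have h2 : orderOf (g * t * g⁻¹) = 4 := by
      rw [← hto]
      exact orderOf_injective (MulAut.conj g).toMonoidHom (MulAut.conj g).injective t
    have h3 := cyc4 h1 hw2 h2 hto
    rw [hH]
    exact pm_of_mem hto h3 h2
  have hvT : ∀ i (x : H), (x : G) ∉ T → v i x = 0 := by
    intro i x hx
    by_contra hne
    exact hx (hsuppc i x hne)
  have hT1 : (1 : G) ∉ T := by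
    intro h
    have h1 : t ∈ Subgroup.zpowers (1 : G) := h
    rw [Subgroup.zpowers_one_eq_bot, Subgroup.mem_bot] at h1
    rw [h1, orderOf_one] at hto
    omega
  have ho4 : ∀ g ∈ T, 4 ∣ orderOf g := by
    intro g hg
    have h1 : t ∈ Subgroup.zpowers g := hg
    rw [← hto]
    exact orderOf_dvd_of_mem_zpowers h1
  have hzT : ∀ g ∈ T, z ∈ Subgroup.zpowers g := by
    intro g hg
    have h1 : t ∈ Subgroup.zpowers g := hg
    rw [← htz]; exact mul_mem h1 h1
  -- values of the induced functions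
  have hval : ∀ i (c : H), (c : G) ∈ T → indFun H (v i) c = v i c := by
    intro i c hc
    refine H4.TI.indFun_eq_of_TI H T hTI (hvclass i) (hvT i) c hc ?_
    rintro rfl
    exact hT1 hc
  refine ⟨fun i => indFun H (v i), ?_, ?_, ?_, ?_, ?_⟩
  · -- independence
    rw [Fintype.linearIndependent_iff]
    intro c hc j
    have h1 : ∑ i, c i • v i = 0 := by
      funext x
      rw [Finset.sum_apply, Pi.zero_apply]
      by_cases hx : (x : G) ∈ T
      · have h2 := congrFun hc (x : G)
        rw [Finset.sum_apply, Pi.zero_apply] at h2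
        rw [← h2]
        refine Finset.sum_congr rfl fun i _ => ?_
        rw [Pi.smul_apply, Pi.smul_apply, hval i x hx]
      · refine Finset.sum_eq_zero fun i _ => ?_
        rw [Pi.smul_apply, hvT i x hx, smul_zero]
    have h2 : classInner (∑ i, c i • v i) (X (f0 j) : H → ℂ) = c j := by
      rw [inner_sum_left, Finset.sum_eq_single j]
      · rw [H18.CharOrtho.inner_smul_left, H18.CharOrtho.inner_sub_left, inner_irr_self (X (f0 j)).2,
          inner_irr_ne (X z0).2 (X (f0 j)).2 (hXi _ _ (hf0 j).symm)]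
        ring
      · intro i _ hij
        rw [H18.CharOrtho.inner_smul_left, H18.CharOrtho.inner_sub_left,
          inner_irr_ne (X (f0 i)).2 (X (f0 j)).2 (hXi _ _ (fun h => hij (hf0i _ _ h))),
          inner_irr_ne (X z0).2 (X (f0 j)).2 (hXi _ _ (hf0 j).symm)]
        ring
      · intro h; exact absurd (Finset.mem_univ j) h
    rw [h1] at h2
    rw [← h2]
    simp [classInner]
  · -- in the span
    intro i
    refine H81.SpnE.ind_spn hM hind ?_ ?_
    · exact Submodule.sub_mem _ (Submodule.subset_span ⟨X (f0 i), hXβ _, rfl⟩)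
        (Submodule.subset_span ⟨X z0, hXβ _, rfl⟩)
    · intro c hc x hx
      obtain ⟨x', hx', htx'⟩ := hsupp i c hc
      have h1 : IsPPart 2 (c : G) (x' : G) := by
        obtain ⟨w, hw1, hw2, ⟨k, hk⟩, hw4⟩ := hx'
        refine ⟨w, congrArg Subtype.val hw1, congrArg Subtype.val hw2, ⟨k, ?_⟩, ?_⟩
        · rw [Subgroup.orderOf_coe]; exact hk
        · rw [Subgroup.orderOf_coe]; exact hw4
      have h2 : x = (x' : G) := isPPart_unique Nat.prime_two hx h1
      intro g hg
      rw [Subgroup.mem_centralizer_singleton_iff, h2] at hg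
      rw [hH]
      left
      obtain ⟨k, hk⟩ := Subgroup.mem_zpowers_iff.1 htx'
      have h3 : Commute g (x' : G) := hg
      have h4 := (h3.zpow_right k).eq
      rw [hk] at h4
      rw [h4, mul_assoc, mul_inv_cancel, mul_one]
  · -- vanishing on regular elements
    intro i
    funext g
    by_cases hg : 2 ∣ orderOf g
    · rw [reg_not hg]; rfl
    · rw [reg_of hg, Pi.zero_apply]
      change indFun H (v i) g = 0
      rw [indFun_apply, Finset.sum_eq_zero, mul_zero]
      intro x _
      by_cases hx : x⁻¹ * g * x ∈ H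
      · rw [ext_mem _ _ hx]
        apply hvT
        intro hxT
        apply hg
        have h1 := ho4 _ hxT
        have h2 : orderOf (x⁻¹ * g * x) = orderOf g := by
          have := orderOf_injective (MulAut.conj x⁻¹).toMonoidHom (MulAut.conj x⁻¹).injective g
          rw [← this]
          congr 1
          simp
        rw [h2] at h1
        exact (by norm_num : (2 : ℕ) ∣ 4).trans h1
      · exact ext_notMem _ _ hx
  · -- parity
    intro i f hf hf1 hf2
    rw [frobenius H (v i) (isClassFunction_indFun (C z) f)]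
    unfold classInner
    have hsum : ∑ c : H, v i c * conj (indFun (C z) f c) = 0 := by
      have hneg : ∀ c : H, v i (zH * c) * conj (indFun (C z) f ((zH * c : H) : G)) =
          - (v i c * conj (indFun (C z) f c)) := by
        intro c
        by_cases hc : v i c = 0
        · rw [hvz, hc]; simp
        · have hc' : v i (zH * c) ≠ 0 := by rw [hvz]; exact neg_ne_zero.2 hc
          have h1 := hsuppc i c hc
          have h2 := hsuppc i _ hc'
          have hcz : (c : G) ∈ C z := by
            rw [Subgroup.mem_centralizer_singleton_iff]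
            exact congrArg Subtype.val (hzc c)
          have hzcz : ((zH * c : H) : G) ∈ C z := by
            rw [Subgroup.mem_centralizer_singleton_iff]
            exact congrArg Subtype.val (hzc (zH * c))
          have hfT : ∀ x : C z, (x : G) ∉ H5.TBa.AA z → f x = 0 := by
            intro x hx
            by_contra hne
            exact hx (hf1 x hne)
          have hne1 : ∀ w : C z, (w : G) ∈ T → w ≠ 1 := by
            rintro w hw rfl
            exact hT1 hw
          have h3 : indFun (C z) f (c : G) = f ⟨c, hcz⟩ :=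
            H4.TI.indFun_eq_of_TI (C z) (H5.TBa.AA z) (H5.TBa.AA_TI hzo) hf hfT ⟨c, hcz⟩ (hzT _ h1)
              (hne1 _ h1)
          have h4 : indFun (C z) f ((zH * c : H) : G) = f ⟨_, hzcz⟩ :=
            H4.TI.indFun_eq_of_TI (C z) (H5.TBa.AA z) (H5.TBa.AA_TI hzo) hf hfT ⟨_, hzcz⟩ (hzT _ h2)
              (hne1 _ h2)
          rw [h3, h4, hvz, hf2 ⟨c, hcz⟩ ⟨_, hzcz⟩ rfl]; ring
      have h1 : ∑ c : H, v i c * conj (indFun (C z) f c) =
          ∑ c : H, v i (zH * c) * conj (indFun (C z) f ((zH * c : H) : G)) :=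
        (Fintype.sum_equiv (Equiv.mulLeft zH) _ _ (fun c => rfl)).symm
      rw [Finset.sum_congr rfl (fun c _ => hneg c), Finset.sum_neg_distrib] at h1
      have h2 := add_eq_zero_iff_eq_neg.2 h1
      rw [← two_mul] at h2
      exact (mul_eq_zero.1 h2).resolve_left (by norm_num)
    rw [hsum, mul_zero]
  · -- order clause
    intro i f hf
    rw [frobenius H (v i) (isClassFunction_indFun (C z) f)]
    unfold classInner
    rw [Finset.sum_eq_zero, mul_zero]
    intro c _
    by_cases hc : v i c = 0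
    · rw [hc, zero_mul]
    · have h1 := hsuppc i c hc
      have h2 : indFun (C z) f (c : G) = 0 := by
        rw [indFun_apply, Finset.sum_eq_zero, mul_zero]
        intro x _
        by_cases hx : x⁻¹ * (c : G) * x ∈ C z
        · rw [ext_mem _ _ hx]
          by_contra hne
          have h3 := hf _ hne
          set w := x⁻¹ * (c : G) * x with hw
          change ¬ 2 ∣ orderOf (z * w) at h3
          have h4 : 4 ∣ orderOf w := by
            have h5 : orderOf w = orderOf (c : G) := by
              have := orderOf_injective (MulAut.conj x⁻¹).toMonoidHom (MulAut.conj x⁻¹).injective (c : G)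
              rw [← this, hw]
              congr 1
              simp
            rw [h5]; exact ho4 _ h1
          have hzw : Commute z w := (Subgroup.mem_centralizer_singleton_iff.1 hx).symm
          have h5 : (z * w) ^ orderOf (z * w) = 1 := pow_orderOf_eq_one _
          have h6 : w ^ (2 * orderOf (z * w)) = 1 := by
            have h7 : (z * w) ^ (2 * orderOf (z * w)) = 1 := by
              rw [mul_comm, pow_mul, h5, one_pow]
            rw [hzw.mul_pow, pow_mul z, pow_two, hzz, one_pow, one_mul] at h7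
            exact h7
          have h7 := orderOf_dvd_of_pow_eq_one h6
          obtain ⟨a, ha⟩ := h4.trans h7
          apply h3
          omega
        · exact ext_notMem _ _ hx
      have h3 : v i c * conj (indFun (C z) f (c : G)) = 0 := by rw [h2, map_zero, mul_zero]
      exact h3

end H83.SdG
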