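import Mathlib
import Cfsg.Agent.Lib.H83.RealOver
import Cfsg.Agent.Lib.H20.DefZero
import Cfsg.Agent.Lib.H19.CharExt
import Cfsg.Agent.Lib.H28.RelSyl
import Cfsg.Agent.Lib.H78.Cong

/-!
Strongly real characters over characters of `2`-defect zero.
-/

set_option autoImplicit false
set_option linter.unusedSectionVars false
set_option linter.style.haveILetI false

namespace H83.StrReal

open Cfsg Representation H18.CharBasic H18.CharOrtho H18.CharInd H18.CharQuot H31.Clifford
  H83.FSMult H83.FSInd H83.RealOrb H83.RealOver Subgroup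
open scoped ComplexConjugate

universe u

variable {G : Type u} [Group G] [Fintype G] (N : Subgroup G) [hN : N.Normal]

/-- A real irreducible character over `θ` when `θ` is conjugate to its complex conjugate, from a
permutation character containing `θ` with odd multiplicity. -/
theorem exists_real_perm [Fintype N] (H : Subgroup G) [Fintype H]
    {θ : N → ℂ} (hθ : IsIrrCharacter N θ) (g : G) (hg : conjFunN N g θ = fun n => conj (θ n))
    (m : ℕ) (hm : Odd m)
    (hin : classInner (fun n : N => indFun H (fun _ => (1 : ℂ)) n) θ = m) :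
    ∃ χ : IrrCharacter G, (∀ g, ((χ : G → ℂ) g).im = 0) ∧
      (∃ a : ℕ, Odd a ∧ classInner (fun h : H => (χ : G → ℂ) h) (fun _ => (1 : ℂ)) = a) ∧
      ∃ b : ℕ, Odd b ∧ classInner (fun n : N => (χ : G → ℂ) n) θ = b := by
  classical
  haveI : Finite (IrrCharacter G) := instFiniteIrr
  letI := Fintype.ofFinite (IrrCharacter G)
  set π : G → ℂ := indFun H (fun _ => (1 : ℂ)) with hπ
  have hπc : IsCharacter G π := isCharacter_ind H (isCharacter_of_isIrr isIrrCharacter_one)
  have hπr : ∀ g, (π g).im = 0 := indFun_real H (fun _ => by simp)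
  have h0 : ∀ χ : IrrCharacter G, ∃ a : ℕ, classInner π (χ : G → ℂ) = a := fun χ =>
    inner_char_natCast hπc (isCharacter_of_isIrr χ.2)
  choose a ha using h0
  have h0' : ∀ χ : IrrCharacter G, ∃ b : ℕ, classInner (fun n : N => (χ : G → ℂ) n) θ = b := fun χ =>
    inner_char_natCast (isCharacter_restrict N (isCharacter_of_isIrr χ.2)) (isCharacter_of_isIrr hθ)
  choose b hb using h0'
  have h1 := mem_classFun_expand (isClassFunction_of_isCharacter hπc)
  have h2 : m = ∑ χ : IrrCharacter G, a χ * b χ := by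
    have h3 : ((m : ℕ) : ℂ) = ((∑ χ : IrrCharacter G, a χ * b χ : ℕ) : ℂ) := by
      rw [← hin]
      have e : (fun n : N => π n) =
          ∑ χ : IrrCharacter G, (classInner π (χ : G → ℂ)) • (fun n : N => (χ : G → ℂ) n) := by
        funext n
        have := congrFun h1 n
        rw [this, Finset.sum_apply, Finset.sum_apply]
        rfl
      rw [e, inner_sum_left]
      push_cast
      refine Finset.sum_congr rfl fun χ _ => ?_
      rw [H18.CharOrtho.inner_smul_left, ha, hb]
    exact_mod_cast h3
  rw [h2] at hm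
  obtain ⟨χ, hχ1, hχ2⟩ := exists_fixed_odd conjIrr conjIrr_invol (fun χ => a χ * b χ) (by
    intro χ
    have h3 := inner_conjIrr hπc hπr χ
    rw [ha, ha] at h3
    have h4 : a (conjIrr χ) = a χ := by exact_mod_cast h3
    have h5 : b (conjIrr χ) = b χ := by
      have h6 : classInner (fun n : N => (conjIrr χ : G → ℂ) n) θ =
          conj (classInner (fun n : N => (χ : G → ℂ) n) (conjFunN N g θ)) := by
        rw [hg]
        have h7 := inner_conj_conj (G := N) (fun n : N => (χ : G → ℂ) n) (fun n => conj (θ n))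
        simp only [Complex.conj_conj] at h7
        exact h7
      rw [inner_restrict_cj N g (isClassFunction_of_isIrr χ.2), hb, hb, Complex.conj_natCast] at h6
      exact_mod_cast h6
    simp only [h4, h5]) hm
  obtain ⟨h3, h4⟩ := Nat.odd_mul.1 hχ2
  refine ⟨χ, (conjIrr_eq_iff χ).1 hχ1, ⟨a χ, h3, ?_⟩, b χ, h4, hb χ⟩
  rw [← ha χ, hπ]
  have h5 := frobenius H (fun _ => (1 : ℂ)) (isClassFunction_of_isIrr χ.2)
  rw [h5, ← H18.CharOrtho.inner_conj_symm, ← h5, ← hπ, ha, Complex.conj_natCast]

/-- The statement S4872. -/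
theorem exists_strongly_real [Fintype N] (h2 : IsPGroup 2 (G ⧸ N)) (φ : IrrCharacter N)
    (hdef : 2 ^ (Nat.card N).factorization 2 ∣ charDegree (φ : N → ℂ)) (g : G)
    (hg : conjFunN N g (φ : N → ℂ) = fun n => conj ((φ : N → ℂ) n)) :
    ∃ χ : IrrCharacter G, nu (χ : G → ℂ) = 1 ∧
      classInner (fun n : N => (χ : G → ℂ) n) (φ : N → ℂ) = 1 := by
  classical
  haveI : Fact (Nat.Prime 2) := ⟨Nat.prime_two⟩
  obtain ⟨M, hM⟩ := H78.Cong.exists_isPModular Nat.prime_two
  -- defect zero
  have hdeg : (charDegree (φ : N → ℂ)).factorization 2 = (Nat.card N).factorization 2 := by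
    apply le_antisymm
    · exact (Nat.factorization_le_iff_dvd (H20.Defect.charDegree_ne_zero φ) Nat.card_pos.ne').mpr
        (H20.Defect.charDegree_dvd_card φ) 2
    · exact (Nat.prime_two.pow_dvd_iff_le_factorization (H20.Defect.charDegree_ne_zero φ)).mp hdef
  have hvan : ∀ n : N, 2 ∣ orderOf n → (φ : N → ℂ) n = 0 := fun n hn =>
    H20.DefZero.vanish_of_full_degree hM hdeg hn
  -- the Sylow subgroup
  let S : Sylow 2 G := default
  letI : Fintype (S : Subgroup G) := Fintype.ofFinite _
  have hind0 : ∀ s : (S : Subgroup G), s ≠ 1 → indFun N (φ : N → ℂ) s = 0 := by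
    intro s hs
    by_cases hsN : (s : G) ∈ N
    · have h3 := ind_restrict_apply N (φ : N → ℂ) ⟨s, hsN⟩
      have h4 : indFun N (φ : N → ℂ) (s : G) = indFun N (φ : N → ℂ) ((⟨s, hsN⟩ : N) : G) := rfl
      rw [h4, h3, Finset.sum_eq_zero, mul_zero]
      intro x _
      rw [cj_apply]
      apply hvan
      have h5 : orderOf (⟨x * s * x⁻¹, hN.conj_mem s hsN x⟩ : N) = orderOf (s : G) := by
        rw [Subgroup.orderOf_mk]
        exact MulEquiv.orderOf_eq (MulAut.conj x) (s : G)
      rw [h5]
      obtain ⟨k, hk⟩ := IsPGroup.iff_orderOf.mp S.2 s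
      rw [Subgroup.orderOf_coe, hk]
      apply dvd_pow_self
      rintro rfl
      rw [pow_zero, orderOf_eq_one_iff] at hk
      exact hs hk
    · exact ind_not_mem N _ hsN
  have hcardS : Nat.card (S : Subgroup G) = N.index * 2 ^ (Nat.card N).factorization 2 := by
    rw [S.card_eq_multiplicity]
    obtain ⟨k, hk⟩ := IsPGroup.iff_card.mp h2
    rw [← Subgroup.index_eq_card] at hk
    have h3 := Subgroup.card_mul_index N
    rw [← h3, hk, Nat.factorization_mul Nat.card_pos.ne' (by positivity), Finsupp.add_apply,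
      Nat.Prime.factorization_pow Nat.prime_two, Finsupp.single_eq_same, pow_add, mul_comm]
  obtain ⟨m, hm⟩ := hdef
  have hmodd : Odd m := by
    rw [← Nat.not_even_iff_odd, even_iff_two_dvd]
    rintro ⟨j, rfl⟩
    have h3 : 2 ^ ((Nat.card N).factorization 2 + 1) ∣ charDegree (φ : N → ℂ) := by
      rw [hm, pow_succ]; exact mul_dvd_mul_left _ (dvd_mul_right 2 j)
    have h4 := (Nat.prime_two.pow_dvd_iff_le_factorization (H20.Defect.charDegree_ne_zero φ)).mp h3
    omega
  have hin : classInner (fun n : N => indFun (S : Subgroup G) (fun _ => (1 : ℂ)) n) (φ : N → ℂ) = m := by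
    have hc1 : IsClassFunction G (indFun (S : Subgroup G) (fun _ => (1 : ℂ))) :=
      isClassFunction_indFun _ _
    have hc2 : IsClassFunction G (indFun N (φ : N → ℂ)) := isClassFunction_indFun _ _
    have h3 := frobenius N (φ : N → ℂ) hc1
    have h4 := frobenius (S : Subgroup G) (fun _ => (1 : ℂ)) hc2
    rw [← H18.CharOrtho.inner_conj_symm, ← h3, H18.CharOrtho.inner_conj_symm, h4]
    unfold classInner
    rw [Finset.sum_eq_single (1 : (S : Subgroup G))]
    · show (Nat.card (S : Subgroup G) : ℂ)⁻¹ * (1 * conj (indFun N (φ : N → ℂ) (1 : G))) = m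
      rw [indFun_one, ← H20.Defect.charDegree_irr, hm, hcardS]
      have h5 : (N.index : ℂ) ≠ 0 := by exact_mod_cast Subgroup.index_ne_zero_of_finite
      simp only [map_mul, Complex.conj_natCast]
      push_cast
      field_simp
    · intro s _ hs
      show 1 * conj (indFun N (φ : N → ℂ) s) = 0
      rw [hind0 s hs, map_zero, mul_zero]
    · intro h; exact absurd (Finset.mem_univ _) h
  obtain ⟨χ, hχr, ⟨a, ha, ha'⟩, b, hb, hb'⟩ := exists_real_perm N (S : Subgroup G) φ.2 g hg m hmodd hin
  refine ⟨χ, ?_, ?_⟩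
  · have h3 := nu_eq_of_odd χ.2 (isIrrCharacter_one (G := (S : Subgroup G))) hχr (fun _ => by simp) a ha ha'
    rw [h3, nu_eq]
    simp
  · have h3 := H19.CharExt.dvd_index χ.2 φ.2 (by
      rw [hb']; intro h
      have : b = 0 := by exact_mod_cast h
      rw [this] at hb; simp at hb) _ _ (H20.Defect.charDegree_irr χ).symm
      (H20.Defect.charDegree_irr φ).symm
    have h4 := degree_eq N χ.2 φ.2 (by
      rw [hb']; intro h
      have : b = 0 := by exact_mod_cast h
      rw [this] at hb; simp at hb)
    rw [hb', ← H20.Defect.charDegree_irr, ← H20.Defect.charDegree_irr] at h4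
    have h5 : charDegree (χ : G → ℂ) = b * (inertia N (φ : N → ℂ)).index * charDegree (φ : N → ℂ) := by
      exact_mod_cast h4
    have h6 : charDegree (χ : G → ℂ) / charDegree (φ : N → ℂ) = b * (inertia N (φ : N → ℂ)).index := by
      rw [h5]
      exact Nat.mul_div_cancel _ (Nat.pos_of_ne_zero (H20.Defect.charDegree_ne_zero φ))
    have h7 : b ∣ N.index := by
      have := h3.2
      rw [h6] at this
      exact (dvd_mul_right b _).trans this
    obtain ⟨k, hk⟩ := IsPGroup.iff_card.mp h2
    rw [← Subgroup.index_eq_card] at hk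
    rw [hk] at h7
    obtain ⟨j, -, hj⟩ := (Nat.dvd_prime_pow Nat.prime_two).mp h7
    have hj0 : j = 0 := by
      by_contra hj0
      rw [hj] at hb
      exact (Nat.not_even_iff_odd.mpr hb) (Nat.even_pow.mpr ⟨even_two, hj0⟩)
    rw [hb', hj, hj0]; simp

end H83.StrReal
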