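import Mathlib
import Cfsg.Agent.Lib.H83.GlaubReal
import Cfsg.Agent.Lib.H83.Schur
import Cfsg.Agent.Lib.H5.BurnsideZero
import Cfsg.Agent.Lib.H78.Cong
import Cfsg.Agent.Lib.H20.Loc
import Cfsg.Agent.Lib.H62.Derangement
import Cfsg.Agent.Lib.H1.Cores

/-!
Groups whose vanishing elements are all `p`-elements.
-/

set_option autoImplicit false
set_option linter.unusedSectionVars false
set_option linter.style.haveILetI false

namespace H83.Vanish

open Cfsg H18.CharBasic H18.CharOrtho H18.CharInd H18.CharQuot H31.Clifford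
open scoped ComplexConjugate

universe u v w

section central

/-- central elements act by scalars -/
theorem central_scalar {G : Type u} [Group G] {χ : G → ℂ} (hχ : IsIrrCharacter G χ) {z : G}
    (hz : ∀ g : G, g * z = z * g) : ∃ c : ℂ, ∀ x, χ (x * z) = c * χ x := by
  obtain ⟨n, ρ, hρ, rfl⟩ := hχ
  obtain ⟨c, hc⟩ := H83.Schur.scalar_of_commute ρ hρ (ρ z) (fun g => by
    rw [← map_mul, ← map_mul, hz])
  refine ⟨c, fun x => ?_⟩
  rw [Representation.character, map_mul, hc]
  simp [Representation.character]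

/-- In a `p`-group nonvanishing elements are central. -/
theorem center_of_nonvanishing (n : ℕ) : ∀ {G : Type u} [Group G] [Finite G] (_ : Nat.card G = n)
    (p : ℕ) [Fact p.Prime] (_ : IsPGroup p G) (x : G)
    (_ : ∀ χ : G → ℂ, IsIrrCharacter G χ → χ x ≠ 0), x ∈ Subgroup.center G := by
  induction n using Nat.strong_induction_on with
  | _ n ih =>
    intro G _ _ hn p _ hG x hx
    by_cases hnt : Nontrivial G
    · have hZ : Nontrivial (Subgroup.center G) := hG.center_nontrivial
      have hlt : Nat.card (G ⧸ Subgroup.center G) < n := by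
        rw [← hn, Subgroup.card_eq_card_quotient_mul_card_subgroup (Subgroup.center G)]
        exact lt_mul_of_one_lt_right Nat.card_pos Finite.one_lt_card
      have h1 := ih _ hlt rfl p (hG.to_quotient (Subgroup.center G)) (QuotientGroup.mk x)
        (fun χ hχ => hx _ (isIrrCharacter_inflate (Subgroup.center G) hχ))
      by_contra hxc
      rw [Subgroup.mem_center_iff] at hxc
      push Not at hxc
      obtain ⟨g, hg⟩ := hxc
      let z := x⁻¹ * (g⁻¹ * x * g)
      have hzc : z ∈ Subgroup.center G := by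
        rw [← QuotientGroup.eq_one_iff]
        have h2 := Subgroup.mem_center_iff.1 h1 (QuotientGroup.mk g)
        change (QuotientGroup.mk x : G ⧸ Subgroup.center G)⁻¹ * ((QuotientGroup.mk g)⁻¹ * QuotientGroup.mk x * QuotientGroup.mk g) = 1
        rw [mul_assoc (QuotientGroup.mk g : G ⧸ Subgroup.center G)⁻¹, ← h2]
        group
      have hz1 : z ≠ 1 := by
        intro h
        apply hg
        have h2 : g⁻¹ * x * g = x := by
          have : x⁻¹ * (g⁻¹ * x * g) = 1 := h
          rw [inv_mul_eq_one] at this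
          exact this.symm
        calc g * x = g * (g⁻¹ * x * g) := by rw [h2]
          _ = x * g := by group
      obtain ⟨χ, hχ, hχz⟩ : ∃ χ : G → ℂ, IsIrrCharacter G χ ∧ χ z ≠ χ 1 := by
        by_contra hcon
        push Not at hcon
        exact hz1 (eq_one_of_forall_irr hcon)
      obtain ⟨c, hc⟩ := central_scalar hχ (fun g => Subgroup.mem_center_iff.1 hzc g)
      have h3 : χ (x * z) = χ x := by
        have h4 : x * z = g⁻¹ * x * (g⁻¹)⁻¹ := by
          change x * (x⁻¹ * (g⁻¹ * x * g)) = _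
          group
        rw [h4]
        exact isClassFunction_of_isIrr hχ x g⁻¹
      rw [hc] at h3
      have h5 : (c - 1) * χ x = 0 := by linear_combination h3
      rcases mul_eq_zero.1 h5 with h6 | h6
      · apply hχz
        have h7 := hc 1
        rw [one_mul, sub_eq_zero.1 h6, one_mul] at h7
        exact h7
      · exact hx χ hχ h6
    · rw [not_nontrivial_iff_subsingleton] at hnt
      rw [Subsingleton.elim x 1]
      exact (Subgroup.center G).one_mem

end central

section main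

variable {G : Type u} [Group G] [Finite G] {p : ℕ} [hp : Fact p.Prime]

theorem dvd_degree (hvan : ∀ g : G, (∃ χ : IrrCharacter G, (χ : G → ℂ) g = 0) → ∃ m : ℕ, 1 ≤ m ∧ orderOf g = p ^ m)
    (χ : IrrCharacter G) (h : charDegree (χ : G → ℂ) ≠ 1) : p ∣ charDegree (χ : G → ℂ) := by
  obtain ⟨M, hM⟩ := H78.Cong.exists_isPModular hp.out
  obtain ⟨g, hg⟩ := H5.BurnsideZero.exists_zero χ.2 (by
    intro h1
    apply h
    apply H83.ExtInd.charDegree_of_eq
    rw [h1, Nat.cast_one])
  obtain ⟨m, -, hm⟩ := hvan g ⟨χ, hg⟩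
  have h1 := H78.Cong.char_congr_one hM (isCharacter_of_isIrr χ.2) (g := g) (k := m) (by
    rw [← hm]; exact pow_orderOf_eq_one g)
  haveI := H20.Loc.pm_isPrime hM
  rw [hg, zero_sub, ← H83.ExtInd.charDegree_cast_irr] at h1
  have h2 := H20.Loc.locI_neg h1
  rw [neg_neg] at h2
  exact (H20.Loc.locI_natCast_iff hM).1 h2

/-- an element whose order has a factor prime to `p` does not vanish -/
theorem nonvan_of (hvan : ∀ g : G, (∃ χ : IrrCharacter G, (χ : G → ℂ) g = 0) → ∃ m : ℕ, 1 ≤ m ∧ orderOf g = p ^ m)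
    {N : Subgroup G} (hNp : (Nat.card N).Coprime p) {x n : G} (hn : n ∈ N) (hn1 : n ≠ 1)
    (hcomm : Commute x n) (k : ℕ) (hx : orderOf x = p ^ k) : ∀ χ : G → ℂ, IsIrrCharacter G χ → χ (x * n) ≠ 0 := by
  intro χ hχ h0
  obtain ⟨m, -, hm⟩ := hvan (x * n) ⟨⟨χ, hχ⟩, h0⟩
  have hon : (orderOf n).Coprime p := by
    have h1 : orderOf n ∣ Nat.card N := by
      have h2 := orderOf_dvd_natCard (⟨n, hn⟩ : N)
      rwa [Subgroup.orderOf_mk] at h2
    exact Nat.Coprime.coprime_dvd_left h1 hNp
  have hcop : (orderOf x).Coprime (orderOf n) := by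
    rw [hx]; exact (hon.symm.pow_left k)
  rw [hcomm.orderOf_mul_eq_mul_orderOf_of_coprime hcop] at hm
  have h3 : orderOf n ∣ p ^ m := ⟨orderOf x, by rw [← hm, mul_comm]⟩
  have h4 : orderOf n = 1 := Nat.Coprime.eq_one_of_dvd (hon.pow_right m) h3
  exact hn1 (orderOf_eq_one_iff.1 h4)

/-- Claim B -/
theorem central_mod (hvan : ∀ g : G, (∃ χ : IrrCharacter G, (χ : G → ℂ) g = 0) → ∃ m : ℕ, 1 ≤ m ∧ orderOf g = p ^ m)
    {N : Subgroup G} [hN : N.Normal] (hNp : (Nat.card N).Coprime p) (hGN : IsPGroup p (G ⧸ N)) {x n : G}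
    (hn : n ∈ N) (hn1 : n ≠ 1) (hcomm : Commute x n) (k : ℕ) (hx : orderOf x = p ^ k) :
    (QuotientGroup.mk x : G ⧸ N) ∈ Subgroup.center (G ⧸ N) := by
  refine center_of_nonvanishing _ rfl p hGN _ ?_
  intro χ hχ h0
  refine nonvan_of hvan hNp hn hn1 hcomm k hx _ (isIrrCharacter_inflate N hχ) ?_
  have h1 : (QuotientGroup.mk (x * n) : G ⧸ N) = QuotientGroup.mk x := by
    rw [QuotientGroup.mk_mul, (QuotientGroup.eq_one_iff n).2 hn, mul_one]
  change χ (QuotientGroup.mk (x * n)) = 0
  rw [h1]; exact h0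

/-- Claim C -/
theorem inertia_mem (hvan : ∀ g : G, (∃ χ : IrrCharacter G, (χ : G → ℂ) g = 0) → ∃ m : ℕ, 1 ≤ m ∧ orderOf g = p ^ m)
    {N : Subgroup G} [hN : N.Normal] (hNp : (Nat.card N).Coprime p) (hGN : IsPGroup p (G ⧸ N)) {x n : G}
    (hn : n ∈ N) (hn1 : n ≠ 1) (hcomm : Commute x n) (k : ℕ) (hx : orderOf x = p ^ k)
    {θ : N → ℂ} (hθ : IsIrrCharacter N θ) : x ∈ inertia N θ := by
  classical
  letI := Fintype.ofFinite G
  letI := Fintype.ofFinite N
  have hcen := central_mod hvan hNp hGN hn hn1 hcomm k hx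
  by_contra hxT
  let T := inertia N θ
  have hNT : N ≤ T := le_inertia N (isClassFunction_of_isIrr hθ)
  letI : Fintype T := Fintype.ofFinite T
  letI : Fintype (N.subgroupOf T) := Fintype.ofFinite _
  obtain ⟨ψ, hψ, h1⟩ := exists_over (N.subgroupOf T) (irr_thT N T hNT hθ)
  rw [inner_thT N T hNT] at h1
  have h2 := (corr_irr N T hNT hθ (fun g => Iff.rfl) hψ h1).1
  refine nonvan_of hvan hNp hn hn1 hcomm k hx _ h2 ?_
  rw [indFun_apply, Finset.sum_eq_zero, mul_zero]
  intro g _
  apply ext_notMem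
  intro hmem
  apply hxT
  have h3 : (QuotientGroup.mk (g⁻¹ * (x * n) * g) : G ⧸ N) = QuotientGroup.mk x := by
    have h4 := Subgroup.mem_center_iff.1 hcen (QuotientGroup.mk g)⁻¹
    change (QuotientGroup.mk g : G ⧸ N)⁻¹ * ((QuotientGroup.mk x : G ⧸ N) * QuotientGroup.mk n) * QuotientGroup.mk g = QuotientGroup.mk x
    rw [(QuotientGroup.eq_one_iff n).2 hn, mul_one, h4]
    group
  have h5 : (g⁻¹ * (x * n) * g)⁻¹ * x ∈ N := QuotientGroup.eq.1 h3
  have h6 : x = (g⁻¹ * (x * n) * g) * ((g⁻¹ * (x * n) * g)⁻¹ * x) := by group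
  rw [h6]
  exact T.mul_mem hmem (hNT h5)

/-- Claim D -/
theorem centralizes {N : Subgroup G} [hN : N.Normal] (hNp : (Nat.card N).Coprime p) {x : G} (k : ℕ)
    (hx : orderOf x = p ^ k) (hfix : ∀ θ : N → ℂ, IsIrrCharacter N θ → x ∈ inertia N θ) :
    ∀ n ∈ N, x * n = n * x := by
  classical
  letI := Fintype.ofFinite N
  let S : Subgroup G := Subgroup.zpowers x
  have hS : IsPGroup p S := by
    apply IsPGroup.of_card (n := k)
    rw [Nat.card_zpowers, hx]
  have hnorm : ∀ s ∈ S, ∀ g ∈ N, s * g * s⁻¹ ∈ N := fun s _ g hg => hN.conj_mem g hg s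
  let C : Subgroup G := N ⊓ Subgroup.centralizer (S : Set G)
  have hCN : C ≤ N := inf_le_left
  letI := Fintype.ofFinite C
  have hC := H77.CopSub.hC_iff N S hnorm (C := C) rfl hCN
  have hι := Subgroup.inclusion_injective hCN
  have hNp' : ¬ p ∣ Nat.card N := by
    intro h
    exact hp.out.one_lt.ne' (Nat.Coprime.eq_one_of_dvd hNp.symm h)
  have hfixS : ∀ s ∈ S, ∀ θ : N → ℂ, IsIrrCharacter N θ → s ∈ inertia N θ := by
    intro s hs θ hθ
    have h1 : S ≤ inertia N θ := by
      rw [Subgroup.zpowers_le]; exact hfix θ hθ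
    exact h1 hs
  have hclass : ∀ s ∈ S, ∀ n : N, IsConj (MulAut.conjNormal s n) n := by
    intro s hs n
    have h1 := H4.FixedCount.card_fixed_eq (G := N) (fun n => MulAut.conjNormal s n)
      (fun χ hχ => isIrrCharacter_conjN N s hχ)
    have h2 : Nat.card {χ : IrrCharacter N // (χ : N → ℂ) ∘ (fun n => MulAut.conjNormal s n) = (χ : N → ℂ)} =
        Nat.card (IrrCharacter N) :=
      Nat.card_congr (Equiv.subtypeUnivEquiv fun χ => hfixS s hs _ χ.2)
    rw [h2, card_irr_eq_card_conjClasses] at h1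
    -- so every class is fixed
    by_contra hcon
    have h3 : Nat.card {C : ConjClasses N // ∀ g : N, ConjClasses.mk g = C → IsConj (MulAut.conjNormal s g) g} <
        Nat.card (ConjClasses N) := by
      refine Finite.card_subtype_lt (x := ConjClasses.mk n) ?_
      intro h
      exact hcon (h n rfl)
    rw [← h1] at h3
    exact lt_irrefl _ h3
  have hall : ∀ n : N, ∃ c : C, IsConj n (Subgroup.inclusion hCN c) := by
    intro n
    refine H83.GlaubReal.exists_fixed_of_class (H77.CopSub.conjHom N S hnorm) hS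
      (Subgroup.inclusion hCN) hι hC hNp' n (fun s => ?_)
    exact (hclass s s.2 n).symm
  have htop : (C.subgroupOf N) = ⊤ := by
    by_contra hne
    obtain ⟨g, hg⟩ := H62.Derangement.exists_not_mem_conj (C.subgroupOf N) hne
    obtain ⟨c, hc⟩ := hall g
    obtain ⟨y, hy⟩ := isConj_iff.1 hc
    apply hg y⁻¹
    rw [inv_inv, hy, Subgroup.mem_subgroupOf]
    exact c.2
  intro n hn
  have h1 : (⟨n, hn⟩ : N) ∈ C.subgroupOf N := by rw [htop]; trivial
  rw [Subgroup.mem_subgroupOf] at h1
  exact Subgroup.mem_centralizer_iff.1 (Subgroup.mem_inf.1 h1).2 x (Subgroup.mem_zpowers x)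

end main

end H83.Vanish
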