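import Mathlib
import Cfsg.Agent.Lib.H83.Vanish

/-!
Groups whose vanishing elements are all `p`-elements: structure, given a normal `p`-complement.
-/

set_option autoImplicit false
set_option linter.unusedSectionVars false
set_option linter.style.haveILetI false

namespace H83.Vanish

open Cfsg H18.CharBasic H18.CharOrtho H18.CharInd H18.CharQuot H31.Clifford
open scoped ComplexConjugate Pointwise

universe u v w

variable {G : Type u} [Group G] [Finite G] {p : ℕ} [hp : Fact p.Prime]

theorem orderOf_of_mem {P : Subgroup G} (hP : IsPGroup p P) {x : G} (hx : x ∈ P) : ∃ k, orderOf x = p ^ k := by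
  obtain ⟨k, hk⟩ := hP ⟨x, hx⟩
  have h1 : orderOf x ∣ p ^ k := by
    apply orderOf_dvd_of_pow_eq_one
    exact congrArg Subtype.val hk
  obtain ⟨j, -, hj⟩ := (Nat.dvd_prime_pow hp.out).1 h1
  exact ⟨j, hj⟩

theorem structure_main (hna : ¬ IsMulCommutative G)
    (hvan : ∀ g : G, (∃ χ : IrrCharacter G, (χ : G → ℂ) g = 0) → ∃ m : ℕ, 1 ≤ m ∧ orderOf g = p ^ m)
    (N : Subgroup G) (hN : N.Normal) (hNp : (Nat.card N).Coprime p) (a : ℕ) (hidx : N.index = p ^ a) :
    IsPGroup p G ∨ (Subgroup.center G = pCore p G ∧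
      ∃ H : Subgroup (G ⧸ Subgroup.center G), IsFrobeniusComplement H ∧ IsPGroup p H) := by
  classical
  letI := Fintype.ofFinite G
  letI := Fintype.ofFinite N
  by_cases hNb : N = ⊥
  · left
    subst hNb
    rw [Subgroup.index_bot] at hidx
    exact IsPGroup.of_card hidx
  right
  have hGN : IsPGroup p (G ⧸ N) := IsPGroup.of_card (n := a) (by rw [← hidx]; rfl)
  obtain ⟨P⟩ : Nonempty (Sylow p G) := inferInstance
  have hPN : N ⊓ (P : Subgroup G) = ⊥ := by
    have h1 : (Nat.card N).Coprime (Nat.card (P : Subgroup G)) := by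
      obtain ⟨k, hk⟩ := IsPGroup.iff_card.1 P.isPGroup'
      rw [hk]; exact hNp.pow_right k
    exact Subgroup.inf_eq_bot_of_coprime h1
  have hcardP : Nat.card (P : Subgroup G) = p ^ a := by
    have h2 : Nat.card N * p ^ a = Nat.card G := by rw [← hidx]; exact N.card_mul_index
    have h3 := P.card_eq_multiplicity
    rw [h3, ← h2]
    congr 1
    have hN0 : Nat.card N ≠ 0 := Nat.card_pos.ne'
    have hp0 : p ^ a ≠ 0 := pow_ne_zero _ hp.out.ne_zero
    rw [Nat.factorization_mul hN0 hp0]
    have h4 : (Nat.card N).factorization p = 0 := by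
      apply Nat.factorization_eq_zero_of_not_dvd
      intro h
      exact hp.out.one_lt.ne' (Nat.Coprime.eq_one_of_dvd hNp.symm h)
    rw [Finsupp.add_apply, h4, zero_add, hp.out.factorization_pow, Finsupp.single_eq_same]
  have hc : N.IsComplement' (P : Subgroup G) := by
    apply Subgroup.isComplement'_of_card_mul_and_disjoint
    · rw [hcardP, ← hidx]; exact N.card_mul_index
    · rwa [disjoint_iff]
  have hdec : ∀ g : G, ∃ m ∈ N, ∃ s ∈ (P : Subgroup G), m * s = g := by
    intro g
    have h1 : g ∈ N ⊔ (P : Subgroup G) := by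
      rw [hc.sup_eq_top]; trivial
    exact Subgroup.mem_sup_of_normal_left.1 h1
  -- Claim E
  have hE : ∀ x ∈ (P : Subgroup G), ∀ n ∈ N, n ≠ 1 → x * n = n * x → x ∈ Subgroup.center G := by
    intro x hx n hn hn1 hcomm
    obtain ⟨k, hk⟩ := orderOf_of_mem P.isPGroup' hx
    have h1 := centralizes hNp k hk (fun θ hθ => inertia_mem hvan hNp hGN hn hn1 hcomm k hk hθ)
    have h2 := central_mod hvan hNp hGN hn hn1 hcomm k hk
    rw [Subgroup.mem_center_iff]
    intro g
    obtain ⟨m, hm, s, hs, rfl⟩ := hdec g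
    have h3 : s * x = x * s := by
      have h4 := Subgroup.mem_center_iff.1 h2 (QuotientGroup.mk s)
      have h5 : (QuotientGroup.mk (s * x) : G ⧸ N) = QuotientGroup.mk (x * s) := h4
      have h6 : (s * x)⁻¹ * (x * s) ∈ N := QuotientGroup.eq.1 h5
      have h7 : (s * x)⁻¹ * (x * s) ∈ N ⊓ (P : Subgroup G) :=
        Subgroup.mem_inf.2 ⟨h6, (P : Subgroup G).mul_mem ((P : Subgroup G).inv_mem ((P : Subgroup G).mul_mem hs hx))
          ((P : Subgroup G).mul_mem hx hs)⟩
      rw [hPN, Subgroup.mem_bot, inv_mul_eq_one] at h7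
      exact h7
    rw [mul_assoc, h3, ← mul_assoc, ← h1 m hm, mul_assoc]
  -- P is not central
  have hPc : ¬ (P : Subgroup G) ≤ Subgroup.center G := by
    intro hPc
    -- N is not commutative
    have hNna : ∃ θ : N → ℂ, IsIrrCharacter N θ ∧ θ 1 ≠ 1 := by
      by_contra hcon
      push Not at hcon
      apply hna
      have hNc : ∀ u v : N, u * v = v * u := by
        intro u v
        have h1 : u * v * u⁻¹ * v⁻¹ = 1 := by
          apply eq_one_of_forall_irr
          intro θ hθ
          obtain ⟨f, rfl⟩ := exists_hom_of_degree_one (isCharacter_of_isIrr hθ) (hcon θ hθ)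
          change ((f (u * v * u⁻¹ * v⁻¹) : ℂˣ) : ℂ) = (f 1 : ℂˣ)
          rw [map_mul, map_mul, map_mul, map_inv, map_inv, map_one]
          rw [mul_right_comm (f u) (f v), mul_inv_cancel, one_mul, mul_inv_cancel]
        have h2 : u * v * u⁻¹ = v := by rw [mul_inv_eq_one] at h1; exact h1
        calc u * v = (u * v * u⁻¹) * u := by group
          _ = v * u := by rw [h2]
      refine ⟨⟨fun g h => ?_⟩⟩
      obtain ⟨m, hm, s, hs, rfl⟩ := hdec g
      obtain ⟨m', hm', s', hs', rfl⟩ := hdec h
      have e1 := Subgroup.mem_center_iff.1 (hPc hs)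
      have e2 := Subgroup.mem_center_iff.1 (hPc hs')
      have e3 : m * m' = m' * m := congrArg Subtype.val (hNc ⟨m, hm⟩ ⟨m', hm'⟩)
      calc m * s * (m' * s') = m * (s * m') * s' := by group
        _ = (m * m') * (s * s') := by rw [← e1 m']; group
        _ = (m' * m) * (s' * s) := by rw [e3, e2 s]
        _ = m' * (m * s') * s := by group
        _ = m' * s' * (m * s) := by rw [e2 m]; group
    obtain ⟨θ, hθ, hθ1⟩ := hNna
    obtain ⟨n, hn⟩ := H5.BurnsideZero.exists_zero hθ hθ1
    obtain ⟨χ, hχ, h1⟩ := exists_over N hθ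
    have h2 := restrict_eq N hχ hθ h1
    have h3 : orb N θ = {θ} := by
      ext φ
      rw [mem_orb, Finset.mem_singleton]
      constructor
      · rintro ⟨g, rfl⟩
        obtain ⟨m, hm, s, hs, rfl⟩ := hdec g
        have h4 : m * s ∈ inertia N θ := by
          apply Subgroup.mul_mem _ (le_inertia N (isClassFunction_of_isIrr hθ) hm)
          rw [mem_inertia]
          funext y
          change θ (MulAut.conjNormal s y) = θ y
          congr 1
          apply Subtype.ext
          rw [MulAut.conjNormal_apply]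
          have := Subgroup.mem_center_iff.1 (hPc hs) y
          rw [← this]; group
        exact h4
      · rintro rfl
        exact ⟨1, (cj_one N _).symm⟩
    rw [h3, Finset.sum_singleton] at h2
    have h5 := congrFun h2 n
    rw [Pi.smul_apply, hn, smul_zero] at h5
    obtain ⟨m, hm1, hm⟩ := hvan (n : G) ⟨⟨χ, hχ⟩, h5⟩
    have h6 : orderOf (n : G) ∣ Nat.card N := by
      rw [Subgroup.orderOf_coe]; exact orderOf_dvd_natCard n
    have h7 : (orderOf (n : G)).Coprime (p ^ m) := (Nat.Coprime.coprime_dvd_left h6 hNp).pow_right m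
    rw [hm, Nat.coprime_self] at h7
    have : 1 < p ^ m := Nat.one_lt_pow (by omega) hp.out.one_lt
    omega
  have hZN : ∀ z ∈ Subgroup.center G, z ∈ N → z = 1 := by
    intro z hz hzN
    by_contra hz1
    apply hPc
    intro x hx
    exact hE x hx z hzN hz1 (Subgroup.mem_center_iff.1 hz x)
  have hZp : IsPGroup p (Subgroup.center G) := by
    intro z
    obtain ⟨k, hk⟩ := hGN (QuotientGroup.mk (z : G))
    refine ⟨k, Subtype.ext ?_⟩
    have h1 : ((z : G) ^ p ^ k) ∈ N := by
      rw [← QuotientGroup.eq_one_iff]; exact hk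
    exact hZN _ ((Subgroup.center G).pow_mem z.2 _) h1
  have hcore : Subgroup.center G = pCore p G := by
    apply le_antisymm
    · exact H1.Cores.le_pCore inferInstance hZp
    · intro x hx
      have hxP := H1.Cores.pCore_le_sylow P hx
      obtain ⟨n, hn, hn1⟩ : ∃ n ∈ N, n ≠ 1 := by
        by_contra hcon
        push Not at hcon
        apply hNb
        rw [eq_bot_iff]
        intro y hy
        exact hcon y hy
      refine hE x hxP n hn hn1 ?_
      have h1 : x * n * x⁻¹ * n⁻¹ ∈ N ⊓ (P : Subgroup G) := by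
        refine Subgroup.mem_inf.2 ⟨N.mul_mem (hN.conj_mem n hn x) (N.inv_mem hn), ?_⟩
        apply H1.Cores.pCore_le_sylow P
        have h2 : x * n * x⁻¹ * n⁻¹ = x * (n * x⁻¹ * n⁻¹) := by group
        rw [h2]
        exact (pCore p G).mul_mem hx ((H1.Cores.pCore_normal p).conj_mem _ ((pCore p G).inv_mem hx) n)
      rw [hPN, Subgroup.mem_bot, mul_inv_eq_one, mul_inv_eq_iff_eq_mul] at h1
      exact h1
  refine ⟨hcore, (P : Subgroup G).map (QuotientGroup.mk' (Subgroup.center G)), ⟨?_, ?_, ?_⟩, ?_⟩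
  · intro h
    apply hPc
    intro x hx
    have h1 : QuotientGroup.mk' (Subgroup.center G) x ∈ (P : Subgroup G).map (QuotientGroup.mk' (Subgroup.center G)) :=
      Subgroup.mem_map_of_mem _ hx
    rw [h, Subgroup.mem_bot] at h1
    exact (QuotientGroup.eq_one_iff x).1 h1
  · intro h
    apply hNb
    rw [eq_bot_iff]
    intro n hn
    have h1 : QuotientGroup.mk' (Subgroup.center G) n ∈ (P : Subgroup G).map (QuotientGroup.mk' (Subgroup.center G)) := by
      rw [h]; trivial
    obtain ⟨x, hx, h2⟩ := Subgroup.mem_map.1 h1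
    have h3 : x⁻¹ * n ∈ Subgroup.center G := QuotientGroup.eq.1 h2
    have h4 : x⁻¹ * n ∈ (P : Subgroup G) := by
      rw [hcore] at h3
      exact H1.Cores.pCore_le_sylow P h3
    have h5 : n ∈ (P : Subgroup G) := by
      have := (P : Subgroup G).mul_mem hx h4
      rwa [mul_inv_cancel_left] at this
    have h6 : n ∈ N ⊓ (P : Subgroup G) := Subgroup.mem_inf.2 ⟨hn, h5⟩
    rwa [hPN] at h6
  · intro g hg
    obtain ⟨γ, rfl⟩ := QuotientGroup.mk_surjective g
    obtain ⟨n, hn, s, hs, rfl⟩ := hdec γ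
    have hn1 : n ≠ 1 := by
      rintro rfl
      apply hg
      rw [one_mul]
      exact Subgroup.mem_map_of_mem _ hs
    rw [eq_bot_iff]
    intro h hh
    obtain ⟨hh1, hh2⟩ := Subgroup.mem_inf.1 hh
    obtain ⟨x, hx, rfl⟩ := Subgroup.mem_map.1 hh1
    rw [Subgroup.mem_smul_pointwise_iff_exists] at hh2
    obtain ⟨h', hh', hh2⟩ := hh2
    obtain ⟨y, hy, rfl⟩ := Subgroup.mem_map.1 hh'
    rw [MulAut.smul_def, MulAut.conj_apply] at hh2
    have h3 : (n * s * y * (n * s)⁻¹)⁻¹ * x ∈ Subgroup.center G := QuotientGroup.eq.1 hh2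
    set z := (n * s * y * (n * s)⁻¹)⁻¹ * x with hz
    have hzP : z ∈ (P : Subgroup G) := by
      rw [hcore] at h3
      exact H1.Cores.pCore_le_sylow P h3
    have h4 : x = n * (s * y * s⁻¹ * z) * n⁻¹ := by
      have h5 : x = (n * s * y * (n * s)⁻¹) * z := by rw [hz]; group
      have h6 := Subgroup.mem_center_iff.1 h3 n⁻¹
      rw [h5]
      calc n * s * y * (n * s)⁻¹ * z = n * (s * y * s⁻¹) * (n⁻¹ * z) := by group
        _ = n * (s * y * s⁻¹) * (z * n⁻¹) := by rw [h6]
        _ = n * (s * y * s⁻¹ * z) * n⁻¹ := by group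
    have hy2 : s * y * s⁻¹ * z ∈ (P : Subgroup G) :=
      (P : Subgroup G).mul_mem ((P : Subgroup G).mul_mem ((P : Subgroup G).mul_mem hs hy) ((P : Subgroup G).inv_mem hs)) hzP
    set y2 := s * y * s⁻¹ * z with hy2d
    have h7 : x * y2⁻¹ ∈ N ⊓ (P : Subgroup G) := by
      refine Subgroup.mem_inf.2 ⟨?_, (P : Subgroup G).mul_mem hx ((P : Subgroup G).inv_mem hy2)⟩
      have h8 : x * y2⁻¹ = n * (y2 * n⁻¹ * y2⁻¹) := by rw [h4]; group
      rw [h8]
      exact N.mul_mem hn (hN.conj_mem _ (N.inv_mem hn) y2)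
    rw [hPN, Subgroup.mem_bot, mul_inv_eq_one] at h7
    have h9 : x * n = n * x := by
      rw [← h7] at h4
      calc x * n = (n * x * n⁻¹) * n := by rw [← h4]
        _ = n * x := by group
    rw [Subgroup.mem_bot]
    exact (QuotientGroup.eq_one_iff x).2 (hE x hx n hn hn1 h9)
  · exact P.isPGroup'.map _

end H83.Vanish
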